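import Mathlib
import Cfsg.Agent.Lib.Helper45.SingClass2
import Cfsg.Agent.Lib.Helper45.PlusInndiag

set_option autoImplicit false

namespace Cfsg.Agent.Lib.Helper45.MinusInndiag

open Module QuadraticMap Matrix
open Cfsg.Agent.Lib.Helper44.QSpace Cfsg.Agent.Lib.Helper44.OGroup
open Cfsg.Agent.Lib.Helper44.OMat Cfsg.Agent.Lib.Helper44.NegPairs
open Cfsg.Agent.Lib.Helper44.MaxTS Cfsg.Agent.Lib.Helper44.MaxTS3
open Cfsg.Agent.Lib.Helper45.OmegaAut Cfsg.Agent.Lib.Helper45.OmegaAutPsi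
open Cfsg.Agent.Lib.Helper45.OmegaAutMain Cfsg.Agent.Lib.Helper45.OmegaInndiag
open Cfsg.Agent.Lib.Helper45.SingClass Cfsg.Agent.Lib.Helper45.SingClass2
open Cfsg.Agent.Lib.Helper45.PlusInndiag

universe u

section Field

variable {K : Type*} [Field K]

/-- Nondegeneracy of the minus-type form from the discriminant of its binary part. -/
theorem sep_minusQ' (h2 : (2 : K) ≠ 0) (m : ℕ) (a b : K) (hD : a ^ 2 - 4 * b ≠ 0) :
    Sep (minusQ m K a b) := by
  apply sep_of_H1 (minusQ m K a b) Sum.inl (minus_H1 m a b)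
  intro x hx k hk
  have h0 := hx (Pi.single (Sum.inr 0) 1)
  have h1 := hx (Pi.single (Sum.inr 1) 1)
  have e0 : polar (minusQ m K a b) x (Pi.single (Sum.inr 0) 1)
      = 2 * x (Sum.inr 0) + a * x (Sum.inr 1) := by
    show polar (Cfsg.quadFormMinus m K a b) x (Pi.single (Sum.inr 0) 1) = _
    unfold polar Cfsg.quadFormMinus
    simp
    ring
  have e1 : polar (minusQ m K a b) x (Pi.single (Sum.inr 1) 1)
      = a * x (Sum.inr 0) + 2 * b * x (Sum.inr 1) := by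
    show polar (Cfsg.quadFormMinus m K a b) x (Pi.single (Sum.inr 1) 1) = _
    unfold polar Cfsg.quadFormMinus
    simp
    ring
  rw [e0] at h0
  rw [e1] at h1
  have hx1 : x (Sum.inr 1) = 0 := by
    have : (a ^ 2 - 4 * b) * x (Sum.inr 1) = 0 := by linear_combination a * h0 - 2 * h1
    exact (mul_eq_zero.mp this).resolve_left hD
  have hx0 : x (Sum.inr 0) = 0 := by
    rw [hx1, mul_zero, add_zero] at h0
    exact (mul_eq_zero.mp h0).resolve_left h2
  rcases k with c | t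
  · exact absurd ⟨c, rfl⟩ hk
  · fin_cases t
    · exact hx0
    · exact hx1

/-- The matrix of `(x, y, z) ↦ (μ x, y, (s + tω) z)`. -/
def Dm (m : ℕ) (μ s t a b : K) :
    Matrix ((Fin m ⊕ Fin m) ⊕ Fin 2) ((Fin m ⊕ Fin m) ⊕ Fin 2) K :=
  Matrix.fromBlocks (Matrix.diagonal (Sum.elim (fun _ => μ) (fun _ => (1 : K)))) 0 0
    !![s, -(b * t); t, s + a * t]

theorem Dm_mulVec (m : ℕ) (μ s t a b : K) (v : (Fin m ⊕ Fin m) ⊕ Fin 2 → K) :
    Dm m μ s t a b *ᵥ v = Sum.elim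
      (Sum.elim (fun i => μ * v (Sum.inl (Sum.inl i))) (fun i => v (Sum.inl (Sum.inr i))))
      ![s * v (Sum.inr 0) - b * t * v (Sum.inr 1), t * v (Sum.inr 0) + (s + a * t) * v (Sum.inr 1)] := by
  have hv : v = Sum.elim (v ∘ Sum.inl) (v ∘ Sum.inr) := (Sum.elim_comp_inl_inr v).symm
  conv_lhs => rw [hv]
  unfold Dm
  rw [Matrix.fromBlocks_mulVec]
  funext i
  rcases i with (i | i) | i
  · simp [Matrix.mulVec_diagonal]
  · simp [Matrix.mulVec_diagonal]
  · fin_cases i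
    · simp [dotProduct, Fin.sum_univ_two]; ring
    · simp [dotProduct, Fin.sum_univ_two]

theorem Dm_sim (m : ℕ) (s t a b : K) (v : (Fin m ⊕ Fin m) ⊕ Fin 2 → K) :
    minusQ m K a b (Dm m (s ^ 2 + a * s * t + b * t ^ 2) s t a b *ᵥ v)
      = (s ^ 2 + a * s * t + b * t ^ 2) * minusQ m K a b v := by
  show Cfsg.quadFormMinus m K a b _ = _ * Cfsg.quadFormMinus m K a b v
  rw [Dm_mulVec]
  unfold Cfsg.quadFormMinus
  simp only [Sum.elim_inl, Sum.elim_inr, Matrix.cons_val_zero, Matrix.cons_val_one]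
  have hsum : ∑ i : Fin m, (s ^ 2 + a * s * t + b * t ^ 2) * v (Sum.inl (Sum.inl i))
        * v (Sum.inl (Sum.inr i))
      = (s ^ 2 + a * s * t + b * t ^ 2) * ∑ i : Fin m, v (Sum.inl (Sum.inl i)) * v (Sum.inl (Sum.inr i)) := by
    rw [Finset.mul_sum]
    apply Finset.sum_congr rfl
    intro i _
    ring
  rw [hsum]
  ring

theorem det_Dm (m : ℕ) (μ s t a b : K) :
    (Dm m μ s t a b).det = μ ^ m * (s ^ 2 + a * s * t + b * t ^ 2) := by
  unfold Dm
  rw [Matrix.det_fromBlocks_zero₂₁, Matrix.det_diagonal, Fintype.prod_sum_type, Matrix.det_fin_two_of]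
  simp only [Sum.elim_inl, Sum.elim_inr, Finset.prod_const, Finset.card_univ, Fintype.card_fin,
    one_pow, mul_one]
  ring

/-- The matrix of `(x, y, z) ↦ (y, μ x, (s + tω) z̄)`. -/
def Tm (m : ℕ) (μ s t a b : K) :
    Matrix ((Fin m ⊕ Fin m) ⊕ Fin 2) ((Fin m ⊕ Fin m) ⊕ Fin 2) K :=
  Matrix.fromBlocks (Matrix.fromBlocks (0 : Matrix (Fin m) (Fin m) K) (1 : Matrix (Fin m) (Fin m) K)
      (μ • (1 : Matrix (Fin m) (Fin m) K)) (0 : Matrix (Fin m) (Fin m) K)) 0 0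
    !![s, s * a + b * t; t, -s]

theorem Tm_mulVec (m : ℕ) (μ s t a b : K) (v : (Fin m ⊕ Fin m) ⊕ Fin 2 → K) :
    Tm m μ s t a b *ᵥ v = Sum.elim
      (Sum.elim (fun i => v (Sum.inl (Sum.inr i))) (fun i => μ * v (Sum.inl (Sum.inl i))))
      ![s * v (Sum.inr 0) + (s * a + b * t) * v (Sum.inr 1), t * v (Sum.inr 0) - s * v (Sum.inr 1)] := by
  have hv : v = Sum.elim (Sum.elim (fun i => v (Sum.inl (Sum.inl i))) (fun i => v (Sum.inl (Sum.inr i))))
      (v ∘ Sum.inr) := by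
    funext i
    rcases i with (i | i) | i <;> rfl
  conv_lhs => rw [hv]
  unfold Tm
  rw [Matrix.fromBlocks_mulVec, Matrix.fromBlocks_mulVec]
  funext i
  rcases i with (i | i) | i
  · simp
  · simp [Matrix.smul_mulVec]
  · fin_cases i
    · simp [dotProduct, Fin.sum_univ_two]
    · simp [dotProduct, Fin.sum_univ_two]; ring

theorem Tm_sim (m : ℕ) (s t a b : K) (v : (Fin m ⊕ Fin m) ⊕ Fin 2 → K) :
    minusQ m K a b (Tm m (s ^ 2 + a * s * t + b * t ^ 2) s t a b *ᵥ v)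
      = (s ^ 2 + a * s * t + b * t ^ 2) * minusQ m K a b v := by
  show Cfsg.quadFormMinus m K a b _ = _ * Cfsg.quadFormMinus m K a b v
  rw [Tm_mulVec]
  unfold Cfsg.quadFormMinus
  simp only [Sum.elim_inl, Sum.elim_inr, Matrix.cons_val_zero, Matrix.cons_val_one]
  have hsum : ∑ i : Fin m, v (Sum.inl (Sum.inr i)) * ((s ^ 2 + a * s * t + b * t ^ 2)
        * v (Sum.inl (Sum.inl i)))
      = (s ^ 2 + a * s * t + b * t ^ 2) * ∑ i : Fin m, v (Sum.inl (Sum.inl i)) * v (Sum.inl (Sum.inr i)) := by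
    rw [Finset.mul_sum]
    apply Finset.sum_congr rfl
    intro i _
    ring
  rw [hsum]
  ring

theorem Tm_Tm (m : ℕ) (s t a b : K) (v : (Fin m ⊕ Fin m) ⊕ Fin 2 → K) :
    Tm m (s ^ 2 + a * s * t + b * t ^ 2) s t a b *ᵥ (Tm m (s ^ 2 + a * s * t + b * t ^ 2) s t a b *ᵥ v)
      = (s ^ 2 + a * s * t + b * t ^ 2) • v := by
  rw [Tm_mulVec, Tm_mulVec]
  funext i
  rcases i with (i | i) | i
  · simp
  · simp
  · fin_cases i
    · simp; ring
    · simp; ring

theorem det_swap_block (m : ℕ) (μ : K) :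
    (Matrix.fromBlocks (0 : Matrix (Fin m) (Fin m) K) (1 : Matrix (Fin m) (Fin m) K)
      (μ • (1 : Matrix (Fin m) (Fin m) K)) (0 : Matrix (Fin m) (Fin m) K)).det
      = (-μ) ^ m := by
  have h1 : Matrix.fromBlocks (0 : Matrix (Fin m) (Fin m) K) (1 : Matrix (Fin m) (Fin m) K)
        (μ • (1 : Matrix (Fin m) (Fin m) K)) (0 : Matrix (Fin m) (Fin m) K)
      * Matrix.fromBlocks (1 : Matrix (Fin m) (Fin m) K) (0 : Matrix (Fin m) (Fin m) K)
        (1 : Matrix (Fin m) (Fin m) K) (1 : Matrix (Fin m) (Fin m) K)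
      = Matrix.fromBlocks (1 : Matrix (Fin m) (Fin m) K) (1 : Matrix (Fin m) (Fin m) K)
        (μ • (1 : Matrix (Fin m) (Fin m) K)) (0 : Matrix (Fin m) (Fin m) K) := by
    rw [Matrix.fromBlocks_multiply]
    simp
  have h3 := congrArg Matrix.det h1
  rw [Matrix.det_mul, Matrix.det_fromBlocks_zero₁₂, Matrix.det_one, Matrix.det_fromBlocks_one₁₁,
    mul_one, mul_one, mul_one, zero_sub] at h3
  rw [h3]
  have : -(μ • (1 : Matrix (Fin m) (Fin m) K)) = (-μ) • (1 : Matrix (Fin m) (Fin m) K) := by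
    rw [neg_smul]
  rw [this, Matrix.det_smul, Matrix.det_one, mul_one, Fintype.card_fin]

theorem det_Tm (m : ℕ) (μ s t a b : K) :
    (Tm m μ s t a b).det = (-μ) ^ m * (-(s ^ 2 + a * s * t + b * t ^ 2)) := by
  unfold Tm
  rw [Matrix.det_fromBlocks_zero₂₁, det_swap_block, Matrix.det_fin_two_of]
  ring

/-- The standard maximal totally singular subspace `y = 0`, `z₁ = ρ z₂` (`ρ` a root of the
binary part). -/
def Lx (m : ℕ) (ρ : K) : ((Fin m ⊕ Fin m) ⊕ Fin 2 → K) →ₗ[K] ((Fin m → K) × K) :=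
  LinearMap.prod (LinearMap.funLeft K K (fun i : Fin m => (Sum.inl (Sum.inr i) : (Fin m ⊕ Fin m) ⊕ Fin 2)))
    (LinearMap.proj (Sum.inr 0) - ρ • LinearMap.proj (Sum.inr 1))

def X0 (m : ℕ) (ρ : K) : Submodule K ((Fin m ⊕ Fin m) ⊕ Fin 2 → K) := LinearMap.ker (Lx m ρ)

theorem mem_X0 {m : ℕ} {ρ : K} (v : (Fin m ⊕ Fin m) ⊕ Fin 2 → K) :
    v ∈ X0 m ρ ↔ (∀ i, v (Sum.inl (Sum.inr i)) = 0) ∧ v (Sum.inr 0) = ρ * v (Sum.inr 1) := by
  unfold X0 Lx
  rw [LinearMap.mem_ker, LinearMap.prod_apply]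
  show (_, _) = (0 : (Fin m → K) × K) ↔ _
  rw [Prod.mk_eq_zero]
  constructor
  · rintro ⟨h1, h3⟩
    refine ⟨fun i => congrFun h1 i, ?_⟩
    simp only [LinearMap.sub_apply, LinearMap.proj_apply, LinearMap.smul_apply, smul_eq_mul] at h3
    exact sub_eq_zero.mp h3
  · rintro ⟨h1, h3⟩
    refine ⟨funext fun i => h1 i, ?_⟩
    simp only [LinearMap.sub_apply, LinearMap.proj_apply, LinearMap.smul_apply, smul_eq_mul]
    exact sub_eq_zero.mpr h3

theorem ts_X0 {m : ℕ} {a b ρ : K} (hS : Sep (minusQ m K a b)) (hρ : ρ ^ 2 + a * ρ + b = 0) :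
    TS (minusQ m K a b) (m + 1) (X0 m ρ) := by
  have hV : finrank K ((Fin m ⊕ Fin m) ⊕ Fin 2 → K) = 2 * (m + 1) := by
    rw [Module.finrank_fintype_fun_eq_card]
    simp only [Fintype.card_sum, Fintype.card_fin]; omega
  have hsing : ∀ u ∈ X0 m ρ, minusQ m K a b u = 0 := by
    intro u hu
    obtain ⟨h1, h3⟩ := (mem_X0 u).mp hu
    show Cfsg.quadFormMinus m K a b u = 0
    unfold Cfsg.quadFormMinus
    have hsum : ∑ i : Fin m, u (Sum.inl (Sum.inl i)) * u (Sum.inl (Sum.inr i)) = 0 := by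
      apply Finset.sum_eq_zero
      intro i _
      rw [h1 i, mul_zero]
    rw [hsum, h3]
    linear_combination (u (Sum.inr 1)) ^ 2 * hρ
  refine ⟨le_antisymm (Cfsg.Agent.Lib.Helper45.SingClass.ts_finrank_le hS hV hsing) ?_, hsing⟩
  have h1 := LinearMap.finrank_range_add_finrank_ker (Lx m ρ)
  have h3 : finrank K ↥(LinearMap.range (Lx m ρ)) ≤ m + 1 := by
    have h4 := Submodule.finrank_le (LinearMap.range (Lx m ρ))
    rw [Module.finrank_prod, Module.finrank_fintype_fun_eq_card, Fintype.card_fin,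
      Module.finrank_self] at h4
    exact h4
  rw [hV] at h1
  show m + 1 ≤ finrank K ↥(LinearMap.ker (Lx m ρ))
  omega

theorem Dm_map_X0 {m : ℕ} {μ s t a b ρ : K} (hρ : ρ ^ 2 + a * ρ + b = 0) :
    (X0 m ρ).map (Matrix.toLin' (Dm m μ s t a b)) ≤ X0 m ρ := by
  rintro _ ⟨v, hv, rfl⟩
  obtain ⟨h1, h3⟩ := (mem_X0 v).mp hv
  rw [Matrix.toLin'_apply, Dm_mulVec, mem_X0]
  refine ⟨fun i => ?_, ?_⟩
  · simp only [Sum.elim_inl, Sum.elim_inr]
    exact h1 i
  · simp only [Sum.elim_inr, Matrix.cons_val_zero, Matrix.cons_val_one]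
    rw [h3]
    linear_combination (-t * v (Sum.inr 1)) * hρ

end Field

section BaseChange

variable {F : Type*} [Field F] {K : Type*} [Field K]

theorem minus_map (f : F →+* K) (m : ℕ) (a b : F) (v : (Fin m ⊕ Fin m) ⊕ Fin 2 → F) :
    minusQ m K (f a) (f b) (f ∘ v) = f (minusQ m F a b v) := by
  show Cfsg.quadFormMinus m K (f a) (f b) (f ∘ v) = f (Cfsg.quadFormMinus m F a b v)
  unfold Cfsg.quadFormMinus
  simp [map_add, map_mul, map_sum, map_pow]

theorem Dm_map (f : F →+* K) (m : ℕ) (μ s t a b : F) :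
    (Dm m μ s t a b).map f = Dm m (f μ) (f s) (f t) (f a) (f b) := by
  unfold Dm
  rw [Matrix.fromBlocks_map, Matrix.diagonal_map (map_zero f)]
  congr 1
  · congr 1
    funext i
    rcases i with i | i <;> simp
  · ext i j; simp
  · ext i j; simp
  · ext i j
    fin_cases i <;> fin_cases j <;> simp

end BaseChange

section Finite

variable {F : Type u} [Field F] [Fintype F]

theorem disc_ne (h2 : (2 : F) ≠ 0) {a b : F}
    (hab : ∀ z₁ z₂ : F, z₁ ^ 2 + a * z₁ * z₂ + b * z₂ ^ 2 = 0 → z₁ = 0 ∧ z₂ = 0) :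
    a ^ 2 - 4 * b ≠ 0 := by
  intro hD
  have h4 : (4 : F) ≠ 0 := by
    have : (4 : F) = 2 * 2 := by norm_num
    rw [this]; exact mul_ne_zero h2 h2
  have := (hab (-a / 2) 1 (by field_simp; linear_combination -hD)).2
  exact one_ne_zero this

/-- The binary part represents every element. -/
theorem exists_norm (h2 : (2 : F) ≠ 0) {a b : F}
    (hab : ∀ z₁ z₂ : F, z₁ ^ 2 + a * z₁ * z₂ + b * z₂ ^ 2 = 0 → z₁ = 0 ∧ z₂ = 0) (ν : F) :
    ∃ s t : F, s ^ 2 + a * s * t + b * t ^ 2 = ν := by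
  have h4 : (4 : F) ≠ 0 := by
    have : (4 : F) = 2 * 2 := by norm_num
    rw [this]; exact mul_ne_zero h2 h2
  have hD : b - a ^ 2 / 4 ≠ 0 := by
    intro hD
    apply disc_ne h2 hab
    field_simp at hD
    linear_combination -hD
  obtain ⟨s, t, hst⟩ := Cfsg.Agent.Lib.Helper44.FinSq.exists_sq_add_sq (one_ne_zero (α := F)) hD ν
  refine ⟨s - a / 2 * t, t, ?_⟩
  rw [← hst]
  field_simp
  ring

/-- A root of the binary part in a quadratic extension. -/
theorem exists_root {K : Type*} [Field K] [Algebra F K] (hK : finrank F K = 2) (h2 : (2 : F) ≠ 0)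
    (a b : F) : ∃ ρ : K, ρ ^ 2 + algebraMap F K a * ρ + algebraMap F K b = 0 := by
  classical
  have hfinj : Function.Injective (algebraMap F K) := (algebraMap F K).injective
  have h2K : (2 : K) ≠ 0 := by
    intro h
    apply h2
    apply hfinj
    rw [map_ofNat, map_zero]
    exact h
  have h4K : (4 : K) ≠ 0 := by
    have : (4 : K) = 2 * 2 := by norm_num
    rw [this]; exact mul_ne_zero h2K h2K
  have hfin : Module.Finite F K := Module.finite_of_finrank_pos (by rw [hK]; norm_num)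
  have hKfin : Finite K := Module.finite_of_finite F
  let _ : Fintype K := Fintype.ofFinite K
  have hcard : Fintype.card K = Fintype.card F ^ 2 := by
    rw [Module.card_eq_pow_finrank (K := F) (V := K), hK]
  have hsq : IsSquare (algebraMap F K (a ^ 2 - 4 * b)) := by
    by_cases hD : a ^ 2 - 4 * b = 0
    · rw [hD, map_zero]
      exact IsSquare.zero
    · have hD' : algebraMap F K (a ^ 2 - 4 * b) ≠ 0 := by
        intro h
        apply hD
        apply hfinj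
        rw [h, map_zero]
      have hcharK : ringChar K ≠ 2 := Cfsg.Agent.Lib.Helper44.FinSq.ringChar_ne_two_of_two_ne_zero h2K
      have hcharF : ringChar F ≠ 2 := Cfsg.Agent.Lib.Helper44.FinSq.ringChar_ne_two_of_two_ne_zero h2
      rw [FiniteField.isSquare_iff hcharK hD', hcard, ← map_pow]
      have hodd := FiniteField.odd_card_of_char_ne_two hcharF
      have hq1 : 1 ≤ Fintype.card F := Fintype.card_pos
      obtain ⟨j, hj⟩ : ∃ j, Fintype.card F = 2 * j + 1 := ⟨Fintype.card F / 2, by omega⟩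
      have he : Fintype.card F ^ 2 / 2 = (Fintype.card F - 1) * (j + 1) := by
        rw [hj]
        have : (2 * j + 1) ^ 2 = 2 * (2 * j * (j + 1)) + 1 := by ring
        rw [this]
        have h5 : (2 * (2 * j * (j + 1)) + 1) / 2 = 2 * j * (j + 1) := by omega
        rw [h5]
        simp
      rw [he, pow_mul, FiniteField.pow_card_sub_one_eq_one _ hD, one_pow, map_one]
  obtain ⟨e, he⟩ := hsq
  refine ⟨(-algebraMap F K a + e) / 2, ?_⟩
  rw [map_sub, map_pow, map_mul, map_ofNat] at he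
  field_simp
  linear_combination -he

theorem dl_eq_one_iff {ι : Type} [Fintype ι] [DecidableEq ι] (Q : QuadraticForm F (ι → F))
    {v₀ : ι → F} (hv₀ : Q v₀ ≠ 0) (k : ℕ) (g : ↥(Cfsg.Geo.quadSimilarityGroup (F := F) ⇑Q)) :
    dl Q hv₀ k g = 1 ↔ ((g : GL ι F) : Matrix ι ι F).det = (mu Q g : F) ^ k := by
  have hμ0 : (mu Q g : F) ^ k ≠ 0 := pow_ne_zero _ (mu Q g).ne_zero
  constructor
  · intro h1
    have h3 := congrArg (fun t : Fˣ => (t : F)) h1
    simp only [dl_apply, Units.val_mul, Units.val_pow_eq_pow_val, Units.val_inv_eq_inv_val,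
      Matrix.GeneralLinearGroup.val_det_apply, Units.val_one, inv_pow] at h3
    field_simp at h3
    exact h3
  · intro h1
    apply Units.ext
    rw [dl_apply, Units.val_mul, Units.val_pow_eq_pow_val, Units.val_inv_eq_inv_val,
      Matrix.GeneralLinearGroup.val_det_apply, h1, Units.val_one, inv_pow]
    exact mul_inv_cancel₀ hμ0

/-- For a quadratic extension `K` of `F`: a similarity `g` of the minus-type form preserves the
two classes of maximal totally singular subspaces over `K` iff `det g = μ(g)^(m+1)`. -/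
theorem minus_preserves_iff_K (h2 : (2 : F) ≠ 0) (m : ℕ) {a b : F}
    (hab : ∀ z₁ z₂ : F, z₁ ^ 2 + a * z₁ * z₂ + b * z₂ ^ 2 = 0 → z₁ = 0 ∧ z₂ = 0)
    (K : Type u) [Field K] [Algebra F K] (hK : finrank F K = 2)
    {v₀ : (Fin m ⊕ Fin m) ⊕ Fin 2 → F} (hv₀ : minusQ m F a b v₀ ≠ 0)
    (g : ↥(Cfsg.Geo.quadSimilarityGroup (F := F) ⇑(minusQ m F a b))) :
    Cfsg.PreservesSingularClasses (Cfsg.quadFormMinus m K (algebraMap F K a) (algebraMap F K b))
        (((g : GL ((Fin m ⊕ Fin m) ⊕ Fin 2) F) : Matrix ((Fin m ⊕ Fin m) ⊕ Fin 2)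
          ((Fin m ⊕ Fin m) ⊕ Fin 2) F).map (algebraMap F K))
      ↔ dl (minusQ m F a b) hv₀ (m + 1) g = 1 := by
  have hfinj : Function.Injective (algebraMap F K) := (algebraMap F K).injective
  have h2K : (2 : K) ≠ 0 := by
    intro h
    apply h2
    apply hfinj
    rw [map_ofNat, map_zero]
    exact h
  have hD := disc_ne h2 hab
  have hDK : (algebraMap F K a) ^ 2 - 4 * algebraMap F K b ≠ 0 := by
    intro h
    apply hD
    apply hfinj
    rw [map_sub, map_pow, map_mul, map_ofNat, map_zero]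
    exact h
  have hSK := sep_minusQ' h2K m (algebraMap F K a) (algebraMap F K b) hDK
  have hS := sep_minusQ h2 m a b hab
  obtain ⟨ρ, hρ⟩ := exists_root (K := K) hK h2 a b
  have hX := ts_X0 hSK hρ
  have hV : Fintype.card ((Fin m ⊕ Fin m) ⊕ Fin 2) = 2 * (m + 1) := by
    simp only [Fintype.card_sum, Fintype.card_fin]; omega
  obtain ⟨s, t, hst⟩ := exists_norm h2 hab (mu (minusQ m F a b) g : F)
  have hL : ∀ v, minusQ m F a b (Matrix.toLin' (Dm m (mu (minusQ m F a b) g : F) s t a b) v)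
      = (mu (minusQ m F a b) g : F) * minusQ m F a b v := by
    intro v
    rw [Matrix.toLin'_apply, ← hst]
    exact Dm_sim m s t a b v
  obtain ⟨d, hd⟩ := exists_sim_mulVec (minusQ m F a b) hS _ (mu (minusQ m F a b) g) hL
  have hdmat : ((d : GL ((Fin m ⊕ Fin m) ⊕ Fin 2) F) : Matrix ((Fin m ⊕ Fin m) ⊕ Fin 2)
      ((Fin m ⊕ Fin m) ⊕ Fin 2) F) = Dm m (mu (minusQ m F a b) g : F) s t a b :=
    matrix_ext_mulVec (fun x => by rw [hd, Matrix.toLin'_apply])
  have hdsim : ∀ v, minusQ m F a b (((d : GL ((Fin m ⊕ Fin m) ⊕ Fin 2) F) :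
      Matrix ((Fin m ⊕ Fin m) ⊕ Fin 2) ((Fin m ⊕ Fin m) ⊕ Fin 2) F) *ᵥ v)
      = (mu (minusQ m F a b) g : F) * minusQ m F a b v := fun v => by rw [hd]; exact hL v
  -- base change
  have hQ := minus_map (algebraMap F K) m a b
  have hgK := sim_map (Q := minusQ m K (algebraMap F K a) (algebraMap F K b)) (algebraMap F K)
    (minusQ m F a b) hQ h2K _ _ (mu_spec (minusQ m F a b) g)
  have hdK := sim_map (Q := minusQ m K (algebraMap F K a) (algebraMap F K b)) (algebraMap F K)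
    (minusQ m F a b) hQ h2K _ _ hdsim
  have hdKm : ((d : GL ((Fin m ⊕ Fin m) ⊕ Fin 2) F) : Matrix ((Fin m ⊕ Fin m) ⊕ Fin 2)
      ((Fin m ⊕ Fin m) ⊕ Fin 2) F).map (algebraMap F K)
      = Dm m (algebraMap F K (mu (minusQ m F a b) g : F)) (algebraMap F K s) (algebraMap F K t)
        (algebraMap F K a) (algebraMap F K b) := by
    rw [hdmat, Dm_map]
  have hμ0 : algebraMap F K (mu (minusQ m F a b) g : F) ≠ 0 := by
    intro h
    exact (mu (minusQ m F a b) g).ne_zero (hfinj (by rw [h, map_zero]))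
  have h1 := preserves_iff (Q := minusQ m K (algebraMap F K a) (algebraMap F K b)) hSK hV hX
    (Matrix.GeneralLinearGroup.map (algebraMap F K) (g : GL ((Fin m ⊕ Fin m) ⊕ Fin 2) F)) hgK
  have h3 := parity_sim_iff (Q := minusQ m K (algebraMap F K a) (algebraMap F K b)) h2K hSK hV hX
    (Matrix.GeneralLinearGroup.map (algebraMap F K) (g : GL ((Fin m ⊕ Fin m) ⊕ Fin 2) F))
    (Matrix.GeneralLinearGroup.map (algebraMap F K) (d : GL ((Fin m ⊕ Fin m) ⊕ Fin 2) F))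
    hμ0 hgK hdK (by
      show (X0 m ρ).map (Matrix.toLin' (((d : GL ((Fin m ⊕ Fin m) ⊕ Fin 2) F) :
        Matrix ((Fin m ⊕ Fin m) ⊕ Fin 2) ((Fin m ⊕ Fin m) ⊕ Fin 2) F).map (algebraMap F K))) ≤ X0 m ρ
      rw [hdKm]
      exact Dm_map_X0 hρ)
  have hdetg : (((g : GL ((Fin m ⊕ Fin m) ⊕ Fin 2) F) : Matrix ((Fin m ⊕ Fin m) ⊕ Fin 2)
      ((Fin m ⊕ Fin m) ⊕ Fin 2) F).map (algebraMap F K)).det
      = algebraMap F K ((g : GL ((Fin m ⊕ Fin m) ⊕ Fin 2) F) : Matrix ((Fin m ⊕ Fin m) ⊕ Fin 2)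
      ((Fin m ⊕ Fin m) ⊕ Fin 2) F).det := (RingHom.map_det (algebraMap F K) _).symm
  have hdetd : (((d : GL ((Fin m ⊕ Fin m) ⊕ Fin 2) F) : Matrix ((Fin m ⊕ Fin m) ⊕ Fin 2)
      ((Fin m ⊕ Fin m) ⊕ Fin 2) F).map (algebraMap F K)).det
      = algebraMap F K ((mu (minusQ m F a b) g : F) ^ (m + 1)) := by
    rw [← RingHom.mapMatrix_apply, ← RingHom.map_det, hdmat, det_Dm, hst, pow_succ]
  have h5 : (Cfsg.PreservesSingularClasses (Cfsg.quadFormMinus m K (algebraMap F K a) (algebraMap F K b))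
        (((g : GL ((Fin m ⊕ Fin m) ⊕ Fin 2) F) : Matrix ((Fin m ⊕ Fin m) ⊕ Fin 2)
          ((Fin m ⊕ Fin m) ⊕ Fin 2) F).map (algebraMap F K)))
      ↔ (((g : GL ((Fin m ⊕ Fin m) ⊕ Fin 2) F) : Matrix ((Fin m ⊕ Fin m) ⊕ Fin 2)
      ((Fin m ⊕ Fin m) ⊕ Fin 2) F).map (algebraMap F K)).det
        = (((d : GL ((Fin m ⊕ Fin m) ⊕ Fin 2) F) : Matrix ((Fin m ⊕ Fin m) ⊕ Fin 2)
      ((Fin m ⊕ Fin m) ⊕ Fin 2) F).map (algebraMap F K)).det := h1.trans h3
  rw [h5, hdetg, hdetd, dl_eq_one_iff]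
  exact ⟨fun h => hfinj h, fun h => by rw [h]⟩

/-- A quadratic extension of `F` in the same universe. -/
theorem exists_quadratic_ext {a b : F}
    (hab : ∀ z₁ z₂ : F, z₁ ^ 2 + a * z₁ * z₂ + b * z₂ ^ 2 = 0 → z₁ = 0 ∧ z₂ = 0) :
    ∃ (K : Type u) (_ : Field K) (_ : Algebra F K), finrank F K = 2 := by
  classical
  set p : Polynomial F := Polynomial.C 1 * Polynomial.X ^ 2 + Polynomial.C a * Polynomial.X
    + Polynomial.C b with hp
  have hdeg : p.natDegree = 2 := Polynomial.natDegree_quadratic one_ne_zero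
  have hirr : Irreducible p := by
    apply Polynomial.irreducible_of_degree_le_three_of_not_isRoot
    · rw [hdeg]; decide
    · intro x hx
      have h1 : x ^ 2 + a * x + b = 0 := by
        have := hx
        rw [Polynomial.IsRoot.def, hp] at this
        simpa using this
      have := (hab x 1 (by linear_combination h1)).2
      exact one_ne_zero this
  have : Fact (Irreducible p) := ⟨hirr⟩
  have hp0 : p ≠ 0 := hirr.ne_zero
  refine ⟨AdjoinRoot p, inferInstance, inferInstance, ?_⟩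
  rw [(AdjoinRoot.powerBasis hp0).finrank, AdjoinRoot.powerBasis_dim, hdeg]

/-- A similarity of the minus-type form is class-preserving (over a quadratic extension) iff
`det g = μ(g)^(m+1)`. -/
theorem minus_preserves_iff (h2 : (2 : F) ≠ 0) (m : ℕ) {a b : F}
    (hab : ∀ z₁ z₂ : F, z₁ ^ 2 + a * z₁ * z₂ + b * z₂ ^ 2 = 0 → z₁ = 0 ∧ z₂ = 0)
    {v₀ : (Fin m ⊕ Fin m) ⊕ Fin 2 → F} (hv₀ : minusQ m F a b v₀ ≠ 0)
    (g : ↥(Cfsg.Geo.quadSimilarityGroup (F := F) ⇑(minusQ m F a b))) :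
    Cfsg.PreservesSingularClassesMinus m a b
        ((g : GL ((Fin m ⊕ Fin m) ⊕ Fin 2) F) : Matrix ((Fin m ⊕ Fin m) ⊕ Fin 2)
          ((Fin m ⊕ Fin m) ⊕ Fin 2) F)
      ↔ dl (minusQ m F a b) hv₀ (m + 1) g = 1 := by
  constructor
  · rintro ⟨K, hKf, hKa, hK, hP⟩
    exact (minus_preserves_iff_K h2 m hab K hK hv₀ g).mp hP
  · intro h
    obtain ⟨K, hKf, hKa, hK⟩ := exists_quadratic_ext hab
    exact ⟨K, hKf, hKa, hK, (minus_preserves_iff_K h2 m hab K hK hv₀ g).mpr h⟩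

/-- `Inndiag(PΩ⁻_{2m+2}(F))` is the image of the similarities with `det g = μ(g)^(m+1)`. -/
theorem inndiag_minus_eq (h2 : (2 : F) ≠ 0) (m : ℕ) {a b : F}
    (hab : ∀ z₁ z₂ : F, z₁ ^ 2 + a * z₁ * z₂ + b * z₂ ^ 2 = 0 → z₁ = 0 ∧ z₂ = 0)
    {v₀ : (Fin m ⊕ Fin m) ⊕ Fin 2 → F} (hv₀ : minusQ m F a b v₀ ≠ 0) :
    Cfsg.inndiagPOmegaMinus m F a b = D0 (minusQ m F a b) hv₀ (m + 1) := by
  unfold Cfsg.inndiagPOmegaMinus Cfsg.autSubgroupOf
  apply le_antisymm
  · refine (Subgroup.closure_le _).mpr ?_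
    rintro β ⟨g, hg, hpres, hβ⟩
    exact ⟨⟨g, hg⟩, (mem_G0 (minusQ m F a b) hv₀ (m + 1) _).mpr
      ((minus_preserves_iff h2 m hab hv₀ ⟨g, hg⟩).mp hpres),
      ((induced_iff (⇑(minusQ m F a b)) g hg β).mp hβ).symm⟩
  · rintro β ⟨g, hg0, rfl⟩
    exact Subgroup.subset_closure ⟨g.1, g.2,
      (minus_preserves_iff h2 m hab hv₀ g).mpr ((mem_G0 (minusQ m F a b) hv₀ (m + 1) g).mp hg0),
      (induced_iff (⇑(minusQ m F a b)) g.1 g.2 _).mpr rfl⟩

/-- A similarity of the minus-type form with non-square multiplier `ν`, scalar square, and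
determinant `(-ν)^(m+1)`. -/
theorem minus_sigma (h2 : (2 : F) ≠ 0) (m : ℕ) {a b : F}
    (hab : ∀ z₁ z₂ : F, z₁ ^ 2 + a * z₁ * z₂ + b * z₂ ^ 2 = 0 → z₁ = 0 ∧ z₂ = 0)
    {v₀ : (Fin m ⊕ Fin m) ⊕ Fin 2 → F} (hv₀ : minusQ m F a b v₀ ≠ 0) :
    ∃ δ : ↥(Cfsg.Geo.quadSimilarityGroup (F := F) ⇑(minusQ m F a b)),
      ¬ IsSquare (mu (minusQ m F a b) δ) ∧
      (∃ c : F, ∀ x, (((δ * δ : ↥(Cfsg.Geo.quadSimilarityGroup (F := F) ⇑(minusQ m F a b))) :
        GL ((Fin m ⊕ Fin m) ⊕ Fin 2) F) : Matrix ((Fin m ⊕ Fin m) ⊕ Fin 2)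
          ((Fin m ⊕ Fin m) ⊕ Fin 2) F) *ᵥ x = c • x) ∧
      (Even m → dl (minusQ m F a b) hv₀ (m + 1) δ = -1) := by
  obtain ⟨ν, hν, -⟩ := Cfsg.Agent.Lib.Helper45.OmegaAutSim.exists_nonsquare_unit (F := F) h2
  have hS := sep_minusQ h2 m a b hab
  obtain ⟨s, t, hst⟩ := exists_norm h2 hab (ν : F)
  have hL : ∀ v, minusQ m F a b (Matrix.toLin' (Tm m (ν : F) s t a b) v)
      = (ν : F) * minusQ m F a b v := by
    intro v
    rw [Matrix.toLin'_apply, ← hst]
    exact Tm_sim m s t a b v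
  obtain ⟨δ, hδ⟩ := exists_sim_mulVec (minusQ m F a b) hS _ ν hL
  have hμ : mu (minusQ m F a b) δ = ν :=
    mu_unique (minusQ m F a b) hv₀ δ _ (fun v => by rw [hδ]; exact hL v)
  have hδmat : ((δ : GL ((Fin m ⊕ Fin m) ⊕ Fin 2) F) : Matrix ((Fin m ⊕ Fin m) ⊕ Fin 2)
      ((Fin m ⊕ Fin m) ⊕ Fin 2) F) = Tm m (ν : F) s t a b :=
    matrix_ext_mulVec (fun x => by rw [hδ, Matrix.toLin'_apply])
  refine ⟨δ, by rw [hμ]; exact hν, ⟨(ν : F), fun x => ?_⟩, ?_⟩
  · rw [Subgroup.coe_mul, Units.val_mul, ← Matrix.mulVec_mulVec, hδmat]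
    conv_lhs => rw [← hst]
    rw [Tm_Tm, hst]
  · intro hm
    obtain ⟨j, hj⟩ := hm
    apply Units.ext
    have hν0 : (ν : F) ≠ 0 := ν.ne_zero
    rw [dl_apply, Units.val_mul, Units.val_pow_eq_pow_val, Units.val_inv_eq_inv_val,
      Matrix.GeneralLinearGroup.val_det_apply, hδmat, det_Tm, hst, hμ, Units.val_neg, Units.val_one,
      inv_pow, hj, ← two_mul, neg_pow, pow_mul, neg_one_sq, one_pow, one_mul]
    field_simp
    ring

end Finite

end Cfsg.Agent.Lib.Helper45.MinusInndiag
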