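import Mathlib
import Cfsg.Agent.Lib.Helper45.S8Stmt

set_option autoImplicit false

/-! Piece statements for S3590: for `q` even there are finite groups of arbitrarily large order with
the same set of element orders as `PSp_8(q)`.

Route.  `V = F^8` with the minus-type form `Q = H³ ⊥ N`, `Ω = Ω⁻_8(q) = {g ∈ O(Q) : rank (g - 1) even}`
(landed), `H_k = V^k ⋊ Ω`.  The element `(w, g)` (the affine map `v ↦ g v + w`) satisfies
`(w, g)^j = (S_j(g) w, g^j)`, `S_j(g) = Σ_{i<j} g^i`, so its order is `ord g` or `2 ord g`.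
(⊆) If it is `2 ord g` then `S_n(g) ≠ 0` (`n = ord g = 2^t n'`), so `g` has a Jordan block of size
exactly `2^t` at the eigenvalue `1` [NORM]; as `rank (g - 1)` is even, `dim ker (g - 1) ≥ 2`, so the
eigenvalue `1` has algebraic multiplicity `≥ 2^t + 1` [CHAIN], [ALG]; the rest of the minimal
polynomial is reciprocal of degree `≤ 7 - 2^t`, which bounds the odd part `n'` [ODDPART], and
`2 n` divides one of the 12 numbers `LL q` (landed `Arith`), which are element orders of `PSp_8(q)`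
(S3589).  (⊇) each of the 12 numbers is the order of some `(w, g)`, `g ∈ Ω`: block sums of affine
isometries, tracking the parity of `rank (g - 1)`.

Coordinates: `quadFormPlus k F v = Σ_i v (inl i) * v (inr i)` on `Fin k ⊕ Fin k → F`;
`quadFormMinus m F a b v = Σ_i v (inl (inl i)) * v (inl (inr i)) + (z₁² + a z₁ z₂ + b z₂²)`,
`z₁ = v (inr 0)`, `z₂ = v (inr 1)`, on `(Fin m ⊕ Fin m) ⊕ Fin 2 → F`. -/

namespace Cfsg.Agent.Lib.Helper45.S9Stmt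

open Cfsg.Agent.Lib.Helper45.EOStmt Cfsg.Agent.Lib.Helper45.S8Stmt

universe u

/-- the affine map `v ↦ X v + w` has order `N`:
`(X, w)^j = (X^j, Σ_{i<j} X^i w)` is trivial iff `N ∣ j`. -/
def AffD {F : Type u} [Field F] {ι : Type} (X : (ι → F) ≃ₗ[F] (ι → F)) (w : ι → F) (N : ℕ) :
    Prop :=
  ∀ j : ℕ, (X ^ j = 1 ∧ ∑ i ∈ Finset.range j, (X ^ i) w = 0) ↔ N ∣ j

/-- some affine isometry `(X, w)` of `Q` has order `N`, and `rank (X - 1) ≡ ε mod 2` -/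
def HasAff {F : Type u} [Field F] {ι : Type} [Fintype ι] [DecidableEq ι] (Q : (ι → F) → F)
    (N : ℕ) (ε : ZMod 2) : Prop :=
  ∃ (X : (ι → F) ≃ₗ[F] (ι → F)) (w : ι → F), (∀ v, Q (X v) = Q v) ∧ AffD X w N ∧
    ((Module.finrank F (LinearMap.range (X.toLinearMap - LinearMap.id)) : ℕ) : ZMod 2) = ε

/-- [SEMI] the group `V^k ⋊ G`, `V = F^ι`, `G ≤ GL ι F`, and its element orders.
E.g. the subgroup of `GL (ι ⊕ Fin k) F` of the block matrices `fromBlocks g W 0 1`, `g ∈ G`,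
`W : Matrix ι (Fin k) F` (columns `w l`); `(fromBlocks g W 0 1)^j = fromBlocks (g^j) (S_j(g) W) 0 1`
(induction, `Matrix.fromBlocks_multiply`), `S_j(g) = Σ_{i<j} g^i`; it is in bijection with
`Matrix ι (Fin k) F × G`.  Or `SemidirectProduct`, or a structure of your own on
`(Fin k → ι → F) × G` with `(w, g) * (w', g') = (w + g w', g g')`.  An element `x` has order `n` iff
`∀ j, x^j = 1 ↔ n ∣ j` (`orderOf_dvd_iff_pow_eq_one`; `n = orderOf x` for `→`, `dvd_antisymm` for `←`). -/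
def SEMI : Prop := ∀ (F : Type u) [Field F] [Fintype F] (ι : Type) [Fintype ι] [DecidableEq ι]
  (G : Subgroup (GL ι F)) (k : ℕ),
  ∃ (H : Type u) (_ : Group H) (_ : Finite H),
    Nat.card H = Fintype.card F ^ (Fintype.card ι * k) * Nat.card G ∧
    ∀ n : ℕ, n ∈ Set.range (orderOf : H → ℕ) ↔
      ∃ g : GL ι F, g ∈ G ∧ ∃ w : Fin k → ι → F, ∀ j : ℕ,
        ((g : Matrix ι ι F) ^ j = 1 ∧
          ∀ l, (∑ i ∈ Finset.range j, (g : Matrix ι ι F) ^ i).mulVec (w l) = 0) ↔ n ∣ j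

/-- [TRANS] a finite group has a copy in `Type` (on `Fin (Nat.card G)`: `Finite.equivFin`,
`Equiv.group`, `Equiv.mulEquiv`, `MulEquiv.orderOf_eq`). -/
def TRANS : Prop := ∀ (G : Type u) [Group G] [Finite G],
  ∃ (H : Type) (_ : Group H) (_ : Fintype H), Fintype.card H = Nat.card G ∧
    Set.range (orderOf : H → ℕ) = Set.range (orderOf : G → ℕ)

/-- [ANISO] an anisotropic binary form over a finite field of characteristic 2: `a = 1` and `b`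
outside the image of the additive map `x ↦ x² + x` (kernel `{0, 1}`, so not surjective on a finite
field).  If `z₂ ≠ 0` then `(z₁/z₂)² + z₁/z₂ = b` (`-b = b`); if `z₂ = 0` then `z₁² = 0`. -/
def ANISO : Prop := ∀ (F : Type u) [Field F] [Fintype F] [CharP F 2], ∃ a b : F, Aniso a b

/-- [NORM] characteristic 2, `n = 2^t n'`, `S_n(X) = Σ_{j<n} X^j`:
`(X - 1) S_n = X^n - 1 = (X^n' - 1)^(2^t) = (X - 1)^(2^t) S_n'^(2^t)` (`mul_geom_sum`,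
`sub_pow_char_pow` / `sub_pow_expChar_pow` in `F[X]`), so `S_n = (X - 1)^(2^t - 1) S_n'^(2^t)`
(cancel `X - 1` in the domain `F[X]`), then `Polynomial.aeval g`.  Take `v := S_n'(g)^(2^t) w`:
`(g-1)^(2^t - 1) v = S_n(g) w ≠ 0` and `(g-1)^(2^t) v = (g - 1) S_n(g) w = (g^n - 1) w = 0`. -/
def NORM : Prop := ∀ (F : Type u) [Field F] [CharP F 2] (ι : Type) [Fintype ι] [DecidableEq ι]
  (g : Matrix ι ι F) (t n' : ℕ) (w : ι → F), g ^ (2 ^ t * n') = 1 →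
  (∑ j ∈ Finset.range (2 ^ t * n'), g ^ j).mulVec w ≠ 0 →
  ∃ v : ι → F, ((g - 1) ^ (2 ^ t)).mulVec v = 0 ∧ ((g - 1) ^ (2 ^ t - 1)).mulVec v ≠ 0

/-- [CHAIN] a Jordan chain of length `m`.  `u_i := T^i v`, `i ≤ m - 2`, lie in `ker T^m` and are
linearly independent modulo `ker T` (if `Σ c_i u_i ∈ ker T`, apply `T^(m-2-i₀)` to
`Σ c_i T^(i+1) v = 0`, `i₀` least with `c_i₀ ≠ 0`: `c_i₀ T^(m-1) v = 0`).  So
`dim ker T^m ≥ dim ker T + (m - 1)`; with rank-nullity (`Matrix.rank`, `LinearMap.finrank_range_add_finrank_ker`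
for `Matrix.mulVecLin`): `rank T^m + m ≤ rank T + 1`.  And `T (T^(m-1) v) = 0`, `T^(m-1) v ≠ 0`, so
`rank T < card ι`. -/
def CHAIN : Prop := ∀ (F : Type u) [Field F] (ι : Type) [Fintype ι] [DecidableEq ι]
  (T : Matrix ι ι F) (m : ℕ) (v : ι → F), 1 ≤ m → (T ^ m).mulVec v = 0 →
  (T ^ (m - 1)).mulVec v ≠ 0 →
  (T ^ m).rank + m ≤ T.rank + 1 ∧ T.rank + 1 ≤ Fintype.card ι

/-- [ALG] `dim ker (g - 1)^m ≤` algebraic multiplicity of the eigenvalue `1`.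
Mathlib: `LinearMap.finrank_genEigenspace_le (φ) (μ) (k) :
finrank (φ.genEigenspace μ k) ≤ φ.charpoly.rootMultiplicity μ` (`Mathlib/LinearAlgebra/Eigenspace/Zero.lean`)
for `φ = Matrix.toLin' g`, `μ = 1`, `k = m` (`genEigenspace φ 1 m = ker ((φ - 1)^m)`,
`LinearMap.charpoly_toMatrix` / `Matrix.charpoly_toLin'`-type lemma), and rank-nullity. -/
def ALG : Prop := ∀ (F : Type u) [Field F] (ι : Type) [Fintype ι] [DecidableEq ι]
  (g : Matrix ι ι F) (m : ℕ),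
  Fintype.card ι ≤ ((g - 1) ^ m).rank + Polynomial.rootMultiplicity 1 g.charpoly

/-- [ODDPART] `μ := minpoly F g` is reciprocal (`Helper97.EORCMIN.main : RcMin`), `μ = (X-1)^e μ'`,
`μ'(1) ≠ 0`, `μ'` reciprocal (`(X-1).reverse = -(X-1)`; cf. `Helper20.EOCOMB`).  The landed
`Cfsg.Agent.Lib.Helper45.S8Dvd.dvd : Dvd` for `μ'` (`p = 2`: `em = 0`, `sgn 0 = 1`) gives `DA DB ep E d`
with `2 (Σ DA + Σ DB) ≤ natDegree μ'` and `μ' ∣ X^(L 2^c') - 1`, `L = lcm (SA q DA) (SB q DB)`.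
`(X-1)^e ∣ (X^L - 1)^(2^c) = X^(L 2^c) - 1` for `e ≤ 2^c`; `μ'` and `(X-1)^e` are coprime, so
`μ ∣ X^(L 2^c) - 1` for `c` large, `g^(L 2^c) = 1`.  Degree: `μ' ∣ μ ∣ charpoly g = (X-1)^a χ₁`
(`Matrix.minpoly_dvd_charpoly`), `μ'` coprime to `X - 1`, so `μ' ∣ χ₁`,
`natDegree μ' ≤ card ι - a`, `a = rootMultiplicity 1 (charpoly g)`. -/
def ODDPART : Prop := ∀ (F : Type u) [Field F] [Fintype F] [CharP F 2] (ι : Type) [Fintype ι]
  [DecidableEq ι] (J g : Matrix ι ι F), IsUnit J.det → g.transpose * J * g = J →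
  ∃ (DA DB : Finset ℕ) (c : ℕ), (∀ a ∈ DA, 1 ≤ a) ∧ (∀ b ∈ DB, 1 ≤ b) ∧
    2 * (DA.sum id + DB.sum id) + Polynomial.rootMultiplicity 1 g.charpoly ≤ Fintype.card ι ∧
    g ^ (Nat.lcm (SA (Fintype.card F) DA) (SB (Fintype.card F) DB) * 2 ^ c) = 1

/-- [GRAM] the Gram matrix of the polar form of `Q = quadFormMinus 3 F a b`:
`J (x_i, y_i) = J (y_i, x_i) = 1`, `J (z₁, z₂) = J (z₂, z₁) = a`, `0` else; `det J ≠ 0` as `a ≠ 0`;
`gᵀ J g = J` for every isometry (polarisation).  This is inside `Helper38.S8EMBED` (and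
`Helper38.EOFINQ`). -/
def GRAM : Prop := ∀ (F : Type u) [Field F] [CharP F 2] (a b : F), a ≠ 0 →
  ∃ J : Matrix ((Fin 3 ⊕ Fin 3) ⊕ Fin 2) ((Fin 3 ⊕ Fin 3) ⊕ Fin 2) F, IsUnit J.det ∧
    ∀ g : ↥(Cfsg.isometryGroup F (Cfsg.quadFormMinus 3 F a b)),
      ((g : GL ((Fin 3 ⊕ Fin 3) ⊕ Fin 2) F) : Matrix _ _ F).transpose * J *
        ((g : GL ((Fin 3 ⊕ Fin 3) ⊕ Fin 2) F) : Matrix _ _ F) = J

/-- [AFFGLUE] block sum of affine isometries (extend `Helper76.S8Glue.glue`):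
`X := T ∘ (X₁ × X₂) ∘ T⁻¹`, `w := T (w₁, w₂)`.  `X^j = 1 ↔ X₁^j = 1 ∧ X₂^j = 1`,
`Σ_{i<j} X^i w = T (Σ X₁^i w₁, Σ X₂^i w₂)`, `Nat.lcm_dvd_iff`;
`range (X - 1) = T (range (X₁ - 1) × range (X₂ - 1))`, so the ranks add up. -/
def AFFGLUE : Prop := ∀ (F : Type u) [Field F] (ι₁ ι₂ ι : Type) [Fintype ι₁] [DecidableEq ι₁]
  [Fintype ι₂] [DecidableEq ι₂] [Fintype ι] [DecidableEq ι]
  (Q₁ : (ι₁ → F) → F) (Q₂ : (ι₂ → F) → F) (Q : (ι → F) → F)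
  (T : ((ι₁ → F) × (ι₂ → F)) ≃ₗ[F] (ι → F)), (∀ u w, Q (T (u, w)) = Q₁ u + Q₂ w) →
  ∀ (N₁ N₂ : ℕ) (ε₁ ε₂ : ZMod 2), HasAff Q₁ N₁ ε₁ → HasAff Q₂ N₂ ε₂ →
    HasAff Q (Nat.lcm N₁ N₂) (ε₁ + ε₂)

/-- [AP2] the swap `X (x, y) = (y, x)` of `H` (`Helper91.S8P2`): `X - 1` has rank 1
(`(X - 1)(x, y) = (x + y)(1, 1)`).  With `w = (1, 0)`: `X² = 1`, `w + X w = (1, 1) ≠ 0`, so the
affine order is 4; with `w = 0` it is 2. -/
def AP2 : Prop := ∀ (F : Type u) [Field F] [CharP F 2],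
  HasAff (Cfsg.quadFormPlus 1 F) 4 1 ∧ HasAff (Cfsg.quadFormPlus 1 F) 2 1

/-- [AP4] the 4-cycle `X (x₁, y₁, x₂, y₂) = (y₂, x₂, x₁, y₁)` of `H²` (`Helper91.S8P4`): `X⁴ = 1`,
`X² ≠ 1`, `rank (X - 1) = 3` (the kernel is spanned by `(1,1,1,1)`), `w = (1,0,0,0)`:
`w + X w + X² w + X³ w = (1,1,1,1) ≠ 0`, so the affine order is 8. -/
def AP4 : Prop := ∀ (F : Type u) [Field F] [CharP F 2], HasAff (Cfsg.quadFormPlus 2 F) 8 1

/-- [AR1] `X (z₁, z₂) = (z₁ + a z₂, z₂)` on `N` (`Helper57.S8R1`): order 2, `rank (X - 1) = 1`,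
`w = 0`. -/
def AR1 : Prop := ∀ (F : Type u) [Field F] [CharP F 2] (a b : F), a ≠ 0 →
  HasAff (Cfsg.quadFormMinus 0 F a b) 2 1

/-- [AID] the translation by `w = fun _ => 1 ≠ 0`: `X = 1`, `Σ_{i<j} w = j • w = 0 ↔ 2 ∣ j`
(`CharP.cast_eq_zero_iff`), `range (1 - 1) = ⊥`. -/
def AID : Prop := ∀ (F : Type u) [Field F] [CharP F 2] (ι : Type) [Fintype ι] [DecidableEq ι]
  [Nonempty ι] (Q : (ι → F) → F), HasAff Q 2 0

/-- [AGL] `GL_k` on `H^k` (`Helper60.S8GLEMB`: `psi F k A = fromBlocks A 0 0 (A⁻¹)ᵀ`), `w = 0`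
(`AffD X 0 N ↔ ∀ j, X^j = 1 ↔ N ∣ j`): `rank (psi A - 1) = rank (A - 1) + rank ((A⁻¹)ᵀ - 1)
= 2 rank (A - 1)` (`(A⁻¹)ᵀ - 1 = ((A⁻¹)(1 - A))ᵀ`). -/
def AGL : Prop := ∀ (F : Type u) [Field F] (k : ℕ) (A : GL (Fin k) F),
  HasAff (Cfsg.quadFormPlus k F) (orderOf A) 0

/-- [CONV] back to matrices: `g := (Helper76.S8Glue.glEquiv ι).symm X` (`glEquiv_apply`,
`mem_iso`); `(g^i) *ᵥ w = (X^i) w`; `Matrix.rank (g - 1) = finrank (range (X - 1))`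
(`Matrix.rank` is the `finrank` of the range of `mulVecLin`). -/
def CONV : Prop := ∀ (F : Type u) [Field F] (ι : Type) [Fintype ι] [DecidableEq ι]
  (Q : (ι → F) → F) (N : ℕ) (ε : ZMod 2), HasAff Q N ε →
  ∃ (g : ↥(Cfsg.isometryGroup F Q)) (w : ι → F),
    (∀ j : ℕ, (((g : GL ι F) : Matrix ι ι F) ^ j = 1 ∧
      (∑ i ∈ Finset.range j, ((g : GL ι F) : Matrix ι ι F) ^ i).mulVec w = 0) ↔ N ∣ j) ∧
    (((((g : GL ι F) : Matrix ι ι F) - 1).rank : ℕ) : ZMod 2) = ε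

end Cfsg.Agent.Lib.Helper45.S9Stmt
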