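import Mathlib
import Cfsg.Agent.Lib.Helper45.OmegaAut
import Cfsg.Agent.Lib.Helper94.OrthSiegel

set_option autoImplicit false

/-! Field automorphisms acting on `PΩ(Q)` for a form `Q` with coefficients in the prime field
(`Q (σ v) = σ (Q v)`): the semisimilarity group `PΓO(Q)` is generated by `PGO(Q)` and the field
automorphisms, `PGO(Q)` is normalised by them, and (given three probe vectors and a trivial
centre of `Ω`) no non-trivial field automorphism is induced by a similarity. -/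

namespace Cfsg.Agent.Lib.Helper45.SemiAut

open Matrix
open Cfsg.Agent.Lib.Helper45.OmegaAut
open Cfsg.Agent.Lib.Helper94.OrthSiegel

universe u

variable {F : Type u} [Field F] {ι : Type} [Fintype ι] [DecidableEq ι] {Q : (ι → F) → F}

/-- The form is compatible with all field automorphisms. -/
abbrev SigInv (Q : (ι → F) → F) : Prop :=
  ∀ (σ : F ≃+* F) (v : ι → F), Q (fun k => σ (v k)) = σ (Q v)

theorem smap_mulVec (σ : F ≃+* F) (g : GL ι F) (x : ι → F) :
    ((Matrix.GeneralLinearGroup.map (σ : F →+* F) g : GL ι F) : Matrix ι ι F) *ᵥ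
        (fun k => σ (x k)) =
      fun k => σ (((g : Matrix ι ι F) *ᵥ x) k) := by
  funext k
  exact (RingHom.map_mulVec (σ : F →+* F) _ x k).symm

theorem smap_mem (hσ : SigInv Q) (σ : F ≃+* F) {g : GL ι F}
    (hg : g ∈ Cfsg.isometryGroup F Q) :
    Matrix.GeneralLinearGroup.map (σ : F →+* F) g ∈ Cfsg.isometryGroup F Q := by
  rw [mem_iso_iff'] at hg ⊢
  intro v
  have hv : v = fun k => σ (σ.symm (v k)) := by
    funext k
    simp
  rw [hv, smap_mulVec, hσ σ, hσ σ, hg]

theorem smap_mem_GO (hσ : SigInv Q) (σ : F ≃+* F) {g : GL ι F}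
    (hg : g ∈ Cfsg.Geo.quadSimilarityGroup (F := F) Q) :
    Matrix.GeneralLinearGroup.map (σ : F →+* F) g ∈ Cfsg.Geo.quadSimilarityGroup (F := F) Q := by
  obtain ⟨c, hc⟩ := hg
  refine ⟨Units.map ((σ : F →+* F) : F →* F) c, fun v => ?_⟩
  have hv : v = fun k => σ (σ.symm (v k)) := by
    funext k
    simp
  have e : ((Units.map ((σ : F →+* F) : F →* F) c : Fˣ) : F) = σ (c : F) := rfl
  rw [hv, smap_mulVec, hσ σ, hσ σ, hc, map_mul, e]

theorem smap_map_symm (σ : F ≃+* F) (g : GL ι F) :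
    Matrix.GeneralLinearGroup.map (σ.symm : F →+* F)
      (Matrix.GeneralLinearGroup.map (σ : F →+* F) g) = g := by
  apply Units.ext
  ext i j
  simp [Matrix.GeneralLinearGroup.map]

theorem smap_symm_map (σ : F ≃+* F) (g : GL ι F) :
    Matrix.GeneralLinearGroup.map (σ : F →+* F)
      (Matrix.GeneralLinearGroup.map (σ.symm : F →+* F) g) = g := by
  apply Units.ext
  ext i j
  simp [Matrix.GeneralLinearGroup.map]

/-- field automorphisms acting on the isometry group -/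
def isoAut (hσ : SigInv Q) (σ : F ≃+* F) : MulAut ↥(Cfsg.isometryGroup F Q) where
  toFun g := ⟨Matrix.GeneralLinearGroup.map (σ : F →+* F) g, smap_mem hσ σ g.2⟩
  invFun g := ⟨Matrix.GeneralLinearGroup.map (σ.symm : F →+* F) g, smap_mem hσ σ.symm g.2⟩
  left_inv g := Subtype.ext (smap_map_symm σ (g : GL ι F))
  right_inv g := Subtype.ext (smap_symm_map σ (g : GL ι F))
  map_mul' g h := Subtype.ext (map_mul _ _ _)

/-- field automorphisms acting on `Ω` -/
def omAut (hσ : SigInv Q) (σ : F ≃+* F) : MulAut ↥(Cfsg.Omega F Q) :=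
  (@MulAut.characteristic _ _ (Cfsg.Omega F Q) (comm_char _)) (isoAut hσ σ)

theorem omAut_coe (hσ : SigInv Q) (σ : F ≃+* F) (s : ↥(Cfsg.Omega F Q)) :
    (((omAut hσ σ s : ↥(Cfsg.Omega F Q)) : ↥(Cfsg.isometryGroup F Q)) : GL ι F) =
      Matrix.GeneralLinearGroup.map (σ : F →+* F)
        ((s : ↥(Cfsg.isometryGroup F Q)) : GL ι F) := rfl

/-- field automorphisms acting on `PΩ` -/
def cσ (hσ : SigInv Q) (σ : F ≃+* F) : MulAut (Cfsg.POmega F Q) :=
  quotAut _ (omAut hσ σ)

theorem cσ_mk (hσ : SigInv Q) (σ : F ≃+* F) (s : ↥(Cfsg.Omega F Q)) :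
    cσ hσ σ (QuotientGroup.mk s) = QuotientGroup.mk (omAut hσ σ s) := rfl

theorem cσ_one (hσ : SigInv Q) : cσ hσ (1 : RingAut F) = 1 := by
  apply MulEquiv.ext
  intro x
  induction x using QuotientGroup.induction_on with
  | H s =>
    rw [cσ_mk, MulAut.one_apply]
    congr 1

theorem cσ_mul (hσ : SigInv Q) (σ τ : RingAut F) :
    cσ hσ (σ * τ) = cσ hσ σ * cσ hσ τ := by
  apply MulEquiv.ext
  intro x
  induction x using QuotientGroup.induction_on with
  | H s =>
    rw [MulAut.mul_apply, cσ_mk, cσ_mk, cσ_mk]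
    congr 1

/-- the action of the field automorphisms on `PΩ` -/
def cσHom (hσ : SigInv Q) : RingAut F →* MulAut (Cfsg.POmega F Q) where
  toFun σ := cσ hσ σ
  map_one' := cσ_one hσ
  map_mul' σ τ := cσ_mul hσ σ τ

theorem cσHom_apply (hσ : SigInv Q) (σ : RingAut F) : cσHom hσ σ = cσ hσ σ := rfl

/-- a semisimilarity is a similarity (for forms over the prime field) -/
theorem sim_of_semi (hσ : SigInv Q) {g : GL ι F} {σ : F ≃+* F}
    (h : Cfsg.IsSemisimilarityPair Q g σ) : g ∈ Cfsg.Geo.quadSimilarityGroup (F := F) Q := by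
  obtain ⟨c, hc⟩ := h
  refine ⟨c, fun v => ?_⟩
  have h1 := hc (fun k => σ.symm (v k))
  rw [hσ σ.symm v] at h1
  simp only [RingEquiv.apply_symm_apply] at h1
  exact h1

/-- an automorphism induced by a semilinear map is a similarity times a field automorphism -/
theorem induced_eq (hσ : SigInv Q) {g : GL ι F}
    (hg : g ∈ Cfsg.Geo.quadSimilarityGroup (F := F) Q) {σ : F ≃+* F}
    {β : Cfsg.POmega F Q ≃* Cfsg.POmega F Q}
    (hβ : Cfsg.IsInducedBySemilinearPOmega Q g σ β) : β = Phi Q ⟨g, hg⟩ * cσ hσ σ := by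
  apply MulEquiv.ext
  intro x
  induction x using QuotientGroup.induction_on with
  | H s =>
    rw [MulAut.mul_apply, cσ_mk, Phi_mk]
    apply hβ s (cjΩ Q ⟨g, hg⟩ (omAut hσ σ s))
    rw [cjΩ_coe, omAut_coe]
    rfl

/-- `PΓO(Q)` is generated by `PGO(Q)` and the field automorphisms -/
theorem gamma_le (hσ : SigInv Q) :
    Cfsg.gammaPOmega F Q ≤ (Phi Q).range ⊔ (cσHom hσ).range := by
  unfold Cfsg.gammaPOmega Cfsg.autSubgroupOf
  rw [Subgroup.closure_le]
  rintro β ⟨g, σ, hsemi, hβ⟩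
  rw [induced_eq hσ (sim_of_semi hσ hsemi) hβ]
  exact Subgroup.mul_mem_sup ⟨_, rfl⟩ ⟨σ, rfl⟩

theorem cσ_conj (hσ : SigInv Q) (σ : F ≃+* F)
    (g : ↥(Cfsg.Geo.quadSimilarityGroup (F := F) Q)) :
    cσ hσ σ * Phi Q g =
      Phi Q ⟨Matrix.GeneralLinearGroup.map (σ : F →+* F) g, smap_mem_GO hσ σ g.2⟩ * cσ hσ σ := by
  apply MulEquiv.ext
  intro x
  induction x using QuotientGroup.induction_on with
  | H s =>
    rw [MulAut.mul_apply, MulAut.mul_apply, Phi_mk, cσ_mk, cσ_mk, Phi_mk]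
    congr 1
    apply Subtype.ext
    apply Subtype.ext
    have e : Matrix.GeneralLinearGroup.map (σ : F →+* F)
          ((g : GL ι F) * ((s : ↥(Cfsg.isometryGroup F Q)) : GL ι F) * (g : GL ι F)⁻¹)
        = Matrix.GeneralLinearGroup.map (σ : F →+* F) (g : GL ι F)
          * Matrix.GeneralLinearGroup.map (σ : F →+* F) ((s : ↥(Cfsg.isometryGroup F Q)) : GL ι F)
          * (Matrix.GeneralLinearGroup.map (σ : F →+* F) (g : GL ι F))⁻¹ := by
      rw [map_mul, map_mul, map_inv]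
    exact e

theorem conj_mem (hσ : SigInv Q) (σ : RingAut F)
    (g : ↥(Cfsg.Geo.quadSimilarityGroup (F := F) Q)) :
    cσHom hσ σ * Phi Q g * (cσHom hσ σ)⁻¹ ∈ (Phi Q).range := by
  refine ⟨⟨Matrix.GeneralLinearGroup.map (σ : F →+* F) g, smap_mem_GO hσ σ g.2⟩, ?_⟩
  rw [eq_mul_inv_iff_mul_eq]
  exact (cσ_conj hσ σ g).symm

theorem cσ_le_normalizer (hσ : SigInv Q) :
    (cσHom hσ).range ≤ Subgroup.normalizer ((Phi Q).range : Set (MulAut (Cfsg.POmega F Q))) := by
  rintro _ ⟨σ, rfl⟩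
  rw [Subgroup.mem_normalizer_iff]
  intro h
  constructor
  · rintro ⟨g, rfl⟩
    exact conj_mem hσ σ g
  · rintro ⟨g, hg⟩
    have h1 := conj_mem hσ σ⁻¹ g
    rw [hg, map_inv, inv_inv] at h1
    have e : (cσHom hσ σ)⁻¹ * (cσHom hσ σ * h * (cσHom hσ σ)⁻¹) * cσHom hσ σ = h := by group
    rwa [e] at h1

/-- if `Aut = PGO · Field` then `PGO` is normal -/
theorem range_normal (hσ : SigInv Q) (hsup : (Phi Q).range ⊔ (cσHom hσ).range = ⊤) :
    (Phi Q).range.Normal := by
  rw [← Subgroup.normalizer_eq_top_iff, ← top_le_iff, ← hsup]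
  exact sup_le Subgroup.le_normalizer (cσ_le_normalizer hσ)

/-! ### Siegel elements and field automorphisms -/

theorem spolar_map (hσ : SigInv Q) (σ : F ≃+* F) (u v : ι → F) :
    QuadraticMap.polar Q (fun k => σ (u k)) (fun k => σ (v k)) = σ (QuadraticMap.polar Q u v) := by
  have e : ((fun k => σ (u k)) + fun k => σ (v k)) = fun k => σ ((u + v) k) := by
    funext k
    simp
  unfold QuadraticMap.polar
  rw [e, hσ σ, hσ σ, hσ σ, map_sub, map_sub]

/-- the image of a Siegel element under a field automorphism -/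
theorem ssg_map (hQ : Cfsg.Geo.IsNondegenerateQuadraticForm Q) (hσ : SigInv Q) (σ : F ≃+* F)
    (a w : ι → F) :
    Matrix.GeneralLinearGroup.map (σ : F →+* F) (sg hQ a w) =
      sg hQ (fun k => σ (a k)) (fun k => σ (w k)) := by
  by_cases h : Q a = 0 ∧ QuadraticMap.polar Q a w = 0
  · have h1 : Q (fun k => σ (a k)) = 0 := by rw [hσ σ, h.1, map_zero]
    have h2 : QuadraticMap.polar Q (fun k => σ (a k)) (fun k => σ (w k)) = 0 := by
      rw [spolar_map hσ, h.2, map_zero]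
    apply Cfsg.Agent.Lib.Helper94.Tv.gl_ext
    intro x
    have hx : x = fun k => σ (σ.symm (x k)) := by
      funext k
      simp
    rw [hx, smap_mulVec, sg_mulVec hQ _ _ h.1 h.2, sg_mulVec hQ _ _ h1 h2, spolar_map hσ,
      spolar_map hσ, hσ σ]
    funext k
    simp only [Pi.add_apply, Pi.sub_apply, Pi.smul_apply, smul_eq_mul, map_add, map_sub, map_mul]
  · have h' : ¬ (Q (fun k => σ (a k)) = 0 ∧
        QuadraticMap.polar Q (fun k => σ (a k)) (fun k => σ (w k)) = 0) := by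
      rw [hσ σ, spolar_map hσ]
      intro h'
      apply h
      exact ⟨by simpa using h'.1, by simpa using h'.2⟩
    rw [sg_not _ _ _ h, sg_not _ _ _ h', map_one]

theorem map_single (σ : F ≃+* F) (j : ι) :
    (fun k => σ ((Pi.single j (1 : F) : ι → F) k)) = Pi.single j 1 := by
  funext k
  by_cases hk : k = j
  · subst hk
    rw [Pi.single_eq_same, map_one]
  · rw [Pi.single_eq_of_ne hk, map_zero]

theorem mk_inj (hZ : Subgroup.center ↥(Cfsg.Omega F Q) = ⊥) {s s' : ↥(Cfsg.Omega F Q)}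
    (h : (QuotientGroup.mk s : Cfsg.POmega F Q) = QuotientGroup.mk s') : s = s' := by
  have h1 := QuotientGroup.eq.mp h
  rw [hZ, Subgroup.mem_bot] at h1
  exact inv_mul_eq_one.mp h1

/-- `|Inn(PΩ)| = |PΩ|` when the centre of `Ω` is trivial -/
theorem card_inn (hZ : Subgroup.center ↥(Cfsg.Omega F Q) = ⊥) :
    Nat.card ↥(Cfsg.Inn (Cfsg.POmega F Q)) = Nat.card (Cfsg.POmega F Q) := by
  have hinj : Function.Injective
      (MulAut.conj : Cfsg.POmega F Q →* MulAut (Cfsg.POmega F Q)) := by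
    rw [injective_iff_map_eq_one]
    intro x hx
    induction x using QuotientGroup.induction_on with
    | H s =>
      have hs : s ∈ Subgroup.center ↥(Cfsg.Omega F Q) := by
        rw [Subgroup.mem_center_iff]
        intro t
        have h1 := congrArg (fun β : MulAut (Cfsg.POmega F Q) => β (QuotientGroup.mk t)) hx
        simp only [MulAut.conj_apply, MulAut.one_apply] at h1
        have h2 : (QuotientGroup.mk (s * t * s⁻¹) : Cfsg.POmega F Q) = QuotientGroup.mk t := h1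
        have h3 := mk_inj hZ h2
        calc t * s = (s * t * s⁻¹) * s := by rw [h3]
          _ = s * t := by group
      rw [hZ, Subgroup.mem_bot] at hs
      subst hs
      rfl
  exact (Nat.card_congr (MonoidHom.ofInjective hinj).toEquiv).symm

theorem inn_le : Cfsg.Inn (Cfsg.POmega F Q) ≤ (Phi Q).range := by
  rw [inn_eq]
  rintro β ⟨s, rfl⟩
  exact ⟨inclΩ Q s, rfl⟩

theorem sg_line (hQ : Cfsg.Geo.IsNondegenerateQuadraticForm Q) {u v : ι → F} (hu : Q u = 0)
    (hv : Q v = 0) (huv : QuadraticMap.polar Q u v = 0) (c : F) (x : ι → F) :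
    ((sg hQ u (c • v) : GL ι F) : Matrix ι ι F) *ᵥ x
      = x + c • (QuadraticMap.polar Q u x • v - QuadraticMap.polar Q v x • u) := by
  have h1 : QuadraticMap.polar Q u (c • v) = 0 := by
    rw [hQ.polar_bilinear.smul_right, huv, mul_zero]
  rw [sg_mulVec hQ u (c • v) hu h1, hQ.polar_bilinear.smul_left, hQ.smul, hv]
  funext k
  simp only [Pi.add_apply, Pi.sub_apply, Pi.smul_apply, smul_eq_mul]
  ring

section Fin

variable [Fintype F]

theorem exists_omega_sg (hQ : Cfsg.Geo.IsNondegenerateQuadraticForm Q)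
    (hn : 5 ≤ Fintype.card ι) (a w : ι → F) :
    ∃ s : ↥(Cfsg.Omega F Q), ((s : ↥(Cfsg.isometryGroup F Q)) : GL ι F) = sg hQ a w := by
  obtain ⟨s, hs, hs'⟩ := sg_mem_omega hQ hn a w
  exact ⟨⟨s, hs⟩, hs'⟩

/-- if a field automorphism acts on `PΩ` like the similarity `g`, then `g` intertwines the
Siegel elements -/
theorem sg_intertwine (hQ : Cfsg.Geo.IsNondegenerateQuadraticForm Q) (hσ : SigInv Q)
    (hn : 5 ≤ Fintype.card ι) (hZ : Subgroup.center ↥(Cfsg.Omega F Q) = ⊥) (σ : F ≃+* F)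
    (g : ↥(Cfsg.Geo.quadSimilarityGroup (F := F) Q)) (h : cσ hσ σ = Phi Q g) (a w : ι → F) :
    sg hQ (fun k => σ (a k)) (fun k => σ (w k)) * (g : GL ι F) = (g : GL ι F) * sg hQ a w := by
  obtain ⟨s, hs⟩ := exists_omega_sg hQ hn a w
  have h1 : cσ hσ σ (QuotientGroup.mk s) = Phi Q g (QuotientGroup.mk s) := by rw [h]
  rw [cσ_mk, Phi_mk] at h1
  have h2 : omAut hσ σ s = cjΩ Q g s := mk_inj hZ h1
  have h3 : (((omAut hσ σ s : ↥(Cfsg.Omega F Q)) : ↥(Cfsg.isometryGroup F Q)) : GL ι F)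
      = (((cjΩ Q g s : ↥(Cfsg.Omega F Q)) : ↥(Cfsg.isometryGroup F Q)) : GL ι F) := by rw [h2]
  rw [omAut_coe, cjΩ_coe, hs, ssg_map hQ hσ] at h3
  rw [h3]
  group

/-- Probe vectors: two orthogonal singular vectors `u`, `v` fixed by all field automorphisms
and a vector `u'` with `B(u,u') = 1`, `B(v,u') = 0`. -/
structure Probe (Q : (ι → F) → F) (u v u' : ι → F) : Prop where
  hu : Q u = 0
  hv : Q v = 0
  huv : QuadraticMap.polar Q u v = 0
  huu' : QuadraticMap.polar Q u u' = 1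
  hvu' : QuadraticMap.polar Q v u' = 0
  hv0 : v ≠ 0
  hσu : ∀ σ : F ≃+* F, (fun k => σ (u k)) = u
  hσv : ∀ σ : F ≃+* F, (fun k => σ (v k)) = v

/-- a field automorphism acting on `PΩ` like a similarity is trivial -/
theorem sigma_fix (hQ : Cfsg.Geo.IsNondegenerateQuadraticForm Q) (hσ : SigInv Q)
    (hn : 5 ≤ Fintype.card ι) (hZ : Subgroup.center ↥(Cfsg.Omega F Q) = ⊥)
    {u v u' : ι → F} (hP : Probe Q u v u') (σ : F ≃+* F)
    (g : ↥(Cfsg.Geo.quadSimilarityGroup (F := F) Q)) (h : cσ hσ σ = Phi Q g) (t : F) :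
    σ t = t := by
  have hgv : ((g : GL ι F) : Matrix ι ι F) *ᵥ v ≠ 0 := by
    intro h0
    have h1 := Cfsg.Agent.Lib.Helper94.GLAux.gl_inv_mulVec (g : GL ι F) v
    rw [h0, Matrix.mulVec_zero] at h1
    exact hP.hv0 h1.symm
  have key : ∀ c : F, σ c • (QuadraticMap.polar Q u (((g : GL ι F) : Matrix ι ι F) *ᵥ u') • v
        - QuadraticMap.polar Q v (((g : GL ι F) : Matrix ι ι F) *ᵥ u') • u)
      = c • (((g : GL ι F) : Matrix ι ι F) *ᵥ v) := by
    intro c
    have h1 := sg_intertwine hQ hσ hn hZ σ g h u (c • v)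
    have e : (fun k => σ ((c • v) k)) = σ c • v := by
      funext k
      have hk : σ (v k) = v k := congrFun (hP.hσv σ) k
      rw [Pi.smul_apply, Pi.smul_apply, smul_eq_mul, smul_eq_mul, map_mul, hk]
    rw [hP.hσu σ, e] at h1
    have h2 := congrArg (fun A : GL ι F => (A : Matrix ι ι F) *ᵥ u') h1
    simp only [Units.val_mul] at h2
    rw [← Matrix.mulVec_mulVec, ← Matrix.mulVec_mulVec, sg_line hQ hP.hu hP.hv hP.huv,
      sg_line hQ hP.hu hP.hv hP.huv, hP.huu', hP.hvu', zero_smul, sub_zero, one_smul,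
      Matrix.mulVec_add, Matrix.mulVec_smul] at h2
    exact add_left_cancel h2
  have k1 := key 1
  rw [map_one, one_smul, one_smul] at k1
  have k2 := key t
  rw [k1] at k2
  by_contra hne
  apply hgv
  have h3 : (σ t - t) • (((g : GL ι F) : Matrix ι ι F) *ᵥ v) = 0 := by
    rw [sub_smul, k2, sub_self]
  rcases smul_eq_zero.mp h3 with h4 | h4
  · exact absurd (sub_eq_zero.mp h4) hne
  · exact h4

theorem inf_eq_bot (hQ : Cfsg.Geo.IsNondegenerateQuadraticForm Q) (hσ : SigInv Q)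
    (hn : 5 ≤ Fintype.card ι) (hZ : Subgroup.center ↥(Cfsg.Omega F Q) = ⊥)
    {u v u' : ι → F} (hP : Probe Q u v u') :
    (Phi Q).range ⊓ (cσHom hσ).range = ⊥ := by
  rw [eq_bot_iff]
  rintro β ⟨⟨g, hg⟩, ⟨σ, rfl⟩⟩
  have h1 : σ = 1 := by
    apply RingEquiv.ext
    intro t
    exact sigma_fix hQ hσ hn hZ hP σ g hg.symm t
  rw [Subgroup.mem_bot, h1, map_one]

theorem cσHom_injective (hQ : Cfsg.Geo.IsNondegenerateQuadraticForm Q) (hσ : SigInv Q)
    (hn : 5 ≤ Fintype.card ι) (hZ : Subgroup.center ↥(Cfsg.Omega F Q) = ⊥)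
    {u v u' : ι → F} (hP : Probe Q u v u') : Function.Injective (cσHom hσ) := by
  rw [injective_iff_map_eq_one]
  intro σ h
  apply RingEquiv.ext
  intro t
  exact sigma_fix hQ hσ hn hZ hP σ 1 (h.trans (map_one (Phi Q)).symm) t

end Fin

end Cfsg.Agent.Lib.Helper45.SemiAut
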