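import Mathlib

set_option autoImplicit false

/-! Abstract group theory for `Aut = P ⋊ C` with `Inn ≤ P` of index 2 and `C` cyclic:
the order of `Aut` and the structure `Aut / Inn ≅ Z/2 × Z/f`; the automorphism group of a finite
field is cyclic of order `f`. -/

namespace Cfsg.Agent.Lib.Helper45.SplitOut

/-- `|G| = |I| · ([P : I] · |C|)` when `G = P ⋊ C` and `I ≤ P`. -/
theorem card_of_split {G : Type*} [Group G] (I P C : Subgroup G) [P.Normal] (hIP : I ≤ P)
    (hsup : P ⊔ C = ⊤) (hdisj : P ⊓ C = ⊥) :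
    Nat.card G = Nat.card I * (I.relIndex P * Nat.card C) := by
  have hidx : P.index = Nat.card C := by
    rw [← Subgroup.relIndex_top_right, ← hsup, Subgroup.relIndex_sup_left,
      ← Subgroup.inf_relIndex_right, hdisj, Subgroup.relIndex_bot_left]
  rw [← Subgroup.card_mul_index I, ← Subgroup.relIndex_mul_index hIP, hidx]

theorem cyclic_equiv {H : Type*} [Group H] (hc : IsCyclic H) (n : ℕ) (hn : Nat.card H = n) :
    Nonempty (H ≃* Multiplicative (ZMod n)) := by
  subst hn
  exact ⟨(zmodCyclicMulEquiv hc).symm⟩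

/-- A finite group of order `2 f` with a normal subgroup of order 2 and a cyclic complement of
order `f` is `Z/2 × Z/f`. -/
theorem mulEquiv_of_split {O : Type*} [Group O] [Finite O] {f : ℕ} (D C : Subgroup O) [D.Normal]
    (hD : Nat.card D = 2) (hC : Nat.card C = f) (hCc : IsCyclic C) (hdisj : D ⊓ C = ⊥)
    (hO : Nat.card O = 2 * f) : Nonempty (O ≃* Multiplicative (ZMod 2 × ZMod f)) := by
  have hcen : ∀ d ∈ D, ∀ x : O, x * d = d * x := by
    intro d hd x
    obtain ⟨y, -, hy'⟩ := (Nat.card_eq_two_iff' (1 : D)).mp hD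
    by_cases hd1 : d = 1
    · rw [hd1, mul_one, one_mul]
    · have h1 : (⟨d, hd⟩ : D) = y := hy' _ (fun h => hd1 (congrArg Subtype.val h))
      have hc : x * d * x⁻¹ ∈ D := ‹D.Normal›.conj_mem d hd x
      have h2 : (⟨x * d * x⁻¹, hc⟩ : D) = y := by
        apply hy'
        intro h
        apply hd1
        have h3 : x * d * x⁻¹ = 1 := congrArg Subtype.val h
        have h4 : d = x⁻¹ * (x * d * x⁻¹) * x := by group
        rw [h4, h3]
        group
      have h5 : x * d * x⁻¹ = d := congrArg Subtype.val (h2.trans h1.symm)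
      calc x * d = x * d * x⁻¹ * x := by group
        _ = d * x := by rw [h5]
  obtain ⟨φ, hφ⟩ : ∃ φ : D × C →* O, ∀ (d : D) (c : C), φ (d, c) = (d : O) * (c : O) :=
    ⟨MonoidHom.noncommCoprod D.subtype C.subtype (fun d c => (hcen d.1 d.2 c.1).symm),
      fun d c => rfl⟩
  have hinj : Function.Injective φ := by
    rw [injective_iff_map_eq_one]
    rintro ⟨d, c⟩ h
    rw [hφ] at h
    have h2 : (d : O) ∈ D ⊓ C := by
      refine ⟨d.2, ?_⟩
      have h3 : (d : O) = (c : O)⁻¹ := eq_inv_of_mul_eq_one_left h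
      rw [h3]
      exact C.inv_mem c.2
    rw [hdisj, Subgroup.mem_bot] at h2
    have h3 : (c : O) = 1 := by
      rw [h2, one_mul] at h
      exact h
    exact Prod.ext (Subtype.ext h2) (Subtype.ext h3)
  have hcard : Nat.card (D × C) = Nat.card O := by
    rw [Nat.card_prod, hD, hC, hO]
  have hbij : Function.Bijective φ := (Nat.bijective_iff_injective_and_card φ).mpr ⟨hinj, hcard⟩
  haveI : Fact (Nat.Prime 2) := ⟨Nat.prime_two⟩
  obtain ⟨e1⟩ := cyclic_equiv (isCyclic_of_prime_card hD) 2 hD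
  obtain ⟨e2⟩ := cyclic_equiv hCc f hC
  exact ⟨((MulEquiv.ofBijective φ hbij).symm.trans (MulEquiv.prodCongr e1 e2)).trans
    (MulEquiv.prodMultiplicative (G := ZMod 2) (H := ZMod f)).symm⟩

/-- `G / I ≅ Z/2 × Z/f` when `G = P ⋊ C`, `I ≤ P` of index 2, `C` cyclic of order `f`. -/
theorem out_of_split {G : Type*} [Group G] [Finite G] {f : ℕ} (I P C : Subgroup G) [I.Normal]
    [P.Normal] (hIP : I ≤ P) (hsup : P ⊔ C = ⊤) (hdisj : P ⊓ C = ⊥) (hidx : I.relIndex P = 2)
    (hC : Nat.card C = f) (hCc : IsCyclic C) :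
    Nonempty (G ⧸ I ≃* Multiplicative (ZMod 2 × ZMod f)) := by
  have hker : (QuotientGroup.mk' I).ker = I := QuotientGroup.ker_mk' I
  have hIC : I ⊓ C = ⊥ := by
    rw [eq_bot_iff, ← hdisj]
    exact inf_le_inf_right C hIP
  haveI : (P.map (QuotientGroup.mk' I)).Normal :=
    Subgroup.Normal.map inferInstance _ (QuotientGroup.mk'_surjective I)
  have hD : Nat.card (P.map (QuotientGroup.mk' I)) = 2 := by
    have h := Subgroup.relIndex_map_map (QuotientGroup.mk' I) I P
    rw [hker, sup_idem, sup_eq_left.mpr hIP, hidx,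
      (Subgroup.map_eq_bot_iff I).mpr (le_of_eq hker.symm), Subgroup.relIndex_bot_left] at h
    exact h
  have hC' : Nat.card (C.map (QuotientGroup.mk' I)) = f := by
    have h := Subgroup.relIndex_map_map (QuotientGroup.mk' I) ⊥ C
    rw [hker, Subgroup.map_bot, Subgroup.relIndex_bot_left, bot_sup_eq,
      Subgroup.relIndex_sup_right, ← Subgroup.inf_relIndex_right, hIC,
      Subgroup.relIndex_bot_left, hC] at h
    exact h
  have hdisj' : P.map (QuotientGroup.mk' I) ⊓ C.map (QuotientGroup.mk' I) = ⊥ := by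
    rw [eq_bot_iff]
    rintro x ⟨⟨p, hp, rfl⟩, ⟨c, hc, hpc⟩⟩
    have h1 : c⁻¹ * p ∈ I := QuotientGroup.eq.mp hpc
    have h2 : c ∈ P := by
      have h3 : c⁻¹ * p ∈ P := hIP h1
      have h4 : c = p * (c⁻¹ * p)⁻¹ := by group
      rw [h4]
      exact P.mul_mem hp (P.inv_mem h3)
    have h5 : c ∈ P ⊓ C := ⟨h2, hc⟩
    rw [hdisj, Subgroup.mem_bot] at h5
    rw [Subgroup.mem_bot, ← hpc, h5, map_one]
  have hcard : Nat.card (G ⧸ I) = 2 * f := by
    have h1 := card_of_split I P C hIP hsup hdisj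
    rw [hidx, hC, Subgroup.card_eq_card_quotient_mul_card_subgroup I] at h1
    have hpos : 0 < Nat.card I := Nat.card_pos
    exact Nat.eq_of_mul_eq_mul_right hpos (h1.trans (mul_comm _ _))
  have hCc' : IsCyclic (C.map (QuotientGroup.mk' I)) := by
    haveI := hCc
    exact isCyclic_of_surjective ((QuotientGroup.mk' I).subgroupMap C)
      ((QuotientGroup.mk' I).subgroupMap_surjective C)
  exact mulEquiv_of_split (P.map (QuotientGroup.mk' I)) (C.map (QuotientGroup.mk' I)) hD hC'
    hCc' hdisj' hcard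

theorem charP_of_card' {F : Type*} [Field F] [Fintype F] {p f : ℕ} [Fact p.Prime] (hf : 1 ≤ f)
    (hF : Fintype.card F = p ^ f) : CharP F p := by
  obtain ⟨p', hp'⟩ := CharP.exists F
  haveI := hp'
  obtain ⟨m, hm1, hm2⟩ := FiniteField.card F p'
  have h1 : p ∣ p' ^ (m : ℕ) := by
    rw [← hm2, hF]
    exact dvd_pow_self p (by omega)
  have h2 : p = p' :=
    (Nat.prime_dvd_prime_iff_eq (Fact.out) hm1).1 (Nat.Prime.dvd_of_dvd_pow Fact.out h1)
  rw [h2]
  exact hp'

/-- The automorphism group of the field with `p ^ f` elements is cyclic of order `f`. -/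
theorem ringAut_cyclic_card' {F : Type*} [Field F] [Fintype F] {p f : ℕ} [Fact p.Prime]
    (hf : 1 ≤ f) (hF : Fintype.card F = p ^ f) :
    IsCyclic (RingAut F) ∧ Nat.card (RingAut F) = f := by
  haveI : CharP F p := charP_of_card' hf hF
  letI : Algebra (ZMod p) F := ZMod.algebra F p
  let e : RingAut F ≃* (F ≃ₐ[ZMod p] F) :=
    { toFun := fun σ => AlgEquiv.ofRingEquiv (f := σ) (fun x =>
        RingHom.congr_fun (Subsingleton.elim ((σ : F →+* F).comp (algebraMap (ZMod p) F))
          (algebraMap (ZMod p) F)) x)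
      invFun := fun τ => τ.toRingEquiv
      left_inv := fun σ => by
        ext x
        rfl
      right_inv := fun τ => by
        ext x
        rfl
      map_mul' := fun σ τ => by
        ext x
        rfl }
  have hcyc : IsCyclic (F ≃ₐ[ZMod p] F) := inferInstance
  have hcard : Nat.card (F ≃ₐ[ZMod p] F) = f := by
    have h1 := FiniteField.bijective_frobeniusAlgEquivOfAlgebraic_pow (ZMod p) F
    have h2 := Nat.card_eq_of_bijective _ h1
    rw [Nat.card_eq_fintype_card, Fintype.card_fin] at h2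
    have h3 : Module.finrank (ZMod p) F = f := by
      have h4 := Module.card_eq_pow_finrank (K := ZMod p) (V := F)
      rw [ZMod.card, hF] at h4
      exact (Nat.pow_right_injective (Fact.out : p.Prime).two_le h4).symm
    rw [← h2, h3]
  exact ⟨isCyclic_of_surjective e.symm e.symm.surjective, by rw [Nat.card_congr e.toEquiv, hcard]⟩

end Cfsg.Agent.Lib.Helper45.SplitOut
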