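import Mathlib
import Cfsg.Agent.Lib.Helper45.SemiAut
import Cfsg.Agent.Lib.Helper45.SplitOut
import Cfsg.Agent.Lib.Helper45.OmegaAutIdx
import Cfsg.Agent.Lib.Helper94.OrthPara

set_option autoImplicit false

/-! `Aut(Ω_{2m+1}(q))` from `Aut = PΓO`: order `2 f |Ω|` and `Out ≅ Z/2 × Z/f` (odd `q`).
The general part works for a quadratic form in odd dimension with a hyperbolic frame. -/

namespace Cfsg.Agent.Lib.Helper45.OddAut

open Module QuadraticMap Matrix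
open Cfsg.Agent.Lib.Helper44.QSpace Cfsg.Agent.Lib.Helper44.OGroup
open Cfsg.Agent.Lib.Helper44.OMat Cfsg.Agent.Lib.Helper44.OMat2 Cfsg.Agent.Lib.Helper44.ODet
open Cfsg.Agent.Lib.Helper44.NegPairs
open Cfsg.Agent.Lib.Helper45.OmegaAut Cfsg.Agent.Lib.Helper45.OmegaAutKer
open Cfsg.Agent.Lib.Helper45.OmegaAutPsi Cfsg.Agent.Lib.Helper45.OmegaAutIdx
open Cfsg.Agent.Lib.Helper45.OmegaCenter Cfsg.Agent.Lib.Helper45.SemiAut
open Cfsg.Agent.Lib.Helper45.SplitOut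

universe u

variable {F : Type u} [Field F] {ι : Type} [Fintype ι] [DecidableEq ι]

theorem scal_aux {K : Type*} [Field K] {a b : K} (hb0 : b ≠ 0) (m : ℕ)
    (hb : b ^ 2 = a ^ (2 * m + 1)) :
    (a ^ m * b⁻¹) * (a ^ m * b⁻¹) * a = 1 ∧ (a ^ m * b⁻¹) ^ (2 * m + 1) * b = 1 := by
  constructor
  · have h : (a ^ m * b⁻¹) * (a ^ m * b⁻¹) * a = a ^ (2 * m + 1) * (b ^ 2)⁻¹ := by ring
    rw [h, ← hb, mul_inv_cancel₀ (pow_ne_zero 2 hb0)]
  · have h : (a ^ m * b⁻¹) ^ (2 * m + 1) * b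
        = (a ^ (2 * m + 1)) ^ m * ((b ^ 2) ^ m)⁻¹ * (b⁻¹ * b) := by ring
    rw [h, ← hb, mul_inv_cancel₀ (pow_ne_zero m (pow_ne_zero 2 hb0)), one_mul,
      inv_mul_cancel₀ hb0]

section general

variable (Q : QuadraticForm F (ι → F))

/-- probe vectors from a hyperbolic frame -/
theorem probe_of_frame [Fintype F] {m : ℕ} (φ : Fin m ⊕ Fin m → ι) (hφ : Function.Injective φ)
    (H1 : ∀ x c, Q (x + Pi.single (φ c) 1) = Q x + x (φ c.swap)) {i₀ i₁ : Fin m}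
    (hi : i₀ ≠ i₁) :
    Probe (⇑Q) (Pi.single (φ (Sum.inl i₀)) 1) (Pi.single (φ (Sum.inl i₁)) 1)
      (Pi.single (φ (Sum.inr i₀)) 1) where
  hu := q_single Q φ H1 (Sum.inl i₀)
  hv := q_single Q φ H1 (Sum.inl i₁)
  huv := by
    have h := polar_single Q φ H1 (Pi.single (φ (Sum.inl i₀)) 1) (Sum.inl i₁)
    rw [h]
    exact Pi.single_eq_of_ne (hφ.ne (by simp)) _
  huu' := by
    have h := polar_single Q φ H1 (Pi.single (φ (Sum.inl i₀)) 1) (Sum.inr i₀)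
    rw [h]
    exact Pi.single_eq_same _ _
  hvu' := by
    have h := polar_single Q φ H1 (Pi.single (φ (Sum.inl i₁)) 1) (Sum.inr i₀)
    rw [h]
    exact Pi.single_eq_of_ne (hφ.ne (fun h' => hi (Sum.inl.inj h'))) _
  hv0 := fun h => by
    have h1 := congrFun h (φ (Sum.inl i₁))
    rw [Pi.single_eq_same] at h1
    exact one_ne_zero h1
  hσu := fun σ => map_single σ _
  hσv := fun σ => map_single σ _

variable [Fintype F]

theorem center_eq_bot (h2 : (2 : F) ≠ 0) (hS : Sep Q) {m : ℕ}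
    (hcard : Fintype.card ι = 2 * m + 1) (hm : 2 ≤ m) :
    Subgroup.center ↥(Cfsg.Omega F ⇑Q) = ⊥ := by
  apply Subgroup.card_eq_one.mp
  apply card_center_odd_of_not h2 Q hS (by rw [hcard]; omega)
  rintro ⟨g, hg, hgm⟩
  have hdet := det_of_mem_omega _ g hg
  rw [hgm, Matrix.det_neg, Matrix.det_one, mul_one, hcard, pow_succ, pow_mul] at hdet
  apply h2
  have h3 : ((-1 : F) ^ 2) ^ m = 1 := by norm_num
  rw [h3] at hdet
  linear_combination -hdet

/-- in odd dimension every similarity induces an element of `PSO` -/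
theorem Phi_mem_pso (hS : Sep Q) {m : ℕ} (hcard : Fintype.card ι = 2 * m + 1)
    (g : ↥(Cfsg.Geo.quadSimilarityGroup (F := F) ⇑Q)) : Phi ⇑Q g ∈ Cfsg.psoAut F ⇑Q := by
  rw [pso_eq]
  have hμ0 : (mu Q g : F) ≠ 0 := (mu Q g).ne_zero
  have hb : ((g : GL ι F) : Matrix ι ι F).det ^ 2 = (mu Q g : F) ^ (2 * m + 1) := by
    rw [← hcard]
    exact det_sq Q hS g
  have hb0 : ((g : GL ι F) : Matrix ι ι F).det ≠ 0 := by
    intro h0
    rw [h0, zero_pow two_ne_zero] at hb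
    exact pow_ne_zero _ hμ0 hb.symm
  have h1 := scal_aux hb0 m hb
  obtain ⟨t, ht⟩ : ∃ t : Fˣ, (t : F) = (mu Q g : F) ^ m * (((g : GL ι F) : Matrix ι ι F).det)⁻¹ :=
    ⟨mu Q g ^ m * (Matrix.GeneralLinearGroup.det (g : GL ι F))⁻¹, by
      rw [Units.val_mul, Units.val_pow_eq_pow_val, Units.val_inv_eq_inv_val,
        Matrix.GeneralLinearGroup.val_det_apply]⟩
  have hmem : (sc t : GL ι F) * (g : GL ι F) ∈ Cfsg.specialIsometryGL F ⇑Q := by
    refine Subgroup.mem_inf.mpr ⟨?_, ?_⟩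
    · rw [mem_iso_iff']
      intro v
      rw [Units.val_mul, ← Matrix.mulVec_mulVec, sc_mulVec, QuadraticMap.map_smul, mu_spec,
        smul_eq_mul, ← mul_assoc, ht, h1.1, one_mul]
    · show Matrix.GeneralLinearGroup.det ((sc t : GL ι F) * (g : GL ι F)) = 1
      apply Units.ext
      rw [map_mul, Units.val_mul, Matrix.GeneralLinearGroup.val_det_apply,
        Matrix.GeneralLinearGroup.val_det_apply, det_sc, hcard, ht, Units.val_one]
      exact h1.2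
  refine ⟨⟨_, so_le_GO _ hmem⟩, hmem, ?_⟩
  have hsplit : g = ⟨sc t⁻¹, sc_mem Q t⁻¹⟩ * ⟨(sc t : GL ι F) * (g : GL ι F), so_le_GO _ hmem⟩ := by
    apply Subtype.ext
    show (g : GL ι F) = sc t⁻¹ * (sc t * (g : GL ι F))
    rw [← mul_assoc, ← map_mul, inv_mul_cancel, map_one, one_mul]
  conv_rhs => rw [hsplit]
  rw [map_mul, Phi_eq_one_of_scalar ⇑Q ⟨sc t⁻¹, sc_mem Q t⁻¹⟩ ((t⁻¹ : Fˣ) : F)
    (fun x => sc_mulVec t⁻¹ x), one_mul]

theorem pso_eq_range (hS : Sep Q) {m : ℕ} (hcard : Fintype.card ι = 2 * m + 1) :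
    Cfsg.psoAut F ⇑Q = (Phi ⇑Q).range := by
  apply le_antisymm
  · rw [pso_eq]
    rintro β ⟨g, -, rfl⟩
    exact ⟨g, rfl⟩
  · rintro β ⟨g, rfl⟩
    exact Phi_mem_pso Q hS hcard g

theorem fSO_ker (h2 : (2 : F) ≠ 0) (hS : Sep Q) {m : ℕ}
    (hcard : Fintype.card ι = 2 * m + 1) (hm : 2 ≤ m) : (fSO Q).ker = ⊥ := by
  rw [eq_bot_iff]
  intro x hx
  rw [MonoidHom.mem_ker] at hx
  obtain ⟨c, hc⟩ := scalar_of_Phi_eq_one h2 Q hS (by rw [hcard]; omega) (inclSO Q x) hx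
  have : Nontrivial (ι → F) := by
    have : Nonempty ι := by rw [← Fintype.card_pos_iff]; omega
    infer_instance
  obtain ⟨v₀, hv₀⟩ := exists_ne_zero hS
  have hiso := (mem_iso_iff' ⇑Q _).mp (x : ↥(Cfsg.isometryGroup F ⇑Q)).2 v₀
  have hc' : (((x : ↥(Cfsg.isometryGroup F ⇑Q)) : GL ι F) : Matrix ι ι F) *ᵥ v₀ = c • v₀ := hc v₀
  rw [hc', QuadraticMap.map_smul, smul_eq_mul] at hiso
  have hcc : c * c = 1 := by
    have : (c * c - 1) * Q v₀ = 0 := by linear_combination hiso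
    rcases mul_eq_zero.mp this with h | h
    · linear_combination h
    · exact absurd h hv₀
  have hM : (((x : ↥(Cfsg.isometryGroup F ⇑Q)) : GL ι F) : Matrix ι ι F)
      = c • (1 : Matrix ι ι F) := by
    apply matrix_ext_mulVec
    intro v
    rw [Matrix.smul_mulVec, Matrix.one_mulVec]
    exact hc v
  have hdet : Matrix.GeneralLinearGroup.det ((x : ↥(Cfsg.isometryGroup F ⇑Q)) : GL ι F) = 1 :=
    (mem_special_iff Q _).mp x.2
  have hdet' := congrArg (fun t : Fˣ => (t : F)) hdet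
  simp only [Matrix.GeneralLinearGroup.val_det_apply, Units.val_one] at hdet'
  rw [hM, Matrix.det_smul, Matrix.det_one, mul_one, hcard, pow_succ, pow_mul, pow_two, hcc,
    one_pow, one_mul] at hdet'
  have hx1 : (((x : ↥(Cfsg.isometryGroup F ⇑Q)) : GL ι F) : Matrix ι ι F) = 1 := by
    rw [hM, hdet', one_smul]
  rw [Subgroup.mem_bot]
  apply Subtype.ext
  apply Subtype.ext
  apply Units.ext
  exact hx1

theorem relIndex_inn (h2 : (2 : F) ≠ 0) (hS : Sep Q) {m : ℕ}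
    (hcard : Fintype.card ι = 2 * m + 1) (hm : 2 ≤ m) :
    (Cfsg.Inn (Cfsg.POmega F ⇑Q)).relIndex (Phi ⇑Q).range = 2 := by
  have : Nonempty ι := by rw [← Fintype.card_pos_iff]; omega
  rw [← pso_eq_range Q hS hcard, relIndex_eq, fSO_ker Q h2 hS hcard hm, sup_bot_eq]
  exact index_omega_in_so Q h2 hS (by rw [hcard]; omega)

/-- **Odd dimension, general form**: if `Aut(PΩ) = PΓO` then `|Aut| = 2 f |PΩ|` and
`Out ≅ Z/2 × Z/f`. -/
theorem general {p f : ℕ} [Fact p.Prime] (hf : 1 ≤ f) (hF : Fintype.card F = p ^ f)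
    (h2 : (2 : F) ≠ 0) (hS : Sep Q) {m : ℕ} (hcard : Fintype.card ι = 2 * m + 1) (hm : 2 ≤ m)
    (hσ : SigInv ⇑Q) {u v u' : ι → F} (hP : Probe ⇑Q u v u')
    (hΓ : Cfsg.gammaPOmega F ⇑Q = ⊤) :
    Nat.card (MulAut (Cfsg.POmega F ⇑Q)) = 2 * f * Nat.card (Cfsg.POmega F ⇑Q) ∧
    Nonempty (Cfsg.Out (Cfsg.POmega F ⇑Q) ≃* Multiplicative (ZMod 2 × ZMod f)) := by
  have hQ := Cfsg.Agent.Lib.Helper94.OrthPara.nondeg_of_sep Q hS
  have hn : 5 ≤ Fintype.card ι := by rw [hcard]; omega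
  have hZ := center_eq_bot Q h2 hS hcard hm
  have hsup : (Phi ⇑Q).range ⊔ (cσHom hσ).range = ⊤ := by
    rw [← top_le_iff, ← hΓ]
    exact gamma_le hσ
  haveI hN : (Phi ⇑Q).range.Normal := range_normal hσ hsup
  have hdisj : (Phi ⇑Q).range ⊓ (cσHom hσ).range = ⊥ := inf_eq_bot hQ hσ hn hZ hP
  have hinj : Function.Injective (cσHom hσ) := cσHom_injective hQ hσ hn hZ hP
  obtain ⟨hcyc, hcardA⟩ := ringAut_cyclic_card' (F := F) hf hF
  have hC : Nat.card ↥(cσHom hσ).range = f := by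
    rw [← hcardA]
    exact (Nat.card_congr (MonoidHom.ofInjective hinj).toEquiv).symm
  have hCc : IsCyclic ↥(cσHom hσ).range := by
    haveI := hcyc
    exact isCyclic_of_surjective (cσHom hσ).rangeRestrict (cσHom hσ).rangeRestrict_surjective
  have hIP : Cfsg.Inn (Cfsg.POmega F ⇑Q) ≤ (Phi ⇑Q).range := inn_le
  have hidx := relIndex_inn Q h2 hS hcard hm
  haveI : Finite (MulAut (Cfsg.POmega F ⇑Q)) := inferInstance
  constructor
  · rw [card_of_split _ _ _ hIP hsup hdisj, hidx, hC, card_inn hZ]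
    ring
  · exact out_of_split _ _ _ hIP hsup hdisj hidx hC hCc

end general

theorem sigInv_odd (m : ℕ) : SigInv (Cfsg.quadFormOdd m F) := by
  intro σ v
  simp only [Cfsg.quadFormOdd, map_add, map_pow, map_sum, map_mul]

/-- **`Ω_{2m+1}(q)`, `q` odd**: if `Aut = PΓO` then `|Aut| = 2 f |Ω|` and `Out ≅ Z/2 × Z/f`. -/
theorem odd_main [Fintype F] {p f : ℕ} [Fact p.Prime] (hf : 1 ≤ f)
    (hF : Fintype.card F = p ^ f) (h2 : (2 : F) ≠ 0) {m : ℕ} (hm : 2 ≤ m)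
    (hΓ : Cfsg.gammaPOmega F (Cfsg.quadFormOdd m F) = ⊤) :
    Nat.card (MulAut (Cfsg.POmega F (Cfsg.quadFormOdd m F)))
        = 2 * f * Nat.card (Cfsg.POmega F (Cfsg.quadFormOdd m F)) ∧
    Nonempty (Cfsg.Out (Cfsg.POmega F (Cfsg.quadFormOdd m F))
      ≃* Multiplicative (ZMod 2 × ZMod f)) := by
  have hcard : Fintype.card (Unit ⊕ (Fin m ⊕ Fin m)) = 2 * m + 1 := by
    simp only [Fintype.card_sum, Fintype.card_fin, Fintype.card_unit]; omega
  have hi : (⟨0, by omega⟩ : Fin m) ≠ ⟨1, by omega⟩ := by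
    intro h
    have := congrArg Fin.val h
    simp at this
  exact general (oddQ m F) hf hF h2 (sep_oddQ h2 m) hcard hm (sigInv_odd m)
    (probe_of_frame (oddQ m F) Sum.inr Sum.inr_injective (odd_H1 m) hi) hΓ

end Cfsg.Agent.Lib.Helper45.OddAut
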