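import Mathlib
import Cfsg.Agent.Lib.Helper44.QDiag
import Cfsg.Agent.Lib.Helper40.SympConj

set_option autoImplicit false

/-!
Congruence classification of invertible symmetric / skew-symmetric matrices over a finite field
with `2 ≠ 0`: symmetric ones are congruent iff the product of determinants is a square;
all invertible skew-symmetric ones are congruent.
-/

namespace Cfsg.Agent.Lib.Helper45.SymCong

open Matrix Module QuadraticMap
open Cfsg.Agent.Lib.Helper44.QSpace Cfsg.Agent.Lib.Helper44.QDiag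

variable {F : Type*} [Field F]

/-- the quadratic form `v ↦ vᵀ g v` -/
noncomputable def qf {N : ℕ} (g : Matrix (Fin N) (Fin N) F) : QuadraticForm F (Fin N → F) :=
  Matrix.toQuadraticForm' g

theorem qf_apply {N : ℕ} (g : Matrix (Fin N) (Fin N) F) (v : Fin N → F) :
    qf g v = v ⬝ᵥ g *ᵥ v :=
  Matrix.toLinearMap₂'_apply' g v v

theorem dot_symm {N : ℕ} (g : Matrix (Fin N) (Fin N) F) (hg : gᵀ = g) (x y : Fin N → F) :
    y ⬝ᵥ g *ᵥ x = x ⬝ᵥ g *ᵥ y := by
  rw [Matrix.dotProduct_mulVec, ← Matrix.mulVec_transpose, hg, dotProduct_comm]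

theorem polar_qf {N : ℕ} (g : Matrix (Fin N) (Fin N) F) (hg : gᵀ = g) (x y : Fin N → F) :
    polar (qf g) x y = 2 * (x ⬝ᵥ g *ᵥ y) := by
  unfold polar
  rw [qf_apply, qf_apply, qf_apply, Matrix.mulVec_add, add_dotProduct, dotProduct_add,
    dotProduct_add, dot_symm g hg x y]
  ring

theorem eq_zero_of_forall_dot_mulVec {N : ℕ} (g : Matrix (Fin N) (Fin N) F) (hd : IsUnit g.det)
    (x : Fin N → F) (h : ∀ y, x ⬝ᵥ g *ᵥ y = 0) : x = 0 := by
  apply Matrix.eq_zero_of_vecMul_eq_zero ((isUnit_iff_ne_zero).1 hd)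
  funext i
  have := h (Pi.single i 1)
  rw [Matrix.dotProduct_mulVec, dotProduct_single_one] at this
  exact this

theorem sep_qf (h2 : (2 : F) ≠ 0) {N : ℕ} (g : Matrix (Fin N) (Fin N) F) (hg : gᵀ = g)
    (hd : IsUnit g.det) : Sep (qf g) := by
  intro x hx
  apply eq_zero_of_forall_dot_mulVec g hd
  intro y
  have := hx y
  rw [polar_qf g hg] at this
  rcases mul_eq_zero.1 this with h | h
  · exact absurd h h2
  · exact h

theorem bil_conj {N : ℕ} (g h : Matrix (Fin N) (Fin N) F) (v w : Fin N → F) :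
    (h *ᵥ v) ⬝ᵥ (g *ᵥ (h *ᵥ w)) = v ⬝ᵥ ((hᵀ * g * h) *ᵥ w) := by
  rw [← Matrix.mulVec_mulVec, ← Matrix.mulVec_mulVec, Matrix.dotProduct_mulVec v hᵀ,
    Matrix.vecMul_transpose]

theorem entry_eq {N : ℕ} (M : Matrix (Fin N) (Fin N) F) (i j : Fin N) :
    M i j = (Pi.single i 1 : Fin N → F) ⬝ᵥ (M *ᵥ (Pi.single j 1)) := by
  rw [Matrix.mulVec_single_one, single_one_dotProduct]
  rfl

/-- the diagonal matrix `diag(1, …, 1, d)` -/
def dg {n : ℕ} (d : F) : Matrix (Fin (n + 1)) (Fin (n + 1)) F :=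
  Matrix.diagonal (fun i => if i = Fin.last n then d else 1)

theorem det_dg {n : ℕ} (d : F) : (dg (n := n) d).det = d := by
  unfold dg
  rw [Matrix.det_diagonal, Finset.prod_eq_single (Fin.last n)]
  · simp
  · intro i _ hi
    simp [hi]
  · intro h
    exact absurd (Finset.mem_univ _) h

theorem dg_mul {n : ℕ} (d s : F) : (dg (n := n) s)ᵀ * dg d * dg s = dg (d * s ^ 2) := by
  unfold dg
  rw [Matrix.diagonal_transpose, Matrix.diagonal_mul_diagonal, Matrix.diagonal_mul_diagonal]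
  congr 1
  funext i
  by_cases hi : i = Fin.last n
  · simp [hi]; ring
  · simp [hi]

/-- Diagonalisation: an invertible symmetric matrix is congruent to `diag(1, …, 1, d)`. -/
theorem exists_diag [Fintype F] (h2 : (2 : F) ≠ 0) {n : ℕ} (g : Matrix (Fin (n + 1)) (Fin (n + 1)) F)
    (hg : gᵀ = g) (hd : IsUnit g.det) :
    ∃ (k : Matrix (Fin (n + 1)) (Fin (n + 1)) F) (d : F), IsUnit k.det ∧ d ≠ 0 ∧
      kᵀ * g * k = dg d := by
  have hfr : finrank F (Fin (n + 1) → F) = n + 1 := by simp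
  obtain ⟨b, hb1, hb2, hb3⟩ := exists_diag_basis h2 n (Fin (n + 1) → F) (qf g) hfr (sep_qf h2 g hg hd)
  let k : Matrix (Fin (n + 1)) (Fin (n + 1)) F := (Pi.basisFun F (Fin (n + 1))).toMatrix b
  have hk : ∀ j, k *ᵥ (Pi.single j 1) = b j := by
    intro j
    rw [Matrix.mulVec_single_one]
    funext i
    show (Pi.basisFun F (Fin (n + 1))).toMatrix b i j = b j i
    rw [Basis.toMatrix_apply, Pi.basisFun_repr]
  refine ⟨k, qf g (b (Fin.last n)), ?_, hb3, ?_⟩
  · have : Invertible k := (Pi.basisFun F (Fin (n + 1))).invertibleToMatrix b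
    exact Matrix.isUnit_det_of_invertible k
  · ext i j
    rw [entry_eq (kᵀ * g * k) i j, ← bil_conj, hk, hk]
    unfold dg
    by_cases hij : i = j
    · subst hij
      rw [Matrix.diagonal_apply_eq, ← qf_apply]
      by_cases hi : i = Fin.last n
      · rw [if_pos hi, hi]
      · rw [if_neg hi, hb2 i hi]
    · rw [Matrix.diagonal_apply_ne _ hij]
      have := hb1 i j hij
      rw [polar_qf g hg] at this
      rcases mul_eq_zero.1 this with h | h
      · exact absurd h h2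
      · exact h

/-- Two invertible symmetric matrices whose determinants have a square product are congruent. -/
theorem cong_of_det [Fintype F] (h2 : (2 : F) ≠ 0) {N : ℕ} (g g' : Matrix (Fin N) (Fin N) F)
    (hg : gᵀ = g) (hg' : g'ᵀ = g') (hd : IsUnit g.det) (hd' : IsUnit g'.det)
    (hsq : IsSquare (g.det * g'.det)) :
    ∃ k : Matrix (Fin N) (Fin N) F, IsUnit k.det ∧ g' = kᵀ * g * k := by
  rcases N with _ | n
  · refine ⟨1, by simp, ?_⟩
    ext i
    exact i.elim0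
  obtain ⟨k₁, d, hk₁, hd0, e₁⟩ := exists_diag h2 g hg hd
  obtain ⟨k₂, d', hk₂, hd0', e₂⟩ := exists_diag h2 g' hg' hd'
  have hdet₁ : k₁.det ^ 2 * g.det = d := by
    have := congrArg Matrix.det e₁
    rw [Matrix.det_mul, Matrix.det_mul, Matrix.det_transpose, det_dg] at this
    rw [← this]; ring
  have hdet₂ : k₂.det ^ 2 * g'.det = d' := by
    have := congrArg Matrix.det e₂
    rw [Matrix.det_mul, Matrix.det_mul, Matrix.det_transpose, det_dg] at this
    rw [← this]; ring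
  obtain ⟨r, hr⟩ := hsq
  -- d' = d * s^2
  have hg0 : g.det ≠ 0 := isUnit_iff_ne_zero.1 hd
  have hg0' : g'.det ≠ 0 := isUnit_iff_ne_zero.1 hd'
  have hk0 : k₁.det ≠ 0 := isUnit_iff_ne_zero.1 hk₁
  have hk0' : k₂.det ≠ 0 := isUnit_iff_ne_zero.1 hk₂
  have hr0 : r ≠ 0 := by
    rintro rfl
    have h0 : g.det * g'.det = 0 := by rw [hr]; ring
    rcases mul_eq_zero.1 h0 with h | h
    · exact hg0 h
    · exact hg0' h
  obtain ⟨s, hs, hs0⟩ : ∃ s : F, d' = d * s ^ 2 ∧ s ≠ 0 := by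
    refine ⟨k₂.det * r / (k₁.det * g.det), ?_, ?_⟩
    · rw [← hdet₂, ← hdet₁]
      field_simp
      linear_combination hr
    · exact div_ne_zero (mul_ne_zero hk0' hr0) (mul_ne_zero hk0 hg0)
  have e₃ : (k₁ * dg s)ᵀ * g * (k₁ * dg s) = k₂ᵀ * g' * k₂ := by
    rw [e₂, hs, ← dg_mul, ← e₁, Matrix.transpose_mul]
    simp only [Matrix.mul_assoc]
  have hk₂' : IsUnit k₂ := (Matrix.isUnit_iff_isUnit_det k₂).2 hk₂
  refine ⟨k₁ * dg s * k₂⁻¹, ?_, ?_⟩
  · rw [Matrix.det_mul, Matrix.det_mul, det_dg, Matrix.det_nonsing_inv]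
    exact ((hk₁.mul (isUnit_iff_ne_zero.2 hs0)).mul (Ring.inverse_unit hk₂.unit ▸ hk₂.unit⁻¹.isUnit))
  · have h1 : k₂ * k₂⁻¹ = 1 := Matrix.mul_nonsing_inv k₂ hk₂
    have h2' : (k₂⁻¹)ᵀ * k₂ᵀ = 1 := by
      rw [← Matrix.transpose_mul, h1, Matrix.transpose_one]
    calc g' = (k₂⁻¹)ᵀ * (k₂ᵀ * g' * k₂) * k₂⁻¹ := by
          rw [Matrix.mul_assoc k₂ᵀ, ← Matrix.mul_assoc (k₂⁻¹)ᵀ, h2', Matrix.one_mul, Matrix.mul_assoc, h1,
            Matrix.mul_one]
      _ = (k₁ * dg s * k₂⁻¹)ᵀ * g * (k₁ * dg s * k₂⁻¹) := by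
          rw [← e₃, Matrix.transpose_mul (k₁ * dg s) k₂⁻¹]
          simp only [Matrix.mul_assoc]

/-- Any two invertible skew-symmetric matrices (`2 ≠ 0`) are congruent. -/
theorem skew_cong (h2 : (2 : F) ≠ 0) {N : ℕ} (g g' : Matrix (Fin N) (Fin N) F)
    (hg : gᵀ = -g) (hg' : g'ᵀ = -g') (hd : IsUnit g.det) (hd' : IsUnit g'.det) :
    ∃ k : Matrix (Fin N) (Fin N) F, IsUnit k.det ∧ g' = kᵀ * g * k := by
  have halt : ∀ (a : Matrix (Fin N) (Fin N) F), aᵀ = -a → (Matrix.toBilin' a).IsAlt := by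
    intro a ha x
    rw [Matrix.toBilin'_apply']
    have h1 : x ⬝ᵥ a *ᵥ x = -(x ⬝ᵥ a *ᵥ x) := by
      conv_lhs => rw [Matrix.dotProduct_mulVec, ← Matrix.mulVec_transpose, ha, Matrix.neg_mulVec,
        neg_dotProduct, dotProduct_comm]
    have h3 : (2 : F) * (x ⬝ᵥ a *ᵥ x) = 0 := by linear_combination h1
    rcases mul_eq_zero.1 h3 with h | h
    · exact absurd h h2
    · exact h
  have hnd : ∀ (a : Matrix (Fin N) (Fin N) F), IsUnit a.det →
      ∀ u : Fin N → F, (∀ v, Matrix.toBilin' a u v = 0) → u = 0 := by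
    intro a ha u hu
    apply eq_zero_of_forall_dot_mulVec a ha
    intro y
    rw [← Matrix.toBilin'_apply']
    exact hu y
  obtain ⟨c, hc⟩ := Cfsg.Agent.Lib.Helper40.SympConj.alt_iso (Matrix.toBilin' g) (Matrix.toBilin' g')
    (halt g hg) (halt g' hg') (hnd g hd) (hnd g' hd')
  refine ⟨LinearMap.toMatrix' (c : (Fin N → F) →ₗ[F] (Fin N → F)), ?_, ?_⟩
  · rw [LinearMap.det_toMatrix']
    exact LinearEquiv.isUnit_det' c
  · ext i j
    rw [entry_eq g' i j, entry_eq (_ᵀ * g * _) i j, ← bil_conj, LinearMap.toMatrix'_mulVec,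
      LinearMap.toMatrix'_mulVec, ← Matrix.toBilin'_apply', ← Matrix.toBilin'_apply']
    exact hc _ _

end Cfsg.Agent.Lib.Helper45.SymCong
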