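import Mathlib
import Cfsg.Agent.Lib.Helper45.OddAut
import Cfsg.Agent.Lib.Helper45.OmegaAutKer
import Cfsg.Agent.Lib.Helper45.OmegaAutPsi
import Cfsg.Agent.Lib.Helper45.SymCong
import Cfsg.Agent.Lib.Helper43.H90GL
import Cfsg.Agent.Lib.Helper43.H90Fin

set_option autoImplicit false

/-! Field automorphisms of `PΩ(Q)` in odd dimension and odd characteristic: twisted powers,
descent of symmetric forms to the fixed field, and conjugacy in the coset of a field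
automorphism. -/

namespace Cfsg.Agent.Lib.Helper45.FldCoset

open Matrix QuadraticMap
open Cfsg.Agent.Lib.Helper44.QSpace
open Cfsg.Agent.Lib.Helper45.OmegaAut Cfsg.Agent.Lib.Helper45.OmegaAutKer
open Cfsg.Agent.Lib.Helper45.OmegaAutPsi Cfsg.Agent.Lib.Helper45.SemiAut
open Cfsg.Agent.Lib.Helper43.H90GL Cfsg.Agent.Lib.Helper43.H90Fin

universe u

variable {F : Type u} [Field F] {ι : Type} [Fintype ι] [DecidableEq ι]

section tw

variable {Q : (ι → F) → F} (hσ : SigInv Q)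

/-- entrywise field automorphism on the similarity group -/
def mapGO (σ : F ≃+* F) :
    ↥(Cfsg.Geo.quadSimilarityGroup (F := F) Q) →* ↥(Cfsg.Geo.quadSimilarityGroup (F := F) Q) where
  toFun g := ⟨Matrix.GeneralLinearGroup.map (σ : F →+* F) g, smap_mem_GO hσ σ g.2⟩
  map_one' := Subtype.ext (map_one _)
  map_mul' _ _ := Subtype.ext (map_mul _ _ _)

theorem mapGO_coe (σ : F ≃+* F) (g : ↥(Cfsg.Geo.quadSimilarityGroup (F := F) Q)) :
    (((mapGO hσ σ g : ↥(Cfsg.Geo.quadSimilarityGroup (F := F) Q)) : GL ι F) : Matrix ι ι F)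
      = ((g : GL ι F) : Matrix ι ι F).map σ := rfl

theorem mapGO_mul_aut (σ τ : RingAut F) (g : ↥(Cfsg.Geo.quadSimilarityGroup (F := F) Q)) :
    mapGO hσ (σ * τ) g = mapGO hσ σ (mapGO hσ τ g) := by
  apply Subtype.ext
  apply Units.ext
  ext i j
  rfl

theorem mapGO_one (g : ↥(Cfsg.Geo.quadSimilarityGroup (F := F) Q)) :
    mapGO hσ (1 : RingAut F) g = g := by
  apply Subtype.ext
  apply Units.ext
  ext i j
  rfl

theorem cσ_mapGO (σ : F ≃+* F) (g : ↥(Cfsg.Geo.quadSimilarityGroup (F := F) Q)) :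
    cσ hσ σ * Phi Q g = Phi Q (mapGO hσ σ g) * cσ hσ σ := cσ_conj hσ σ g

/-- twisted powers `g σ(g) ⋯ σ^{k-1}(g)` -/
def tw (σ : RingAut F) (g : ↥(Cfsg.Geo.quadSimilarityGroup (F := F) Q)) :
    ℕ → ↥(Cfsg.Geo.quadSimilarityGroup (F := F) Q)
  | 0 => 1
  | k + 1 => g * mapGO hσ σ (tw σ g k)

theorem tw_zero (σ : RingAut F) (g : ↥(Cfsg.Geo.quadSimilarityGroup (F := F) Q)) :
    tw hσ σ g 0 = 1 := rfl

theorem tw_succ (σ : RingAut F) (g : ↥(Cfsg.Geo.quadSimilarityGroup (F := F) Q)) (k : ℕ) :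
    tw hσ σ g (k + 1) = g * mapGO hσ σ (tw hσ σ g k) := rfl

theorem tw_succ' (σ : RingAut F) (g : ↥(Cfsg.Geo.quadSimilarityGroup (F := F) Q)) (k : ℕ) :
    tw hσ σ g (k + 1) = tw hσ σ g k * mapGO hσ (σ ^ k) g := by
  induction k with
  | zero => rw [tw_succ, tw_zero, map_one, mul_one, one_mul, pow_zero, mapGO_one]
  | succ k ih =>
    rw [tw_succ hσ σ g (k + 1)]
    nth_rewrite 1 [ih]
    rw [map_mul, ← mapGO_mul_aut, ← pow_succ', ← mul_assoc]
    rfl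

theorem pow_eq (σ : RingAut F) (g : ↥(Cfsg.Geo.quadSimilarityGroup (F := F) Q)) (k : ℕ) :
    (Phi Q g * cσ hσ σ) ^ k = Phi Q (tw hσ σ g k) * cσ hσ (σ ^ k) := by
  induction k with
  | zero => rw [pow_zero, tw_zero, map_one, pow_zero, cσ_one, mul_one]
  | succ k ih =>
    rw [pow_succ' (Phi Q g * cσ hσ σ) k, ih, tw_succ, map_mul, pow_succ' σ k, cσ_mul]
    have hc := cσ_mapGO hσ σ (tw hσ σ g k)
    calc Phi Q g * cσ hσ σ * (Phi Q (tw hσ σ g k) * cσ hσ (σ ^ k))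
        = Phi Q g * (cσ hσ σ * Phi Q (tw hσ σ g k)) * cσ hσ (σ ^ k) := by
          simp only [mul_assoc]
      _ = Phi Q g * (Phi Q (mapGO hσ σ (tw hσ σ g k)) * cσ hσ σ) * cσ hσ (σ ^ k) := by rw [hc]
      _ = Phi Q g * Phi Q (mapGO hσ σ (tw hσ σ g k)) * (cσ hσ σ * cσ hσ (σ ^ k)) := by
          simp only [mul_assoc]

/-- a standard field automorphism is `cσ σ` -/
theorem fieldAut_eq {σ : F ≃+* F} {φ : Cfsg.POmega F Q ≃* Cfsg.POmega F Q}
    (h : Cfsg.IsFieldAutPOmegaOf Q σ φ) : φ = cσ hσ σ := by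
  apply MulEquiv.ext
  intro x
  induction x using QuotientGroup.induction_on with
  | H s =>
    rw [cσ_mk]
    exact h s (omAut hσ σ s) rfl

theorem isFieldAut_cσ (σ : F ≃+* F) : Cfsg.IsFieldAutPOmegaOf Q σ (cσ hσ σ) := by
  intro s s' hs
  rw [cσ_mk]
  congr 1
  apply Subtype.ext
  apply Subtype.ext
  apply Units.ext
  rw [hs]
  rfl

end tw

theorem map_smul' (σ : F ≃+* F) (c : F) (T : Matrix ι ι F) :
    (c • T).map σ = σ c • T.map σ := by
  ext i j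
  rw [Matrix.map_apply, Matrix.smul_apply, Matrix.smul_apply, Matrix.map_apply, smul_eq_mul,
    smul_eq_mul, map_mul]

section gram

variable (Q : QuadraticForm F (ι → F))

/-- the Gram matrix of the polar form -/
noncomputable def gram : Matrix ι ι F := LinearMap.BilinForm.toMatrix' (polarBilin Q)

theorem polar_gram (u v : ι → F) : polar Q u v = u ⬝ᵥ gram Q *ᵥ v := by
  rw [← Matrix.toBilin'_apply']
  unfold gram
  rw [Matrix.toBilin'_toMatrix']
  rfl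

theorem gram_apply (i j : ι) : gram Q i j = polar Q (Pi.single i 1) (Pi.single j 1) := by
  unfold gram
  rw [LinearMap.BilinForm.toMatrix'_apply]
  rfl

theorem gram_symm : (gram Q)ᵀ = gram Q := by
  ext i j
  rw [Matrix.transpose_apply, gram_apply, gram_apply, polar_comm]

theorem two_Q (v : ι → F) : 2 * Q v = v ⬝ᵥ gram Q *ᵥ v := by
  rw [← polar_gram, QuadraticMap.polar_self, two_nsmul, two_mul]

theorem gram_det (hS : Sep Q) : IsUnit (gram Q).det := by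
  rw [isUnit_iff_ne_zero]
  intro h0
  obtain ⟨v, hv, hv2⟩ := Matrix.exists_mulVec_eq_zero_iff.mpr h0
  apply hv
  apply hS
  intro y
  rw [polar_comm, polar_gram, hv2, dotProduct_zero]

theorem bil_conj' (G h : Matrix ι ι F) (v w : ι → F) :
    (h *ᵥ v) ⬝ᵥ G *ᵥ (h *ᵥ w) = v ⬝ᵥ (hᵀ * G * h) *ᵥ w := by
  rw [← Matrix.mulVec_mulVec, ← Matrix.mulVec_mulVec, Matrix.dotProduct_mulVec v hᵀ,
    Matrix.vecMul_transpose]

theorem sim_of_gram (h2 : (2 : F) ≠ 0) (h : Matrix ι ι F) (c : F)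
    (hh : hᵀ * gram Q * h = c • gram Q) (v : ι → F) : Q (h *ᵥ v) = c * Q v := by
  apply mul_left_cancel₀ h2
  rw [two_Q, bil_conj', hh, Matrix.smul_mulVec, dotProduct_smul, ← two_Q, smul_eq_mul]
  ring

theorem polar_sim (G : Matrix ι ι F) (ν : F) (hG : ∀ v, Q (G *ᵥ v) = ν * Q v) (u w : ι → F) :
    polar Q (G *ᵥ u) (G *ᵥ w) = ν * polar Q u w := by
  unfold polar
  rw [← Matrix.mulVec_add, hG, hG, hG]
  ring

theorem gram_of_sim (G : Matrix ι ι F) (ν : F) (hG : ∀ v, Q (G *ᵥ v) = ν * Q v) :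
    Gᵀ * gram Q * G = ν • gram Q := by
  ext i j
  have h1 : (Gᵀ * gram Q * G) i j = Pi.single i 1 ⬝ᵥ (Gᵀ * gram Q * G) *ᵥ Pi.single j 1 := by
    rw [Matrix.mulVec_single_one, single_one_dotProduct]
    rfl
  rw [h1, ← bil_conj', ← polar_gram, polar_sim Q G ν hG, Matrix.smul_apply, gram_apply,
    smul_eq_mul]

theorem gram_map (hσ : SigInv ⇑Q) (σ : F ≃+* F) : (gram Q).map σ = gram Q := by
  ext i j
  rw [Matrix.map_apply, gram_apply, ← spolar_map hσ σ, SemiAut.map_single, SemiAut.map_single]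

end gram

/-- a `σ`-fixed matrix comes from the fixed field -/
theorem exists_fixed (σ : RingAut F) (M : Matrix ι ι F) (hM : M.map σ = M) :
    ∃ M₀ : Matrix ι ι ↥(fixF σ), M₀.map (fixF σ).subtype = M :=
  ⟨Matrix.of fun i j => ⟨M i j, (mem_fixF σ _).2 (congrFun (congrFun hM i) j)⟩, by
    ext i j
    rfl⟩

theorem fixed_map (σ : RingAut F) (M₀ : Matrix ι ι ↥(fixF σ)) :
    (M₀.map (fixF σ).subtype).map σ = M₀.map (fixF σ).subtype := by
  ext i j
  exact (mem_fixF σ _).1 (M₀ i j).2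

/-- congruence of symmetric matrices, any index type -/
theorem cong_of_det' {K : Type*} [Field K] [Fintype K] (h2 : (2 : K) ≠ 0)
    (g g' : Matrix ι ι K) (hg : gᵀ = g) (hg' : g'ᵀ = g') (hd : IsUnit g.det)
    (hd' : IsUnit g'.det) (hsq : IsSquare (g.det * g'.det)) :
    ∃ k : Matrix ι ι K, IsUnit k.det ∧ g' = kᵀ * g * k := by
  obtain ⟨e⟩ : Nonempty (ι ≃ Fin (Fintype.card ι)) := ⟨Fintype.equivFin ι⟩
  have e1 : (g.submatrix e.symm e.symm).submatrix e e = g := by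
    ext i j
    simp
  have e2 : (g'.submatrix e.symm e.symm).submatrix e e = g' := by
    ext i j
    simp
  obtain ⟨k, hk, hk2⟩ := Cfsg.Agent.Lib.Helper45.SymCong.cong_of_det h2
    (g.submatrix e.symm e.symm) (g'.submatrix e.symm e.symm)
    (by rw [Matrix.transpose_submatrix, hg]) (by rw [Matrix.transpose_submatrix, hg'])
    (by rw [Matrix.det_submatrix_equiv_self]; exact hd)
    (by rw [Matrix.det_submatrix_equiv_self]; exact hd')
    (by rw [Matrix.det_submatrix_equiv_self, Matrix.det_submatrix_equiv_self]; exact hsq)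
  refine ⟨k.submatrix e e, by rw [Matrix.det_submatrix_equiv_self]; exact hk, ?_⟩
  have h3 := congrArg (fun M => M.submatrix e e) hk2
  simp only [e2] at h3
  rw [h3, ← Matrix.submatrix_mul_equiv (kᵀ * g.submatrix e.symm e.symm) k e e e,
    ← Matrix.submatrix_mul_equiv kᵀ (g.submatrix e.symm e.symm) e e e, e1,
    Matrix.transpose_submatrix]

section main

variable [Fintype F] (Q : QuadraticForm F (ι → F))

/-- descent: from a solution of `G σ(B) = B` in `GL` to a similarity solution -/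
theorem descent (h2 : (2 : F) ≠ 0) (hS : Sep Q) (hσ : SigInv ⇑Q) {m : ℕ}
    (hcard : Fintype.card ι = 2 * m + 1) (σ : RingAut F) (G : Matrix ι ι F) (ν : F)
    (hG : ∀ v, Q (G *ᵥ v) = ν * Q v) (B : Matrix ι ι F) (hB : IsUnit B)
    (hB2 : G * B.map σ = B) :
    ∃ (h : Matrix ι ι F) (c : F), c ≠ 0 ∧ IsUnit h.det ∧ (∀ v, Q (h *ᵥ v) = c * Q v) ∧
      G * h.map σ = h := by
  haveI hne : Nonempty ι := Fintype.card_pos_iff.1 (by rw [hcard]; omega)
  have hS₀σ : (gram Q).map σ = gram Q := gram_map Q hσ σ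
  have hS₀d : IsUnit (gram Q).det := gram_det Q hS
  have hGS : Gᵀ * gram Q * G = ν • gram Q := gram_of_sim Q G ν hG
  obtain ⟨S, hSdef⟩ : ∃ S, S = Bᵀ * gram Q * B := ⟨_, rfl⟩
  have hBd : IsUnit B.det := (Matrix.isUnit_iff_isUnit_det B).1 hB
  have hSd : IsUnit S.det := by
    rw [hSdef, Matrix.det_mul, Matrix.det_mul, Matrix.det_transpose]
    exact (hBd.mul hS₀d).mul hBd
  have hSσ : S = ν • S.map σ := by
    have h3 : S.map σ = (B.map σ)ᵀ * gram Q * B.map σ := by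
      rw [hSdef, Matrix.map_mul, Matrix.map_mul, hS₀σ, Matrix.transpose_map]
    rw [h3]
    calc S = (G * B.map σ)ᵀ * gram Q * (G * B.map σ) := by rw [hB2, hSdef]
      _ = (B.map σ)ᵀ * (Gᵀ * gram Q * G) * B.map σ := by
          rw [Matrix.transpose_mul]
          simp only [Matrix.mul_assoc]
      _ = ν • ((B.map σ)ᵀ * gram Q * B.map σ) := by
          rw [hGS, Matrix.mul_smul, Matrix.smul_mul]
  obtain ⟨i, j, hij⟩ : ∃ i j, S i j ≠ 0 := by
    by_contra hcon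
    have h0 : S = 0 := by
      ext i j
      by_contra h
      exact hcon ⟨i, j, h⟩
    rw [h0, Matrix.det_zero] at hSd
    exact not_isUnit_zero hSd
  obtain ⟨s, hsdef⟩ : ∃ s, s = S i j := ⟨_, rfl⟩
  have hs0 : s ≠ 0 := by rw [hsdef]; exact hij
  have hsσ : s = ν * σ s := by
    have h4 := congrFun (congrFun hSσ i) j
    rw [Matrix.smul_apply, Matrix.map_apply, smul_eq_mul, ← hsdef] at h4
    exact h4
  have hσs : σ s ≠ 0 := by
    intro h0
    rw [h0, mul_zero] at hsσ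
    exact hs0 hsσ
  obtain ⟨M, hMdef⟩ : ∃ M, M = s⁻¹ • S := ⟨_, rfl⟩
  have hMσ : M.map σ = M := by
    ext a b
    rw [hMdef, Matrix.map_apply, Matrix.smul_apply, smul_eq_mul, map_mul, map_inv₀]
    have h4 := congrFun (congrFun hSσ a) b
    rw [Matrix.smul_apply, Matrix.map_apply, smul_eq_mul] at h4
    rw [inv_mul_eq_div, inv_mul_eq_div, div_eq_div_iff hσs hs0]
    linear_combination (σ (S a b)) * hsσ - (σ s) * h4
  have hMsym : Mᵀ = M := by
    rw [hMdef, Matrix.transpose_smul, hSdef, Matrix.transpose_mul, Matrix.transpose_mul,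
      Matrix.transpose_transpose, gram_symm, Matrix.mul_assoc]
  have hMd : IsUnit M.det := by
    rw [hMdef, Matrix.det_smul]
    exact (IsUnit.pow _ (isUnit_iff_ne_zero.2 (inv_ne_zero hs0))).mul hSd
  haveI := Fintype.ofFinite ↥(fixF σ)
  obtain ⟨φ, hφ⟩ : ∃ φ : ↥(fixF σ) →+* F, φ = (fixF σ).subtype := ⟨_, rfl⟩
  have hφinj : Function.Injective φ := φ.injective
  obtain ⟨M₀, hM₀⟩ := exists_fixed σ M hMσ
  obtain ⟨S₀₀, hS₀₀⟩ := exists_fixed σ (gram Q) hS₀σ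
  rw [← hφ] at hM₀ hS₀₀
  have h2' : (2 : ↥(fixF σ)) ≠ 0 := by
    intro h
    apply h2
    have h5 := congrArg φ h
    rw [map_ofNat, map_zero] at h5
    exact h5
  have hM₀sym : M₀ᵀ = M₀ := by
    apply Matrix.map_injective hφinj
    show M₀ᵀ.map φ = M₀.map φ
    rw [Matrix.transpose_map, hM₀, hMsym]
  have hS₀₀sym : S₀₀ᵀ = S₀₀ := by
    apply Matrix.map_injective hφinj
    show S₀₀ᵀ.map φ = S₀₀.map φ
    rw [Matrix.transpose_map, hS₀₀, gram_symm]
  have hdet : ∀ (A₀ : Matrix ι ι ↥(fixF σ)) (A : Matrix ι ι F), A₀.map φ = A → IsUnit A.det →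
      IsUnit A₀.det := by
    intro A₀ A hA hAd
    rw [isUnit_iff_ne_zero]
    intro h0
    have h1 := RingHom.map_det φ A₀
    rw [h0, map_zero] at h1
    have h3 : φ.mapMatrix A₀ = A := hA
    rw [h3] at h1
    exact hAd.ne_zero h1.symm
  have hM₀d : IsUnit M₀.det := hdet M₀ M hM₀ hMd
  have hS₀₀d : IsUnit S₀₀.det := hdet S₀₀ (gram Q) hS₀₀ hS₀d
  obtain ⟨c', hc'⟩ : ∃ c' : ↥(fixF σ), c' = M₀.det * S₀₀.det := ⟨_, rfl⟩
  have hc'0 : c' ≠ 0 := by
    rw [hc']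
    exact mul_ne_zero hM₀d.ne_zero hS₀₀d.ne_zero
  have hsq : IsSquare (M₀.det * (c' • S₀₀).det) := by
    rw [Matrix.det_smul, hcard]
    refine ⟨c' ^ (m + 1), ?_⟩
    rw [hc']
    ring
  obtain ⟨k, hk, hk2⟩ := cong_of_det' h2' M₀ (c' • S₀₀) hM₀sym
    (by rw [Matrix.transpose_smul, hS₀₀sym]) hM₀d
    (by rw [Matrix.det_smul]; exact (IsUnit.pow _ (isUnit_iff_ne_zero.2 hc'0)).mul hS₀₀d) hsq
  obtain ⟨D, hDdef⟩ : ∃ D : Matrix ι ι F, D = k.map φ := ⟨_, rfl⟩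
  have hDσ : D.map σ = D := by
    rw [hDdef, hφ]
    exact fixed_map σ k
  have hD2 : Dᵀ * M * D = (φ c') • gram Q := by
    rw [hDdef, ← hM₀, ← hS₀₀, ← Matrix.transpose_map, ← Matrix.map_mul, ← Matrix.map_mul, ← hk2]
    ext a b
    rw [Matrix.map_apply, Matrix.smul_apply, Matrix.smul_apply, Matrix.map_apply, smul_eq_mul,
      smul_eq_mul, map_mul]
  have hDd : IsUnit D.det := by
    have h1 := RingHom.map_det φ k
    have h3 : φ.mapMatrix k = D := hDdef.symm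
    rw [h3] at h1
    rw [← h1]
    exact hk.map φ
  have hφc : φ c' ≠ 0 := by
    intro h0
    apply hc'0
    apply hφinj
    rw [h0, map_zero]
  refine ⟨B * D, s * φ c', mul_ne_zero hs0 hφc, ?_, ?_, ?_⟩
  · rw [Matrix.det_mul]
    exact hBd.mul hDd
  · apply sim_of_gram Q h2
    calc (B * D)ᵀ * gram Q * (B * D) = Dᵀ * (Bᵀ * gram Q * B) * D := by
          rw [Matrix.transpose_mul]
          simp only [Matrix.mul_assoc]
      _ = Dᵀ * (s • M) * D := by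
          rw [← hSdef, hMdef, smul_smul, mul_inv_cancel₀ hs0, one_smul]
      _ = s • (Dᵀ * M * D) := by rw [Matrix.mul_smul, Matrix.smul_mul]
      _ = (s * φ c') • gram Q := by rw [hD2, smul_smul]
  · rw [Matrix.map_mul, hDσ, ← Matrix.mul_assoc, hB2]

/-- elements of the right order in the coset of a standard field automorphism are conjugate
to it -/
theorem field_conj (h2 : (2 : F) ≠ 0) (hS : Sep Q) (hσ : SigInv ⇑Q) {m : ℕ}
    (hcard : Fintype.card ι = 2 * m + 1) (hn : 5 ≤ Fintype.card ι) (σ : RingAut F)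
    (g : ↥(Cfsg.Geo.quadSimilarityGroup (F := F) ⇑Q))
    (h : (Phi ⇑Q g * cσ hσ σ) ^ orderOf σ = 1) :
    ∃ e : ↥(Cfsg.Geo.quadSimilarityGroup (F := F) ⇑Q),
      Phi ⇑Q g * cσ hσ σ = Phi ⇑Q e * cσ hσ σ * (Phi ⇑Q e)⁻¹ := by
  haveI hne : Nonempty ι := Fintype.card_pos_iff.1 (by omega)
  have hpos := orderOf_pos_ringAut σ
  rw [pow_eq, pow_orderOf_eq_one, cσ_one, mul_one] at h
  obtain ⟨t, ht⟩ := scalar_of_Phi_eq_one h2 Q hS hn _ h
  have hT : ((tw hσ σ g (orderOf σ) : GL ι F) : Matrix ι ι F) = t • (1 : Matrix ι ι F) := by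
    apply Cfsg.Agent.Lib.Helper44.OMat.matrix_ext_mulVec
    intro x
    rw [ht, Matrix.smul_mulVec, Matrix.one_mulVec]
  have ht0 : t ≠ 0 := by
    intro h0
    have h1 := Matrix.isUnits_det_units ((tw hσ σ g (orderOf σ) : GL ι F))
    rw [hT, h0, zero_smul, Matrix.det_zero] at h1
    exact not_isUnit_zero h1
  have hσt : σ t = t := by
    have h1 : ((tw hσ σ g (orderOf σ + 1) : GL ι F) : Matrix ι ι F)
        = ((g : GL ι F) : Matrix ι ι F) *
          (((tw hσ σ g (orderOf σ) : GL ι F) : Matrix ι ι F)).map σ := rfl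
    have h3 : ((tw hσ σ g (orderOf σ + 1) : GL ι F) : Matrix ι ι F)
        = ((tw hσ σ g (orderOf σ) : GL ι F) : Matrix ι ι F) * ((g : GL ι F) : Matrix ι ι F) := by
      rw [tw_succ', pow_orderOf_eq_one, mapGO_one]
      rfl
    rw [hT] at h1 h3
    have h4 : σ t • ((g : GL ι F) : Matrix ι ι F) = t • ((g : GL ι F) : Matrix ι ι F) := by
      have h5 := h1.symm.trans h3
      rw [map_smul', Matrix.map_one _ (map_zero σ) (map_one σ), Matrix.mul_smul, Matrix.mul_one,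
        Matrix.smul_mul, Matrix.one_mul] at h5
      exact h5
    have h6 : σ t • (1 : Matrix ι ι F) = t • (1 : Matrix ι ι F) := by
      have h5 := congrArg (fun M => M * (((g : GL ι F)⁻¹ : GL ι F) : Matrix ι ι F)) h4
      simp only [Matrix.smul_mul] at h5
      rwa [Units.mul_inv] at h5
    obtain ⟨i⟩ := hne
    have h7 := congrFun (congrFun h6 i) i
    rw [Matrix.smul_apply, Matrix.smul_apply, Matrix.one_apply_eq, smul_eq_mul, smul_eq_mul,
      mul_one, mul_one] at h7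
    exact h7
  obtain ⟨μ, hμ, hμ2⟩ := norm_surj σ t⁻¹ (inv_ne_zero ht0) (by rw [map_inv₀, hσt])
  obtain ⟨B, hB, hB2⟩ := h90_matrix σ hpos (μ • ((g : GL ι F) : Matrix ι ι F))
    (fun k => nm σ μ k • ((tw hσ σ g k : GL ι F) : Matrix ι ι F))
    (by
      show nm σ μ 0 • ((tw hσ σ g 0 : GL ι F) : Matrix ι ι F) = 1
      rw [nm_zero, one_smul]
      rfl)
    (fun k => by
      show nm σ μ (k + 1) • ((tw hσ σ g (k + 1) : GL ι F) : Matrix ι ι F)
        = μ • ((g : GL ι F) : Matrix ι ι F) *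
          (nm σ μ k • ((tw hσ σ g k : GL ι F) : Matrix ι ι F)).map σ
      have h1 : ((tw hσ σ g (k + 1) : GL ι F) : Matrix ι ι F)
          = ((g : GL ι F) : Matrix ι ι F) * (((tw hσ σ g k : GL ι F) : Matrix ι ι F)).map σ := rfl
      rw [h1, map_smul', nm_succ', Matrix.smul_mul, Matrix.mul_smul, smul_smul])
    (by
      show nm σ μ (orderOf σ) • ((tw hσ σ g (orderOf σ) : GL ι F) : Matrix ι ι F) = 1
      rw [hμ2, hT, smul_smul, inv_mul_cancel₀ ht0, one_smul])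
  obtain ⟨hh, c, hc0, hhd, hhsim, hh2⟩ := descent Q h2 hS hσ hcard σ
    (μ • ((g : GL ι F) : Matrix ι ι F)) (μ * μ * (mu Q g : F))
    (fun v => by
      rw [Matrix.smul_mulVec, QuadraticMap.map_smul, mu_spec, smul_eq_mul]
      ring) B hB hB2
  obtain ⟨eGL, heGL⟩ : ∃ eGL : GL ι F, (eGL : Matrix ι ι F) = hh :=
    ⟨Matrix.GeneralLinearGroup.mkOfDetNeZero hh hhd.ne_zero, rfl⟩
  have he : eGL ∈ Cfsg.Geo.quadSimilarityGroup (F := F) ⇑Q :=
    ⟨Units.mk0 c hc0, fun v => by rw [heGL]; exact hhsim v⟩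
  refine ⟨⟨eGL, he⟩, ?_⟩
  have hgh : ((g : GL ι F) : Matrix ι ι F) * hh.map σ = μ⁻¹ • hh := by
    rw [Matrix.smul_mul] at hh2
    nth_rewrite 2 [← hh2]
    rw [inv_smul_smul₀ hμ]
  have hk : Phi ⇑Q (g * mapGO hσ σ ⟨eGL, he⟩ * (⟨eGL, he⟩ : ↥(Cfsg.Geo.quadSimilarityGroup (F := F) ⇑Q))⁻¹) = 1 := by
    apply Phi_eq_one_of_scalar ⇑Q _ μ⁻¹
    intro x
    have hmat : (((g * mapGO hσ σ ⟨eGL, he⟩ *
        (⟨eGL, he⟩ : ↥(Cfsg.Geo.quadSimilarityGroup (F := F) ⇑Q))⁻¹ :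
          ↥(Cfsg.Geo.quadSimilarityGroup (F := F) ⇑Q)) : GL ι F) : Matrix ι ι F)
        = μ⁻¹ • (1 : Matrix ι ι F) := by
      have h1 : (((g * mapGO hσ σ ⟨eGL, he⟩ *
          (⟨eGL, he⟩ : ↥(Cfsg.Geo.quadSimilarityGroup (F := F) ⇑Q))⁻¹ :
            ↥(Cfsg.Geo.quadSimilarityGroup (F := F) ⇑Q)) : GL ι F) : Matrix ι ι F)
          = ((g : GL ι F) : Matrix ι ι F) * (eGL : Matrix ι ι F).map σ *
            ((eGL⁻¹ : GL ι F) : Matrix ι ι F) := rfl
      rw [h1, heGL, hgh, Matrix.smul_mul, ← heGL, Units.mul_inv]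
    rw [hmat, Matrix.smul_mulVec, Matrix.one_mulVec]
  have h5 : Phi ⇑Q g * Phi ⇑Q (mapGO hσ σ ⟨eGL, he⟩) = Phi ⇑Q ⟨eGL, he⟩ := by
    rw [map_mul, map_mul, map_inv, mul_inv_eq_one] at hk
    exact hk
  have hc := cσ_mapGO hσ σ ⟨eGL, he⟩
  have h7 : Phi ⇑Q ⟨eGL, he⟩ * cσ hσ σ = Phi ⇑Q g * cσ hσ σ * Phi ⇑Q ⟨eGL, he⟩ := by
    rw [mul_assoc (Phi ⇑Q g), hc, ← mul_assoc, h5]
  rw [h7, mul_inv_cancel_right]

/-- the coset theorem for a form in odd dimension, given `Aut = PΓO` -/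
theorem coset_conj (h2 : (2 : F) ≠ 0) (hS : Sep Q) (hσ : SigInv ⇑Q) {m : ℕ}
    (hcard : Fintype.card ι = 2 * m + 1) (hm : 2 ≤ m) {u v u' : ι → F} (hP : Probe ⇑Q u v u')
    (hΓ : Cfsg.gammaPOmega F ⇑Q = ⊤) (x δ : MulAut (Cfsg.POmega F ⇑Q))
    (hx : Cfsg.IsFieldAutClassPOmega ⇑Q x) {r : ℕ} (hxr : orderOf x = r)
    (hδ : δ ∈ (Phi ⇑Q).range) :
    orderOf (δ * x) = r ↔ Cfsg.IsConjUnder (Phi ⇑Q).range x (δ * x) := by
  have hQ := Cfsg.Agent.Lib.Helper94.OrthPara.nondeg_of_sep Q hS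
  have hn : 5 ≤ Fintype.card ι := by rw [hcard]; omega
  have hZ := Cfsg.Agent.Lib.Helper45.OddAut.center_eq_bot Q h2 hS hcard hm
  have hsup : (Phi ⇑Q).range ⊔ (cσHom hσ).range = ⊤ := by
    rw [← top_le_iff, ← hΓ]
    exact gamma_le hσ
  have hN : (Phi ⇑Q).range.Normal := range_normal hσ hsup
  have hinj : Function.Injective (cσHom hσ) := cσHom_injective hQ hσ hn hZ hP
  constructor
  · intro hord
    obtain ⟨α, φ, σ, -, hφ, hα⟩ := hx
    rw [fieldAut_eq hσ hφ] at hα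
    obtain ⟨β, hβ⟩ : ∃ β : MulAut (Cfsg.POmega F ⇑Q), x = β * cσ hσ σ * β⁻¹ :=
      ⟨α⁻¹, by rw [← hα]; group⟩
    subst hβ
    have hσr : orderOf σ = r := by
      rw [← hxr]
      have h1 : orderOf (cσHom hσ σ) = orderOf σ := orderOf_injective (cσHom hσ) hinj σ
      rw [← h1]
      exact ((MulAut.conj β).orderOf_eq (cσ hσ σ)).symm
    have hδ₀ : β⁻¹ * δ * β ∈ (Phi ⇑Q).range := by
      have h0 := hN.conj_mem δ hδ β⁻¹
      rwa [inv_inv] at h0
    obtain ⟨g, hg⟩ := hδ₀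
    have h1 : δ * (β * cσ hσ σ * β⁻¹) = β * (Phi ⇑Q g * cσ hσ σ) * β⁻¹ := by
      rw [hg]
      group
    have h3 : (Phi ⇑Q g * cσ hσ σ) ^ orderOf σ = 1 := by
      have h4 : orderOf (Phi ⇑Q g * cσ hσ σ) = r := by
        rw [← hord, h1]
        exact ((MulAut.conj β).orderOf_eq _).symm
      rw [hσr, ← h4]
      exact pow_orderOf_eq_one _
    obtain ⟨e, he⟩ := field_conj Q h2 hS hσ hcard hn σ g h3
    rw [h1, he]
    refine ⟨β * Phi ⇑Q e * β⁻¹, hN.conj_mem _ ⟨e, rfl⟩ β, ?_⟩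
    group
  · rintro ⟨h, -, heq⟩
    rw [heq, ← hxr]
    exact (MulAut.conj h).orderOf_eq x

end main

end Cfsg.Agent.Lib.Helper45.FldCoset
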