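import Mathlib
import Cfsg.Agent.Lib.Helper45.FldCoset
import Cfsg.Agent.Lib.Helper45.OmegaAutIdx
import Cfsg.Agent.Lib.Helper44.ODet
import Cfsg.Agent.Lib.Helper43.SplitCountN

set_option autoImplicit false

/-! Centraliser of a standard field automorphism in `Inndiag(Ω_{2m+1}(q))` and the splitting of
its class; stated for a pair of compatible forms over a field `F` and a subfield image `φ : K → F`,
under the hypothesis that `SO → Aut(PΩ)` is injective (odd dimension). -/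

namespace Cfsg.Agent.Lib.Helper45.FldCent

open Module QuadraticMap Matrix
open Cfsg.Agent.Lib.Helper44.QSpace Cfsg.Agent.Lib.Helper44.OGroup Cfsg.Agent.Lib.Helper44.Spinor
open Cfsg.Agent.Lib.Helper44.CartanD Cfsg.Agent.Lib.Helper44.OMat Cfsg.Agent.Lib.Helper44.OMat2
open Cfsg.Agent.Lib.Helper44.ODet Cfsg.Agent.Lib.Helper44.Omega2
open Cfsg.Agent.Lib.Helper45.OmegaAut Cfsg.Agent.Lib.Helper45.OmegaAutKer
open Cfsg.Agent.Lib.Helper45.OmegaAutPsi Cfsg.Agent.Lib.Helper45.OmegaAutIdx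
open Cfsg.Agent.Lib.Helper45.SemiAut Cfsg.Agent.Lib.Helper45.FldCoset
open Cfsg.Agent.Lib.Helper43.H90GL Cfsg.Agent.Lib.Helper43.H90Fin
open Cfsg.Agent.Lib.Helper43.SplitCount Cfsg.Agent.Lib.Helper43.SplitCountN

section grp

variable {X : Type*} [Group X]

theorem inn_normal' (G : Type*) [Group G] : (Cfsg.Inn G).Normal := by
  constructor
  rintro _ ⟨y, rfl⟩ α
  refine ⟨α y, ?_⟩
  ext z
  simp

/-- the number of `K`-classes in the `H`-class of `x`, for `K` normal in `H` -/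
theorem splitCount_relIndex (H K : Subgroup X) (hK : K.Normal) (hKH : K ≤ H) (x : X) :
    Cfsg.splitClassCount H K x = (K ⊔ (H ⊓ Subgroup.centralizer {x})).relIndex H := by
  haveI := hK
  have h := splitClassCount_eq_index H K x H.subtype
    (fun h => ⟨fun hh => ⟨⟨h, hh⟩, rfl⟩, by rintro ⟨g, rfl⟩; exact g.2⟩)
    ((K ⊔ (H ⊓ Subgroup.centralizer {x})).subgroupOf H) ?_
  · exact h
  · intro g g'
    show Cfsg.IsConjUnder K ((g : X) * x * (g : X)⁻¹) ((g' : X) * x * (g' : X)⁻¹) ↔ _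
    rw [Subgroup.mem_subgroupOf]
    constructor
    · rintro ⟨k, hk, heq⟩
      have hc : (g : X)⁻¹ * k⁻¹ * (g' : X) ∈ H ⊓ Subgroup.centralizer {x} := by
        refine Subgroup.mem_inf.2
          ⟨H.mul_mem (H.mul_mem (H.inv_mem g.2) (H.inv_mem (hKH hk))) g'.2, ?_⟩
        rw [Subgroup.mem_centralizer_singleton_iff]
        have h1 : (g' : X) * x = k * ((g : X) * x * (g : X)⁻¹) * k⁻¹ * g' := by
          rw [← heq]
          group
        calc (g : X)⁻¹ * k⁻¹ * g' * x = (g : X)⁻¹ * k⁻¹ * (g' * x) := by group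
          _ = (g : X)⁻¹ * k⁻¹ * (k * ((g : X) * x * (g : X)⁻¹) * k⁻¹ * g') := by rw [h1]
          _ = x * ((g : X)⁻¹ * k⁻¹ * g') := by group
      have h2 : ((g⁻¹ * g' : ↥H) : X) = ((g : X)⁻¹ * k * g) * ((g : X)⁻¹ * k⁻¹ * g') := by
        rw [Subgroup.coe_mul, Subgroup.coe_inv]
        group
      rw [h2]
      refine Subgroup.mul_mem_sup ?_ hc
      have h3 := hK.conj_mem k hk (g : X)⁻¹
      rwa [inv_inv] at h3
    · intro hmem
      have hmem' : ((g⁻¹ * g' : ↥H) : X) ∈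
          ((K ⊔ (H ⊓ Subgroup.centralizer {x}) : Subgroup X) : Set X) := hmem
      rw [Subgroup.normal_mul] at hmem'
      obtain ⟨k, hk, c, hc, hkc⟩ := Set.mem_mul.1 hmem'
      have hcx : c * x = x * c :=
        Subgroup.mem_centralizer_singleton_iff.1 (Subgroup.mem_inf.1 hc).2
      have hcx' : c * x * c⁻¹ = x := by rw [hcx, mul_inv_cancel_right]
      refine ⟨(g : X) * k * (g : X)⁻¹, hK.conj_mem k hk g, ?_⟩
      have hg' : (g' : X) = g * (k * c) := by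
        rw [hkc, Subgroup.coe_mul, Subgroup.coe_inv]
        group
      rw [hg']
      calc (g : X) * (k * c) * x * ((g : X) * (k * c))⁻¹
          = g * k * (c * x * c⁻¹) * k⁻¹ * (g : X)⁻¹ := by group
        _ = g * k * (g : X)⁻¹ * (g * x * (g : X)⁻¹) * (g * k * (g : X)⁻¹)⁻¹ := by
          rw [hcx']
          group

theorem relIndex_sup_of_not_le (H K C : Subgroup X) (hKH : K ≤ H) (hCH : C ≤ H)
    (h2 : K.relIndex H = 2) (hC : ¬ C ≤ K) : (K ⊔ C).relIndex H = 1 := by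
  have h1 := Subgroup.relIndex_mul_relIndex K (K ⊔ C) H le_sup_left (sup_le hKH hCH)
  rw [h2] at h1
  have h3 : K.relIndex (K ⊔ C) ≠ 1 := by
    intro h
    rw [Subgroup.relIndex_eq_one] at h
    exact hC (le_trans le_sup_right h)
  have h4 : K.relIndex (K ⊔ C) ∣ 2 := Dvd.intro _ h1
  rcases (Nat.dvd_prime Nat.prime_two).1 h4 with h5 | h5
  · exact absurd h5 h3
  · rw [h5] at h1
    omega

end grp

section arith

variable {F : Type*} [Field F] {K : Type*} [Field K]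

theorem nm_fixed (σ : RingAut F) (a : F) (ha : σ a = a) (k : ℕ) : nm σ a k = a ^ k := by
  induction k with
  | zero => rw [nm_zero, pow_zero]
  | succ k ih => rw [nm_succ', ih, map_pow, ha, pow_succ']

/-- a non-square of the fixed field of an automorphism of odd order stays a non-square -/
theorem nonsq_of_odd [Finite F] (σ : RingAut F) (hodd : Odd (orderOf σ)) (φ : K →+* F)
    (hφ : ∀ a, σ a = a → ∃ b, φ b = a) (hφ' : ∀ b, σ (φ b) = φ b) (η : K)
    (hη : ¬ IsSquare η) : ¬ IsSquare (φ η) := by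
  rintro ⟨ζ, hζ⟩
  have hη0 : η ≠ 0 := by
    rintro rfl
    exact hη ⟨0, (mul_zero 0).symm⟩
  have hζ0 : ζ ≠ 0 := by
    rintro rfl
    rw [mul_zero] at hζ
    exact hη0 (φ.injective (by rw [hζ, map_zero]))
  obtain ⟨b, hb⟩ := hφ _ (σ_nm σ ζ hζ0)
  obtain ⟨j, hj⟩ := hodd
  have h1 : nm σ ζ (orderOf σ) * nm σ ζ (orderOf σ) = φ η ^ orderOf σ := by
    rw [← nm_mul, ← hζ, nm_fixed σ _ (hφ' η)]
  rw [← hb, hj, ← map_mul, ← map_pow] at h1
  have h3 : b * b = η ^ (2 * j + 1) := φ.injective h1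
  apply hη
  refine ⟨b * (η ^ j)⁻¹, ?_⟩
  have hηj : η ^ j ≠ 0 := pow_ne_zero _ hη0
  calc η = η ^ (2 * j + 1) * ((η ^ j)⁻¹ * (η ^ j)⁻¹) := by
        have h4 : η ^ (2 * j + 1) = η * (η ^ j * η ^ j) := by ring
        rw [h4, mul_assoc, mul_mul_mul_comm, mul_inv_cancel₀ hηj, mul_one, mul_one]
    _ = b * (η ^ j)⁻¹ * (b * (η ^ j)⁻¹) := by
        rw [← h3]
        ring

/-- the fixed field of an involution consists of squares -/
theorem sq_of_two [Fintype F] (h2 : (2 : F) ≠ 0) (σ : RingAut F) (hσ2 : orderOf σ = 2) (a : F)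
    (ha : σ a = a) : IsSquare a := by
  by_cases ha0 : a = 0
  · exact ⟨0, by rw [ha0, mul_zero]⟩
  have hchar : ringChar F ≠ 2 := by
    intro h
    apply h2
    have h3 := ringChar.Nat.cast_ringChar (R := F)
    rw [h] at h3
    exact_mod_cast h3
  rw [FiniteField.isSquare_iff hchar ha0]
  haveI := Fintype.ofFinite ↥(fixF σ)
  have hcard := card_fixF σ
  rw [hσ2, Nat.card_eq_fintype_card, Nat.card_eq_fintype_card] at hcard
  have hmem : a ∈ fixF σ := (mem_fixF σ a).2 ha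
  have hpow : a ^ (Fintype.card ↥(fixF σ) - 1) = 1 := by
    have h1 := FiniteField.pow_card_sub_one_eq_one (⟨a, hmem⟩ : ↥(fixF σ))
      (by intro h; exact ha0 (congrArg Subtype.val h))
    have h3 := congrArg (fun z : ↥(fixF σ) => (z : F)) h1
    simpa using h3
  have hoddF := FiniteField.odd_card_of_char_ne_two hchar
  have hq0 : Fintype.card ↥(fixF σ) % 2 = 1 := by
    have h5 : Fintype.card F % 2 = (Fintype.card ↥(fixF σ) % 2) ^ 2 % 2 := by
      rw [← hcard, Nat.pow_mod]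
    rcases Nat.mod_two_eq_zero_or_one (Fintype.card ↥(fixF σ)) with h | h
    · rw [h] at h5
      norm_num at h5
      omega
    · exact h
  obtain ⟨t, ht⟩ : ∃ t, Fintype.card ↥(fixF σ) = 2 * t + 1 :=
    ⟨Fintype.card ↥(fixF σ) / 2, by omega⟩
  have key : ∀ N : ℕ, (2 * N + 1) / 2 = N := fun N => by omega
  have hhalf : Fintype.card F / 2 = (Fintype.card ↥(fixF σ) - 1) * (t + 1) := by
    rw [← hcard, ht]
    have h6 : (2 * t + 1) ^ 2 = 2 * (2 * t * (t + 1)) + 1 := by ring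
    rw [h6, key, Nat.add_sub_cancel]
  rw [hhalf, pow_mul, hpow, one_pow]

end arith

section compat

universe u v

variable {F : Type u} [Field F] {K : Type v} [Field K] {ι : Type} [Fintype ι] [DecidableEq ι]
variable (Q : QuadraticForm F (ι → F)) (Q' : QuadraticForm K (ι → K)) (φ : K →+* F)

theorem map_single_φ (j : ι) :
    (fun k => φ ((Pi.single j (1 : K) : ι → K) k)) = Pi.single j 1 := by
  funext k
  rw [Pi.single_apply, Pi.single_apply]
  split_ifs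
  · exact map_one φ
  · exact map_zero φ

theorem polar_compat (hc : ∀ v : ι → K, Q (fun i => φ (v i)) = φ (Q' v)) (a b : ι → K) :
    polar (⇑Q) (fun i => φ (a i)) (fun i => φ (b i)) = φ (polar (⇑Q') a b) := by
  have e : ((fun i => φ (a i)) + fun i => φ (b i)) = fun i => φ ((a + b) i) := by
    funext i
    simp
  unfold polar
  rw [e, hc, hc, hc, map_sub, map_sub]

theorem gram_compat (hc : ∀ v : ι → K, Q (fun i => φ (v i)) = φ (Q' v)) :
    (gram Q').map φ = gram Q := by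
  ext i j
  rw [Matrix.map_apply, FldCoset.gram_apply, FldCoset.gram_apply, ← polar_compat Q Q' φ hc,
    map_single_φ, map_single_φ]

theorem refl_compat (hc : ∀ v : ι → K, Q (fun i => φ (v i)) = φ (Q' v)) (v : ι → K) :
    (Cfsg.reflectionMatrix (⇑Q') v).map φ
      = Cfsg.reflectionMatrix (⇑Q) (fun i => φ (v i)) := by
  ext i j
  have hp : φ (Cfsg.polarVec (⇑Q') v j) = Cfsg.polarVec (⇑Q) (fun i => φ (v i)) j := by
    show φ (polar (⇑Q') v (Pi.single j 1)) = polar (⇑Q) (fun i => φ (v i)) (Pi.single j 1)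
    rw [← polar_compat Q Q' φ hc, map_single_φ]
  have h1 : φ ((1 : Matrix ι ι K) i j) = (1 : Matrix ι ι F) i j := by
    rw [Matrix.one_apply, Matrix.one_apply]
    split_ifs
    · exact map_one φ
    · exact map_zero φ
  unfold Cfsg.reflectionMatrix
  rw [Matrix.map_apply, Matrix.sub_apply, Matrix.sub_apply, Matrix.smul_apply, Matrix.smul_apply,
    Matrix.vecMulVec_apply, Matrix.vecMulVec_apply, map_sub, smul_eq_mul, smul_eq_mul, map_mul,
    map_mul, map_inv₀, ← hc v, h1, hp]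

theorem sim_map (h2 : (2 : F) ≠ 0) (hc : ∀ v : ι → K, Q (fun i => φ (v i)) = φ (Q' v))
    (g : Matrix ι ι K) (c : K) (hg : ∀ v, Q' (g *ᵥ v) = c * Q' v) (w : ι → F) :
    Q (g.map φ *ᵥ w) = φ c * Q w := by
  apply sim_of_gram Q h2
  rw [← gram_compat Q Q' φ hc, ← Matrix.transpose_map, ← Matrix.map_mul, ← Matrix.map_mul,
    gram_of_sim Q' g c hg]
  ext i j
  rw [Matrix.map_apply, Matrix.smul_apply, Matrix.smul_apply, Matrix.map_apply, smul_eq_mul,
    smul_eq_mul, map_mul]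

theorem sim_descend (h2K : (2 : K) ≠ 0) (hc : ∀ v : ι → K, Q (fun i => φ (v i)) = φ (Q' v))
    (g : Matrix ι ι K) (c : K) (hg : ∀ w, Q (g.map φ *ᵥ w) = φ c * Q w) (v : ι → K) :
    Q' (g *ᵥ v) = c * Q' v := by
  apply sim_of_gram Q' h2K
  apply Matrix.map_injective φ.injective
  show (gᵀ * gram Q' * g).map φ = (c • gram Q').map φ
  have hgm := gram_compat Q Q' φ hc
  rw [Matrix.map_mul, Matrix.map_mul, Matrix.transpose_map, hgm,
    gram_of_sim Q (g.map φ) (φ c) hg]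
  ext i j
  rw [Matrix.smul_apply, Matrix.map_apply, Matrix.smul_apply, smul_eq_mul, smul_eq_mul, map_mul,
    ← hgm, Matrix.map_apply]

theorem iso_map (h2 : (2 : F) ≠ 0) (hc : ∀ v : ι → K, Q (fun i => φ (v i)) = φ (Q' v))
    {g : GL ι K} (hg : g ∈ Cfsg.isometryGroup K ⇑Q') :
    Matrix.GeneralLinearGroup.map φ g ∈ Cfsg.isometryGroup F ⇑Q := by
  rw [mem_iso_iff'] at hg ⊢
  intro w
  have h := sim_map Q Q' φ h2 hc (g : Matrix ι ι K) 1 (fun v => by rw [one_mul]; exact hg v) w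
  rw [map_one, one_mul] at h
  exact h

theorem det_map (g : GL ι K) (h : Matrix.GeneralLinearGroup.det g = 1) :
    Matrix.GeneralLinearGroup.det (Matrix.GeneralLinearGroup.map φ g) = 1 := by
  rw [Matrix.GeneralLinearGroup.map_det, h, map_one]

/-- entrywise extension of scalars on the special orthogonal groups -/
def mapSO (h2 : (2 : F) ≠ 0) (hc : ∀ v : ι → K, Q (fun i => φ (v i)) = φ (Q' v)) :
    ↥(Cfsg.specialIsometryGroup K ⇑Q') →* ↥(Cfsg.specialIsometryGroup F ⇑Q) where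
  toFun x := ⟨⟨Matrix.GeneralLinearGroup.map φ ((x : ↥(Cfsg.isometryGroup K ⇑Q')) : GL ι K),
      iso_map Q Q' φ h2 hc (x : ↥(Cfsg.isometryGroup K ⇑Q')).2⟩,
    (mem_special_iff Q _).2 (det_map φ _ ((mem_special_iff Q' _).1 x.2))⟩
  map_one' := Subtype.ext (Subtype.ext (map_one _))
  map_mul' _ _ := Subtype.ext (Subtype.ext (map_mul _ _ _))

theorem mapSO_coe (h2 : (2 : F) ≠ 0) (hc : ∀ v : ι → K, Q (fun i => φ (v i)) = φ (Q' v))
    (x : ↥(Cfsg.specialIsometryGroup K ⇑Q')) :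
    ((((mapSO Q Q' φ h2 hc x : ↥(Cfsg.specialIsometryGroup F ⇑Q)) :
        ↥(Cfsg.isometryGroup F ⇑Q)) : GL ι F) : Matrix ι ι F)
      = ((((x : ↥(Cfsg.isometryGroup K ⇑Q')) : GL ι K)) : Matrix ι ι K).map φ := rfl

theorem mapSO_injective (h2 : (2 : F) ≠ 0)
    (hc : ∀ v : ι → K, Q (fun i => φ (v i)) = φ (Q' v)) :
    Function.Injective (mapSO Q Q' φ h2 hc) := by
  intro x y h
  apply Subtype.ext
  apply Subtype.ext
  apply Units.ext
  apply Matrix.map_injective φ.injective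
  exact congrArg (fun z : ↥(Cfsg.specialIsometryGroup F ⇑Q) =>
    (((z : ↥(Cfsg.isometryGroup F ⇑Q)) : GL ι F) : Matrix ι ι F)) h

/-- the field automorphism on the special orthogonal group -/
def sigSO (hσ : SigInv ⇑Q) (σ : F ≃+* F) (x : ↥(Cfsg.specialIsometryGroup F ⇑Q)) :
    ↥(Cfsg.specialIsometryGroup F ⇑Q) :=
  ⟨⟨Matrix.GeneralLinearGroup.map (σ : F →+* F) ((x : ↥(Cfsg.isometryGroup F ⇑Q)) : GL ι F),
      smap_mem hσ σ (x : ↥(Cfsg.isometryGroup F ⇑Q)).2⟩,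
    (mem_special_iff Q _).2 (det_map (σ : F →+* F) _ ((mem_special_iff Q _).1 x.2))⟩

theorem cσ_fSO (hσ : SigInv ⇑Q) (σ : F ≃+* F) (x : ↥(Cfsg.specialIsometryGroup F ⇑Q)) :
    cσ hσ σ * fSO Q x = fSO Q (sigSO Q hσ σ x) * cσ hσ σ :=
  cσ_mapGO hσ σ (inclSO Q x)

theorem sig_fixed_of_commute (hσ : SigInv ⇑Q) (σ : F ≃+* F)
    (hinj : Function.Injective (fSO Q)) (x : ↥(Cfsg.specialIsometryGroup F ⇑Q))
    (h : fSO Q x * cσ hσ σ = cσ hσ σ * fSO Q x) : sigSO Q hσ σ x = x := by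
  rw [cσ_fSO] at h
  exact (hinj (mul_right_cancel h)).symm

theorem commute_of_sig_fixed (hσ : SigInv ⇑Q) (σ : F ≃+* F)
    (x : ↥(Cfsg.specialIsometryGroup F ⇑Q)) (h : sigSO Q hσ σ x = x) :
    fSO Q x * cσ hσ σ = cσ hσ σ * fSO Q x := by
  rw [cσ_fSO, h]

theorem exists_K (h2 : (2 : F) ≠ 0) (h2K : (2 : K) ≠ 0)
    (hc : ∀ v : ι → K, Q (fun i => φ (v i)) = φ (Q' v)) (hσ : SigInv ⇑Q) (σ : F ≃+* F)
    (hφ : ∀ a, σ a = a → ∃ b, φ b = a) (x : ↥(Cfsg.specialIsometryGroup F ⇑Q))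
    (hx : sigSO Q hσ σ x = x) :
    ∃ x₀ : ↥(Cfsg.specialIsometryGroup K ⇑Q'), mapSO Q Q' φ h2 hc x₀ = x := by
  have hmem : ∀ i j, ∃ b, φ b =
      (((x : ↥(Cfsg.isometryGroup F ⇑Q)) : GL ι F) : Matrix ι ι F) i j := by
    intro i j
    apply hφ
    have h1 := congrArg (fun z : ↥(Cfsg.specialIsometryGroup F ⇑Q) =>
      (((z : ↥(Cfsg.isometryGroup F ⇑Q)) : GL ι F) : Matrix ι ι F) i j) hx
    exact h1
  choose M hM using hmem
  have hmap : (Matrix.of M).map φ =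
      (((x : ↥(Cfsg.isometryGroup F ⇑Q)) : GL ι F) : Matrix ι ι F) := by
    ext i j
    exact hM i j
  have hxdet : ((((x : ↥(Cfsg.isometryGroup F ⇑Q)) : GL ι F) : Matrix ι ι F)).det = 1 := by
    have h1 := congrArg Units.val ((mem_special_iff Q _).1 x.2)
    rw [Matrix.GeneralLinearGroup.val_det_apply, Units.val_one] at h1
    exact h1
  have hdet : (Matrix.of M).det = 1 := by
    apply φ.injective
    have h1 := RingHom.map_det φ (Matrix.of M)
    have h3 : φ.mapMatrix (Matrix.of M) =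
        (((x : ↥(Cfsg.isometryGroup F ⇑Q)) : GL ι F) : Matrix ι ι F) := hmap
    rw [h3, hxdet] at h1
    rw [h1, map_one]
  obtain ⟨g₀, hg₀⟩ : ∃ g₀ : GL ι K, (g₀ : Matrix ι ι K) = Matrix.of M :=
    ⟨Matrix.GeneralLinearGroup.mkOfDetNeZero (Matrix.of M) (by rw [hdet]; exact one_ne_zero),
      rfl⟩
  have hiso : g₀ ∈ Cfsg.isometryGroup K ⇑Q' := by
    rw [mem_iso_iff']
    intro v
    have h := sim_descend Q Q' φ h2K hc (g₀ : Matrix ι ι K) 1 (fun w => by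
      rw [map_one, one_mul, hg₀, hmap]
      exact (mem_iso_iff' _ _).1 (x : ↥(Cfsg.isometryGroup F ⇑Q)).2 w) v
    rw [one_mul] at h
    exact h
  have hsp : (⟨g₀, hiso⟩ : ↥(Cfsg.isometryGroup K ⇑Q')) ∈ Cfsg.specialIsometryGroup K ⇑Q' := by
    rw [mem_special_iff]
    apply Units.ext
    rw [Matrix.GeneralLinearGroup.val_det_apply, Units.val_one]
    show (g₀ : Matrix ι ι K).det = 1
    rw [hg₀, hdet]
  refine ⟨⟨⟨g₀, hiso⟩, hsp⟩, ?_⟩
  apply Subtype.ext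
  apply Subtype.ext
  apply Units.ext
  show (g₀ : Matrix ι ι K).map φ = _
  rw [hg₀, hmap]

theorem range_eq (h2 : (2 : F) ≠ 0) (h2K : (2 : K) ≠ 0)
    (hc : ∀ v : ι → K, Q (fun i => φ (v i)) = φ (Q' v)) (hσ : SigInv ⇑Q) (σ : F ≃+* F)
    (hφ : ∀ a, σ a = a ↔ ∃ b, φ b = a) (hinj : Function.Injective (fSO Q))
    (hrange : (Phi ⇑Q).range = (fSO Q).range) :
    ((fSO Q).comp (mapSO Q Q' φ h2 hc)).range
      = (Phi ⇑Q).range ⊓ Subgroup.centralizer {cσ hσ σ} := by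
  ext y
  constructor
  · rintro ⟨x₀, rfl⟩
    refine Subgroup.mem_inf.2 ⟨⟨inclSO Q (mapSO Q Q' φ h2 hc x₀), rfl⟩, ?_⟩
    rw [Subgroup.mem_centralizer_singleton_iff]
    apply commute_of_sig_fixed
    apply Subtype.ext
    apply Subtype.ext
    apply Units.ext
    ext i j
    show σ (φ ((((x₀ : ↥(Cfsg.isometryGroup K ⇑Q')) : GL ι K) : Matrix ι ι K) i j))
      = φ ((((x₀ : ↥(Cfsg.isometryGroup K ⇑Q')) : GL ι K) : Matrix ι ι K) i j)
    exact (hφ _).2 ⟨_, rfl⟩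
  · intro hy
    obtain ⟨hy1, hy2⟩ := Subgroup.mem_inf.1 hy
    rw [hrange] at hy1
    obtain ⟨x, rfl⟩ := hy1
    rw [Subgroup.mem_centralizer_singleton_iff] at hy2
    have hx := sig_fixed_of_commute Q hσ σ hinj x hy2
    obtain ⟨x₀, rfl⟩ := exists_K Q Q' φ h2 h2K hc hσ σ (fun a ha => (hφ a).1 ha) x hx
    exact ⟨x₀, rfl⟩

/-- the centraliser of a standard field automorphism in the image of the similarity group -/
theorem centralizer_equiv (h2 : (2 : F) ≠ 0) (h2K : (2 : K) ≠ 0)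
    (hc : ∀ v : ι → K, Q (fun i => φ (v i)) = φ (Q' v)) (hσ : SigInv ⇑Q) (σ : F ≃+* F)
    (hφ : ∀ a, σ a = a ↔ ∃ b, φ b = a) (hinj : Function.Injective (fSO Q))
    (hrange : (Phi ⇑Q).range = (fSO Q).range) (hinj' : Function.Injective (fSO Q'))
    (hrange' : (Phi ⇑Q').range = (fSO Q').range) :
    Nonempty (↥((Phi ⇑Q).range ⊓ Subgroup.centralizer {cσ hσ σ}) ≃* ↥(Phi ⇑Q').range) := by
  have hinj2 : Function.Injective ((fSO Q).comp (mapSO Q Q' φ h2 hc)) :=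
    hinj.comp (mapSO_injective Q Q' φ h2 hc)
  obtain ⟨e1⟩ : Nonempty (↥(Cfsg.specialIsometryGroup K ⇑Q') ≃*
      ↥((fSO Q).comp (mapSO Q Q' φ h2 hc)).range) := ⟨MonoidHom.ofInjective hinj2⟩
  obtain ⟨e2⟩ : Nonempty (↥((fSO Q).comp (mapSO Q Q' φ h2 hc)).range ≃*
      ↥((Phi ⇑Q).range ⊓ Subgroup.centralizer {cσ hσ σ})) :=
    ⟨MulEquiv.subgroupCongr (range_eq Q Q' φ h2 h2K hc hσ σ hφ hinj hrange)⟩
  obtain ⟨e3⟩ : Nonempty (↥(Cfsg.specialIsometryGroup K ⇑Q') ≃* ↥(fSO Q').range) :=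
    ⟨MonoidHom.ofInjective hinj'⟩
  obtain ⟨e4⟩ : Nonempty (↥(fSO Q').range ≃* ↥(Phi ⇑Q').range) :=
    ⟨MulEquiv.subgroupCongr hrange'.symm⟩
  exact ⟨(e2.symm.trans e1.symm).trans (e3.trans e4)⟩

/-! ### membership in `Ω` of rational elements -/

theorem matrix_of_prod (x₀ : ↥(Cfsg.isometryGroup K ⇑Q')) (vs : List (ι → K))
    (hg : isoEquiv Q' x₀ = (vs.map (refl Q')).prod) :
    ((x₀ : GL ι K) : Matrix ι ι K)
      = (vs.map (fun v => Cfsg.reflectionMatrix (⇑Q') v)).prod := by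
  apply matrix_ext_mulVec
  intro y
  rw [prod_reflection_mulVec, ← coe_prod_refl, ← hg]
  rfl

theorem prod_map_compat (hc : ∀ v : ι → K, Q (fun i => φ (v i)) = φ (Q' v))
    (l : List (ι → K)) :
    ((l.map (fun v => Cfsg.reflectionMatrix (⇑Q') v)).prod).map φ
      = ((l.map (fun v => fun i => φ (v i))).map
          (fun v => Cfsg.reflectionMatrix (⇑Q) v)).prod := by
  induction l with
  | nil =>
    rw [List.map_nil, List.prod_nil, List.map_nil, List.map_nil, List.prod_nil]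
    exact Matrix.map_one φ (map_zero φ) (map_one φ)
  | cons w ws ih =>
    rw [List.map_cons, List.prod_cons, Matrix.map_mul, ih, refl_compat Q Q' φ hc,
      List.map_cons, List.map_cons, List.prod_cons]

theorem act_of_prod (hc : ∀ v : ι → K, Q (fun i => φ (v i)) = φ (Q' v))
    (x₀ : ↥(Cfsg.isometryGroup K ⇑Q')) (vs : List (ι → K))
    (hg : isoEquiv Q' x₀ = (vs.map (refl Q')).prod) (y : ι → F) :
    (((x₀ : GL ι K) : Matrix ι ι K).map φ) *ᵥ y
      = ((vs.map (fun v => fun i => φ (v i))).map (reflE Q)).prod y := by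
  rw [matrix_of_prod Q' x₀ vs hg, ← prod_reflection_mulVec, prod_map_compat Q Q' φ hc]

theorem ne_zero_map (hc : ∀ v : ι → K, Q (fun i => φ (v i)) = φ (Q' v)) (vs : List (ι → K))
    (hvs : ∀ v ∈ vs, Q' v ≠ 0) : ∀ w ∈ vs.map (fun v => fun i => φ (v i)), Q w ≠ 0 := by
  intro w hw
  rw [List.mem_map] at hw
  obtain ⟨v, hv, rfl⟩ := hw
  rw [hc]
  intro h0
  exact hvs v hv (φ.injective (by rw [h0, map_zero]))

variable [Fintype F] [Fintype K]

/-- if the image of `K` consists of squares, every rational special isometry lies in `Ω` -/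
theorem mapSO_mem_omega (h2 : (2 : F) ≠ 0) (h2K : (2 : K) ≠ 0) (hS : Sep Q) (hS' : Sep Q')
    (hn : 2 ≤ Fintype.card ι) (hc : ∀ v : ι → K, Q (fun i => φ (v i)) = φ (Q' v))
    (hsq : ∀ b : K, IsSquare (φ b)) (x₀ : ↥(Cfsg.specialIsometryGroup K ⇑Q')) :
    ((mapSO Q Q' φ h2 hc x₀ : ↥(Cfsg.specialIsometryGroup F ⇑Q)) :
      ↥(Cfsg.isometryGroup F ⇑Q)) ∈ Cfsg.Omega F ⇑Q := by
  obtain ⟨vs, hvs, hg⟩ := exists_prod_of_cdp (cdp_of_two_ne_zero h2K hS')
    (x₀ : ↥(Cfsg.isometryGroup K ⇑Q'))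
  have hdet := det_of_prod Q' (x₀ : ↥(Cfsg.isometryGroup K ⇑Q')) vs hvs hg
  rw [(mem_special_iff Q' _).1 x₀.2] at hdet
  have hne : (-1 : Kˣ) ≠ 1 := by
    intro h
    have h1 := congrArg Units.val h
    rw [Units.val_neg, Units.val_one] at h1
    apply h2K
    linear_combination -h1
  have heven : Even vs.length := (neg_one_pow_eq_one_iff_even hne).1 hdet.symm
  have hact : ∀ y : ι → F, ((((mapSO Q Q' φ h2 hc x₀ : ↥(Cfsg.specialIsometryGroup F ⇑Q)) :
      ↥(Cfsg.isometryGroup F ⇑Q)) : GL ι F) : Matrix ι ι F) *ᵥ y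
      = ((vs.map (fun (v : ι → K) => fun (i : ι) => φ (v i))).map (reflE Q)).prod y := by
    intro y
    rw [mapSO_coe]
    exact act_of_prod Q Q' φ hc (x₀ : ↥(Cfsg.isometryGroup K ⇑Q')) vs hg y
  have hiff := mem_omega_iff_of_mulVec h2 Q hS hn
    ((mapSO Q Q' φ h2 hc x₀ : ↥(Cfsg.specialIsometryGroup F ⇑Q)) : ↥(Cfsg.isometryGroup F ⇑Q))
    (vs.map (fun (v : ι → K) => fun (i : ι) => φ (v i))) (ne_zero_map Q Q' φ hc vs hvs) hact
  rw [hiff]
  refine ⟨by rw [List.length_map]; exact heven, ?_⟩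
  apply List.prod_induction IsSquare (fun a b ha hb => ha.mul hb) ⟨1, (one_mul 1).symm⟩
  intro a ha
  rw [List.mem_map] at ha
  obtain ⟨w, hw, rfl⟩ := ha
  rw [List.mem_map] at hw
  obtain ⟨v, hv, rfl⟩ := hw
  rw [hc]
  exact hsq _

/-- two rational vectors whose values have a non-square product give a rational special
isometry outside `Ω` -/
theorem exists_not_omega (h2 : (2 : F) ≠ 0) (hS : Sep Q)
    (hn : 2 ≤ Fintype.card ι) (hc : ∀ v : ι → K, Q (fun i => φ (v i)) = φ (Q' v))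
    (u w : ι → K) (hu : Q' u ≠ 0) (hw : Q' w ≠ 0)
    (hns : ¬ IsSquare (φ (Q' u) * φ (Q' w))) :
    ∃ x₀ : ↥(Cfsg.specialIsometryGroup K ⇑Q'),
      ((mapSO Q Q' φ h2 hc x₀ : ↥(Cfsg.specialIsometryGroup F ⇑Q)) :
        ↥(Cfsg.isometryGroup F ⇑Q)) ∉ Cfsg.Omega F ⇑Q := by
  obtain ⟨g, hg⟩ : ∃ g : ↥(Cfsg.isometryGroup K ⇑Q'),
      isoEquiv Q' g = ([u, w].map (refl Q')).prod :=
    ⟨(isoEquiv Q').symm _, (isoEquiv Q').apply_symm_apply _⟩
  have hvs : ∀ v ∈ [u, w], Q' v ≠ 0 := by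
    intro v hv
    rw [List.mem_cons, List.mem_singleton] at hv
    rcases hv with rfl | rfl
    · exact hu
    · exact hw
  have hdet := det_of_prod Q' g [u, w] hvs hg
  have hsp : g ∈ Cfsg.specialIsometryGroup K ⇑Q' := by
    rw [mem_special_iff, hdet]
    show (-1 : Kˣ) ^ 2 = 1
    exact neg_one_sq
  refine ⟨⟨g, hsp⟩, ?_⟩
  have hact : ∀ y : ι → F, ((((mapSO Q Q' φ h2 hc ⟨g, hsp⟩ :
      ↥(Cfsg.specialIsometryGroup F ⇑Q)) : ↥(Cfsg.isometryGroup F ⇑Q)) : GL ι F) :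
        Matrix ι ι F) *ᵥ y
      = (([u, w].map (fun (v : ι → K) => fun (i : ι) => φ (v i))).map (reflE Q)).prod y := by
    intro y
    rw [mapSO_coe]
    exact act_of_prod Q Q' φ hc g [u, w] hg y
  have hiff := mem_omega_iff_of_mulVec h2 Q hS hn
    ((mapSO Q Q' φ h2 hc ⟨g, hsp⟩ : ↥(Cfsg.specialIsometryGroup F ⇑Q)) :
      ↥(Cfsg.isometryGroup F ⇑Q))
    ([u, w].map (fun (v : ι → K) => fun (i : ι) => φ (v i))) (ne_zero_map Q Q' φ hc [u, w] hvs)
    hact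
  rw [hiff]
  rintro ⟨-, hsq⟩
  apply hns
  simp only [List.map_cons, List.map_nil, List.prod_cons, List.prod_nil, mul_one] at hsq
  rw [hc, hc] at hsq
  exact hsq

/-- `r = 2`: the class of a standard field automorphism splits into two classes -/
theorem split_two (h2 : (2 : F) ≠ 0) (h2K : (2 : K) ≠ 0) (hS : Sep Q) (hS' : Sep Q')
    (hn : 2 ≤ Fintype.card ι) (hc : ∀ v : ι → K, Q (fun i => φ (v i)) = φ (Q' v))
    (hσ : SigInv ⇑Q) (σ : F ≃+* F) (hφ : ∀ a, σ a = a ↔ ∃ b, φ b = a)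
    (hinj : Function.Injective (fSO Q)) (hrange : (Phi ⇑Q).range = (fSO Q).range)
    (hsq : ∀ b : K, IsSquare (φ b))
    (hidx : (Cfsg.Inn (Cfsg.POmega F ⇑Q)).relIndex (Phi ⇑Q).range = 2) :
    Cfsg.splitClassCount (Phi ⇑Q).range (Cfsg.Inn (Cfsg.POmega F ⇑Q)) (cσ hσ σ) = 2 := by
  rw [splitCount_relIndex _ _ (inn_normal' _) inn_le]
  have hle : (Phi ⇑Q).range ⊓ Subgroup.centralizer {cσ hσ σ} ≤ Cfsg.Inn (Cfsg.POmega F ⇑Q) := by
    rw [← range_eq Q Q' φ h2 h2K hc hσ σ hφ hinj hrange, inn_eq']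
    rintro y ⟨x₀, rfl⟩
    exact ⟨mapSO Q Q' φ h2 hc x₀,
      Subgroup.mem_subgroupOf.2 (mapSO_mem_omega Q Q' φ h2 h2K hS hS' hn hc hsq x₀), rfl⟩
  rw [sup_eq_left.2 hle]
  exact hidx

/-- `r` odd: the class of a standard field automorphism is a single class -/
theorem split_odd (h2 : (2 : F) ≠ 0) (h2K : (2 : K) ≠ 0) (hS : Sep Q)
    (hn : 2 ≤ Fintype.card ι) (hc : ∀ v : ι → K, Q (fun i => φ (v i)) = φ (Q' v))
    (hσ : SigInv ⇑Q) (σ : F ≃+* F) (hφ : ∀ a, σ a = a ↔ ∃ b, φ b = a)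
    (hinj : Function.Injective (fSO Q)) (hrange : (Phi ⇑Q).range = (fSO Q).range)
    (u w : ι → K) (hu : Q' u ≠ 0) (hw : Q' w ≠ 0)
    (hns : ¬ IsSquare (φ (Q' u) * φ (Q' w)))
    (hidx : (Cfsg.Inn (Cfsg.POmega F ⇑Q)).relIndex (Phi ⇑Q).range = 2) :
    Cfsg.splitClassCount (Phi ⇑Q).range (Cfsg.Inn (Cfsg.POmega F ⇑Q)) (cσ hσ σ) = 1 := by
  rw [splitCount_relIndex _ _ (inn_normal' _) inn_le]
  apply relIndex_sup_of_not_le _ _ _ inn_le inf_le_left hidx
  intro hle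
  obtain ⟨x₀, hx₀⟩ := exists_not_omega Q Q' φ h2 hS hn hc u w hu hw hns
  have hmem : fSO Q (mapSO Q Q' φ h2 hc x₀) ∈
      (Phi ⇑Q).range ⊓ Subgroup.centralizer {cσ hσ σ} := by
    rw [← range_eq Q Q' φ h2 h2K hc hσ σ hφ hinj hrange]
    exact ⟨x₀, rfl⟩
  have h1 := hle hmem
  rw [inn_eq'] at h1
  obtain ⟨z, hz, hz2⟩ := h1
  have h3 := hinj hz2
  rw [← h3] at hx₀
  exact hx₀ (Subgroup.mem_subgroupOf.1 hz)

end compat

end Cfsg.Agent.Lib.Helper45.FldCent
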