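import Mathlib
import Cfsg.Agent.Lib.Helper45.FldCent

set_option autoImplicit false

/-! Piece statements for S2731 (local balance for `Ω_{2m+1}(q)`), as `Prop`s.
Each piece is proved in its own file as `theorem main : BalStmt.<Name>.{u} := ...`. -/

namespace Cfsg.Agent.Lib.Helper45.BalStmt

open Module QuadraticMap Matrix
open Cfsg.Agent.Lib.Helper44.QSpace
open Cfsg.Agent.Lib.Helper94.OrthSiegel
open Cfsg.Agent.Lib.Helper45.OmegaAut Cfsg.Agent.Lib.Helper45.SemiAut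
open Cfsg.Agent.Lib.Helper45.FldCoset Cfsg.Agent.Lib.Helper45.FldCent

universe u

/-- [PW] `Q` has a hyperbolic frame `φ` of rank `m ≥ 3` (`H1`). If the automorphism
`Phi h * cσ τ` of `PΩ(Q)` fixes the class of every element of `Ω(Q)` whose matrix is a Siegel
element `sg hQ (e_j) (b • e_k)` (`e_j = Pi.single j 1` the standard basis vectors, `b ∈ S`,
`1 ∈ S`), then `h` is a scalar matrix and `τ` fixes `S` pointwise. -/
def Pointwise : Prop := ∀ (F : Type u) [Field F] [Fintype F] (ι : Type) [Fintype ι]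
  [DecidableEq ι] (Q : QuadraticForm F (ι → F)) (hQ : Cfsg.Geo.IsNondegenerateQuadraticForm ⇑Q)
  (hσ : SigInv ⇑Q), 5 ≤ Fintype.card ι → Subgroup.center ↥(Cfsg.Omega F ⇑Q) = ⊥ →
  ∀ (m : ℕ), 3 ≤ m → ∀ (φ : Fin m ⊕ Fin m → ι), Function.Injective φ →
  (∀ (x : ι → F) (c : Fin m ⊕ Fin m), Q (x + Pi.single (φ c) 1) = Q x + x (φ c.swap)) →
  ∀ (h : ↥(Cfsg.Geo.quadSimilarityGroup (F := F) ⇑Q)) (τ : F ≃+* F) (S : Set F), (1 : F) ∈ S →
  (∀ (j k : ι) (b : F), b ∈ S → ∀ s : ↥(Cfsg.Omega F ⇑Q),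
      ((s : ↥(Cfsg.isometryGroup F ⇑Q)) : GL ι F)
        = sg hQ (Pi.single j 1 : ι → F) (b • (Pi.single k 1 : ι → F)) →
      (Phi ⇑Q h * cσ hσ τ) (QuotientGroup.mk s) = QuotientGroup.mk s) →
  (∃ c : F, ∀ x : ι → F, ((h : GL ι F) : Matrix ι ι F) *ᵥ x = c • x) ∧ ∀ b ∈ S, τ b = b

/-- [INV] two orthogonal vectors of the same non-zero value give an involution in `Ω` (the
product of the two reflections). -/
def Invol : Prop := ∀ (K : Type u) [Field K] [Fintype K] (ι : Type) [Fintype ι] [DecidableEq ι]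
  (Q : QuadraticForm K (ι → K)), (2 : K) ≠ 0 → ∀ (u w : ι → K), Q u ≠ 0 → Q w = Q u →
  QuadraticMap.polar ⇑Q u w = 0 →
  ∃ s : ↥(Cfsg.Omega K ⇑Q), s ≠ 1 ∧ s * s = 1

/-- [ODD] if `φ : K → F` keeps non-squares non-square, a special isometry over `K` whose
extension of scalars lies in `Ω(F)` lies in `Ω(K)`. -/
def OmegaBack : Prop := ∀ (F : Type u) [Field F] [Fintype F] (K : Type u) [Field K] [Fintype K]
  (ι : Type) [Fintype ι] [DecidableEq ι] (Q : QuadraticForm F (ι → F))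
  (Q' : QuadraticForm K (ι → K)) (φ : K →+* F) (h2 : (2 : F) ≠ 0), (2 : K) ≠ 0 → Sep Q → Sep Q' →
  2 ≤ Fintype.card ι → ∀ (hc : ∀ v : ι → K, Q (fun i => φ (v i)) = φ (Q' v)),
  (∀ η : K, ¬ IsSquare η → ¬ IsSquare (φ η)) →
  ∀ x₀ : ↥(Cfsg.specialIsometryGroup K ⇑Q'),
    ((mapSO Q Q' φ h2 hc x₀ : ↥(Cfsg.specialIsometryGroup F ⇑Q)) :
      ↥(Cfsg.isometryGroup F ⇑Q)) ∈ Cfsg.Omega F ⇑Q →
    (x₀ : ↥(Cfsg.isometryGroup K ⇑Q')) ∈ Cfsg.Omega K ⇑Q'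

end Cfsg.Agent.Lib.Helper45.BalStmt
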