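import Mathlib
import Cfsg.Agent.Lib.Helper43.SPStmt

set_option autoImplicit false

/-! S2720 (SPIN sub-call), piece [INNCOS]: every element of `psoAut` lies in `Inn` or in
`Inn * fSO σ`, for `σ ∈ SO ∖ Ω`. -/

namespace Cfsg.Agent.Lib.Helper45.SPINNCOS

open Module QuadraticMap
open Cfsg.Agent.Lib.Helper44.QSpace
open Cfsg.Agent.Lib.Helper45.OmegaAut Cfsg.Agent.Lib.Helper45.OmegaAutPsi
open Cfsg.Agent.Lib.Helper45.OmegaAutMain Cfsg.Agent.Lib.Helper45.OmegaInndiag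
open Cfsg.Agent.Lib.Helper45.OmegaAutIdx
open Cfsg.Agent.Lib.Helper43.SPStmt

universe u

theorem main : InnCos.{u} := by
  intro F _ _ ι _ _ Q h2 hS hn σ hσ h hh
  have : Nonempty ι := by
    rw [← Fintype.card_pos_iff]
    omega
  rw [pso_eq'] at hh
  obtain ⟨x, rfl⟩ := hh
  rw [inn_eq']
  have hidx := index_omega_in_so Q h2 hS hn
  have hσ' : σ ∉ (Cfsg.Omega F ⇑Q).subgroupOf (Cfsg.specialIsometryGroup F ⇑Q) :=
    fun h => hσ (Subgroup.mem_subgroupOf.mp h)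
  by_cases hx : x ∈ (Cfsg.Omega F ⇑Q).subgroupOf (Cfsg.specialIsometryGroup F ⇑Q)
  · left
    exact ⟨x, hx, rfl⟩
  · right
    refine ⟨x * σ⁻¹, ?_, by rw [map_mul, map_inv]⟩
    exact (Subgroup.mul_mem_iff_of_index_two hidx).mpr
      ⟨fun h => absurd h hx, fun h => absurd ((Subgroup.inv_mem_iff _).mp h) hσ'⟩

end Cfsg.Agent.Lib.Helper45.SPINNCOS
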