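import Mathlib
import Cfsg.Agent.Lib.Helper43.SPStmt

set_option autoImplicit false

/-! S2720 (SPIN sub-call), piece [PSOCOS]: every element of `D0` lies in `psoAut` or in
`psoAut * Phi δ`, for `δ` with non-square multiplier and `dl δ = 1`. -/

namespace Cfsg.Agent.Lib.Helper45.SPPSOCOS

open Module QuadraticMap
open Cfsg.Agent.Lib.Helper44.QSpace
open Cfsg.Agent.Lib.Helper45.OmegaAut Cfsg.Agent.Lib.Helper45.OmegaAutPsi
open Cfsg.Agent.Lib.Helper45.OmegaAutMain Cfsg.Agent.Lib.Helper45.OmegaInndiag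
open Cfsg.Agent.Lib.Helper45.OmegaAutIdx
open Cfsg.Agent.Lib.Helper43.SPStmt

universe u

theorem zmod2_mul_inv : ∀ a b : Multiplicative (ZMod 2), a ≠ 1 → b ≠ 1 → a * b⁻¹ = 1 := by
  decide

theorem main : PsoCos.{u} := by
  intro F _ _ ι _ _ Q h2 hS k hk hn v₀ hv₀ δ hδ hdlδ h hh
  obtain ⟨g, hg, rfl⟩ := hh
  have hdl : dl Q hv₀ k g = 1 := (mem_G0 Q hv₀ k g).mp hg
  by_cases hsq : IsSquare (mu Q g)
  · left
    exact (psi_eq_one_iff_pso Q h2 hS hv₀ hk hn g).mp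
      ((psi_eq_one_iff Q h2 hS hv₀ hk g).mpr ⟨hsq, hdl⟩)
  · right
    rw [← map_inv, ← map_mul]
    apply (psi_eq_one_iff_pso Q h2 hS hv₀ hk hn (g * δ⁻¹)).mp
    apply (psi_eq_one_iff Q h2 hS hv₀ hk (g * δ⁻¹)).mpr
    refine ⟨?_, by rw [map_mul, map_inv, hdl, hdlδ, inv_one, mul_one]⟩
    have e : mu Q (g * δ⁻¹) = mu Q g * (mu Q δ)⁻¹ := by
      rw [← muHom_apply Q hv₀, map_mul, map_inv, muHom_apply, muHom_apply]
    rw [e, ← chi_eq_one_iff h2, map_mul, map_inv]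
    have h1 : chi h2 (mu Q g) ≠ 1 := fun h => hsq ((chi_eq_one_iff h2 _).mp h)
    have h3 : chi h2 (mu Q δ) ≠ 1 := fun h => hδ ((chi_eq_one_iff h2 _).mp h)
    exact zmod2_mul_inv _ _ h1 h3

end Cfsg.Agent.Lib.Helper45.SPPSOCOS
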