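import Mathlib
import Cfsg.Agent.Lib.Helper45.BalStmt

set_option autoImplicit false

/-! More piece statements for S2731 (local balance for `Ω_{2m+1}(q)`). -/

namespace Cfsg.Agent.Lib.Helper45.BalStmt2

open Module QuadraticMap Matrix
open Cfsg.Agent.Lib.Helper44.QSpace Cfsg.Agent.Lib.Helper44.NegPairs
open Cfsg.Agent.Lib.Helper45.OmegaAut Cfsg.Agent.Lib.Helper45.SemiAut
open Cfsg.Agent.Lib.Helper45.FldCoset Cfsg.Agent.Lib.Helper45.FldCent

universe u

/-- [CORE] (pure group theory) `x` an automorphism of `K`, `D` a group of automorphisms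
centralising `x` and containing the inner automorphisms of the fixed points of `x`, `N ≤ D` a
subgroup normalised by `D` of order prime to `p`; `L` a simple subgroup of fixed points such that
squares of fixed points lie in `L`, all fixed points lie in `L` if `p` is odd, and `|L|` is even
if `p = 2`. If `p` divides the number of fixed points, `N` fixes every fixed point of `x`. -/
def Core : Prop := ∀ (K : Type u) [Group K] [Finite K] (x : MulAut K) (p : ℕ), p.Prime →
  Function.Injective (MulAut.conj : K →* MulAut K) →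
  ∀ (D N : Subgroup (MulAut K)) (L : Subgroup K),
  (∀ d ∈ D, d * x = x * d) → (∀ k : K, x k = k → MulAut.conj k ∈ D) → N ≤ D →
  (∀ d ∈ D, ∀ ν ∈ N, d * ν * d⁻¹ ∈ N) → (Nat.card ↥N).Coprime p → IsSimpleGroup ↥L →
  (∀ k ∈ L, x k = k) → (∀ k : K, x k = k → k * k ∈ L) →
  (p ≠ 2 → ∀ k : K, x k = k → k ∈ L) → (p = 2 → 2 ∣ Nat.card ↥L) →
  p ∣ Nat.card ↥(MonoidHom.eqLocus x.toMonoidHom (MonoidHom.id K)) →
  ∀ ν ∈ N, ∀ c : K, x c = c → ν c = c

/-- [SUB] the subfield subgroup `L₀ ≅ Ω_{2m+1}(F₀)` (`F₀` the fixed field of `σ`) inside the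
fixed points of the standard field automorphism `cσ σ` of `PΩ_{2m+1}(F)`: it is simple of even
order, contains the squares of all fixed points, and all fixed points if `σ` has odd order. -/
def SubField : Prop := ∀ (F : Type u) [Field F] [Fintype F] (m : ℕ), 3 ≤ m → (2 : F) ≠ 0 →
  ∀ (hσ : SigInv (⇑(oddQ m F))) (σ : RingAut F),
  ∃ L₀ : Subgroup (Cfsg.POmega F (⇑(oddQ m F))), IsSimpleGroup ↥L₀ ∧ 2 ∣ Nat.card ↥L₀ ∧
    (∀ k ∈ L₀, cσ hσ σ k = k) ∧
    (∀ k, cσ hσ σ k = k → k * k ∈ L₀) ∧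
    (Odd (orderOf σ) → ∀ k, cσ hσ σ k = k → k ∈ L₀)

end Cfsg.Agent.Lib.Helper45.BalStmt2
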