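import Mathlib
import Cfsg.Agent.Lib.Helper45.BalStmt2
import Cfsg.Agent.Lib.Helper43.SpBalA

set_option autoImplicit false

/-! Assembly for S2731 (local balance for `Ω_{2m+1}(q)`) from the pieces of `BalStmt`,
`BalStmt2`. -/

namespace Cfsg.Agent.Lib.Helper45.FldBal

open Module QuadraticMap Matrix
open Cfsg.Agent.Lib.Helper44.QSpace Cfsg.Agent.Lib.Helper44.NegPairs
open Cfsg.Agent.Lib.Helper94.OrthSiegel
open Cfsg.Agent.Lib.Helper45.OmegaAut Cfsg.Agent.Lib.Helper45.OmegaAutKer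
open Cfsg.Agent.Lib.Helper45.SemiAut Cfsg.Agent.Lib.Helper45.OddAut
open Cfsg.Agent.Lib.Helper45.FldCoset Cfsg.Agent.Lib.Helper45.FldCent
open Cfsg.Agent.Lib.Helper45.BalStmt Cfsg.Agent.Lib.Helper45.BalStmt2
open Cfsg.Agent.Lib.Helper43.SpBalA

universe u

/-- Galois theory of a finite field: an automorphism fixing the fixed field of `σ` is a power
of `σ` -/
theorem mem_zpowers_of_fix {F : Type*} [Field F] [Fintype F] (r : ℕ) [Fact r.Prime] [CharP F r]
    (σ τ : RingAut F) (h : ∀ a : F, σ a = a → τ a = a) : τ ∈ Subgroup.zpowers σ := by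
  letI : Algebra (ZMod r) F := ZMod.algebra F r
  let e : RingAut F ≃* (F ≃ₐ[ZMod r] F) :=
    { toFun := fun σ => AlgEquiv.ofRingEquiv (f := σ) (fun x =>
        RingHom.congr_fun (Subsingleton.elim ((σ : F →+* F).comp (algebraMap (ZMod r) F))
          (algebraMap (ZMod r) F)) x)
      invFun := fun τ => τ.toRingEquiv
      left_inv := fun σ => by
        ext x
        rfl
      right_inv := fun τ => by
        ext x
        rfl
      map_mul' := fun σ τ => by
        ext x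
        rfl }
  have he : ∀ (ρ : RingAut F) (a : F), e ρ a = ρ a := fun ρ a => rfl
  have h1 : e τ ∈ (IntermediateField.fixedField (Subgroup.zpowers (e σ))).fixingSubgroup := by
    rw [IntermediateField.mem_fixingSubgroup_iff]
    intro a ha
    rw [IntermediateField.mem_fixedField_iff] at ha
    have h3 := ha (e σ) (Subgroup.mem_zpowers _)
    rw [he] at h3 ⊢
    exact h a h3
  rw [IntermediateField.fixingSubgroup_fixedField] at h1
  obtain ⟨j, hj⟩ := Subgroup.mem_zpowers_iff.1 h1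
  refine Subgroup.mem_zpowers_iff.2 ⟨j, e.injective ?_⟩
  rw [map_zpow]
  exact hj

section gen

variable {F : Type u} [Field F] {ι : Type} [Fintype ι] [DecidableEq ι] {Q : (ι → F) → F}

theorem conj_injective (hZ : Subgroup.center ↥(Cfsg.Omega F Q) = ⊥) :
    Function.Injective (MulAut.conj : Cfsg.POmega F Q →* MulAut (Cfsg.POmega F Q)) := by
  rw [injective_iff_map_eq_one]
  intro x hx
  induction x using QuotientGroup.induction_on with
  | H s =>
    have hs : s ∈ Subgroup.center ↥(Cfsg.Omega F Q) := by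
      rw [Subgroup.mem_center_iff]
      intro t
      have h1 := congrArg (fun β : MulAut (Cfsg.POmega F Q) => β (QuotientGroup.mk t)) hx
      simp only [MulAut.conj_apply, MulAut.one_apply] at h1
      have h2 : (QuotientGroup.mk (s * t * s⁻¹) : Cfsg.POmega F Q) = QuotientGroup.mk t := h1
      have h3 := mk_inj hZ h2
      calc t * s = (s * t * s⁻¹) * s := by rw [h3]
        _ = s * t := by group
    rw [hZ, Subgroup.mem_bot] at hs
    subst hs
    rfl

theorem exists_gamma (hσ : SigInv Q) (hsup : (Phi Q).range ⊔ (cσHom hσ).range = ⊤)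
    (β : MulAut (Cfsg.POmega F Q)) :
    ∃ (h : ↥(Cfsg.Geo.quadSimilarityGroup (F := F) Q)) (τ : RingAut F),
      β = Phi Q h * cσ hσ τ := by
  haveI := range_normal hσ hsup
  have h1 : β ∈ (((Phi Q).range ⊔ (cσHom hσ).range : Subgroup (MulAut (Cfsg.POmega F Q))) :
      Set (MulAut (Cfsg.POmega F Q))) := by
    rw [hsup]
    trivial
  rw [Subgroup.normal_mul] at h1
  obtain ⟨y, ⟨h, rfl⟩, z, ⟨τ, rfl⟩, rfl⟩ := Set.mem_mul.mp h1
  exact ⟨h, τ, rfl⟩

theorem fix_sg (hQ : Cfsg.Geo.IsNondegenerateQuadraticForm Q) (hσ : SigInv Q) (σ : F ≃+* F)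
    (a w : ι → F) (ha : (fun k => σ (a k)) = a) (hw : (fun k => σ (w k)) = w)
    (s : ↥(Cfsg.Omega F Q))
    (hs : ((s : ↥(Cfsg.isometryGroup F Q)) : GL ι F) = sg hQ a w) :
    cσ hσ σ (QuotientGroup.mk s) = QuotientGroup.mk s := by
  rw [cσ_mk]
  congr 1
  apply Subtype.ext
  apply Subtype.ext
  rw [omAut_coe, hs, ssg_map hQ hσ, ha, hw]

end gen

theorem main (hPW : Pointwise.{u}) (hSUB : SubField.{u}) (hCORE : Core.{u})
    {F : Type u} [Field F] [Fintype F] {r : ℕ} [Fact r.Prime] [CharP F r]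
    (hodd : Odd (Fintype.card F)) {m : ℕ} (hm : 3 ≤ m)
    (hΓ : Cfsg.gammaPOmega F (⇑(oddQ m F)) = ⊤)
    (A : Subgroup (MulAut (Cfsg.POmega F (⇑(oddQ m F)))))
    (hinn : ∀ k : Cfsg.POmega F (⇑(oddQ m F)), MulAut.conj k ∈ A) {p : ℕ} [Fact p.Prime]
    (x : MulAut (Cfsg.POmega F (⇑(oddQ m F)))) (hord : orderOf x = p)
    (hnot : x ∉ (Phi (⇑(oddQ m F))).range) :
    Cfsg.pPrimeCore p ↥(A ⊓ Subgroup.centralizer {x}) ≠ ⊥ ↔
      (Cfsg.IsFieldAutClassPOmega (⇑(oddQ m F)) x ∧ Nat.Coprime p (Nat.card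
        ↥(MonoidHom.eqLocus x.toMonoidHom (MonoidHom.id (Cfsg.POmega F (⇑(oddQ m F))))))) := by
  have hp : p.Prime := Fact.out
  have h2 : (2 : F) ≠ 0 := Cfsg.Agent.Lib.Helper44.FinSq.two_ne_zero_of_odd_card hodd
  have hcard : Fintype.card (Unit ⊕ (Fin m ⊕ Fin m)) = 2 * m + 1 := by
    simp only [Fintype.card_sum, Fintype.card_fin, Fintype.card_unit]; omega
  have hi : (⟨0, by omega⟩ : Fin m) ≠ ⟨1, by omega⟩ := by
    intro h
    have := congrArg Fin.val h
    simp at this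
  obtain ⟨u, v, u', hP⟩ : ∃ u v u' : Unit ⊕ (Fin m ⊕ Fin m) → F, Probe (⇑(oddQ m F)) u v u' :=
    ⟨_, _, _, probe_of_frame (oddQ m F) Sum.inr Sum.inr_injective (odd_H1 m) hi⟩
  have hS := sep_oddQ h2 m
  have hσ : SigInv (⇑(oddQ m F)) := sigInv_odd m
  have hQ := Cfsg.Agent.Lib.Helper94.OrthPara.nondeg_of_sep (oddQ m F) hS
  have hn : 5 ≤ Fintype.card (Unit ⊕ (Fin m ⊕ Fin m)) := by rw [hcard]; omega
  have hZ := center_eq_bot (oddQ m F) h2 hS hcard (by omega)
  have hsup : (Phi (⇑(oddQ m F))).range ⊔ (cσHom hσ).range = ⊤ := by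
    rw [← top_le_iff, ← hΓ]
    exact gamma_le hσ
  have hdisj : (Phi (⇑(oddQ m F))).range ⊓ (cσHom hσ).range = ⊥ := inf_eq_bot hQ hσ hn hZ hP
  have hinjσ : Function.Injective (cσHom hσ) := cσHom_injective hQ hσ hn hZ hP
  have hinj : Function.Injective (MulAut.conj : Cfsg.POmega F (⇑(oddQ m F)) →*
      MulAut (Cfsg.POmega F (⇑(oddQ m F)))) := conj_injective hZ
  have hxp : x ^ p = 1 := by
    rw [← hord]
    exact pow_orderOf_eq_one x
  obtain ⟨g, σ, hgσ⟩ := exists_gamma hσ hsup x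
  have hσ1 : σ ≠ 1 := by
    rintro rfl
    apply hnot
    rw [hgσ, cσ_one, mul_one]
    exact ⟨g, rfl⟩
  have hσp : orderOf σ = p := by
    have h1 : (Phi (⇑(oddQ m F)) g * cσ hσ σ) ^ p = 1 := by
      rw [← hgσ]
      exact hxp
    rw [pow_eq] at h1
    have h3 : cσHom hσ (σ ^ p) ∈ (Phi (⇑(oddQ m F))).range ⊓ (cσHom hσ).range := by
      refine ⟨⟨(tw hσ σ g p)⁻¹, ?_⟩, ⟨σ ^ p, rfl⟩⟩
      rw [map_inv, cσHom_apply]
      exact inv_eq_of_mul_eq_one_right h1
    rw [hdisj, Subgroup.mem_bot] at h3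
    have h4 : σ ^ p = 1 := hinjσ (h3.trans (map_one _).symm)
    have h5 : orderOf σ ∣ p := orderOf_dvd_of_pow_eq_one h4
    rcases (Nat.dvd_prime hp).1 h5 with h6 | h6
    · exact absurd (orderOf_eq_one_iff.1 h6) hσ1
    · exact h6
  obtain ⟨e, he⟩ := field_conj (oddQ m F) h2 hS hσ hcard hn σ g (by
    rw [hσp, ← hgσ]
    exact hxp)
  obtain ⟨α, hα⟩ : ∃ α : MulAut (Cfsg.POmega F (⇑(oddQ m F))), α = Phi (⇑(oddQ m F)) e :=
    ⟨_, rfl⟩
  have hx : x = α * cσ hσ σ * α⁻¹ := by rw [hgσ, he, hα]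
  have hfield : Cfsg.IsFieldAutClassPOmega (⇑(oddQ m F)) x := by
    refine ⟨α⁻¹, cσ hσ σ, σ, hσ1, isFieldAut_cσ hσ σ, ?_⟩
    rw [hx]
    group
  have hxα : ∀ y, x (α y) = α (cσ hσ σ y) := by
    intro y
    rw [hx, MulAut.mul_apply, MulAut.mul_apply, MulAut.inv_apply_self]
  have hcomm : ∀ k, x k = k → MulAut.conj k * x = x * MulAut.conj k := by
    intro k hk
    have h1 := conj_apply_eq x k
    rw [hk] at h1
    conv_lhs => rw [← h1]
    rw [inv_mul_cancel_right]
  rw [core_ne_bot_iff]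
  constructor
  · rintro ⟨N, hND, hnorm, hcop, hne⟩
    refine ⟨hfield, ?_⟩
    by_contra hnc
    have hdvd : p ∣ Nat.card ↥(MonoidHom.eqLocus x.toMonoidHom
        (MonoidHom.id (Cfsg.POmega F (⇑(oddQ m F))))) := by
      by_contra hnd
      exact hnc ((Nat.Prime.coprime_iff_not_dvd hp).2 hnd)
    apply hne
    obtain ⟨L₀, hL₀s, hL₀2, hL₀fix, hL₀sq, hL₀odd⟩ := hSUB F m hm h2 hσ σ
    have hD1 : ∀ d ∈ A ⊓ Subgroup.centralizer {x}, d * x = x * d := fun d hd =>
      (Subgroup.mem_centralizer_iff.1 hd.2 _ (Set.mem_singleton _)).symm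
    have hD2 : ∀ k, x k = k → MulAut.conj k ∈ A ⊓ Subgroup.centralizer {x} := by
      intro k hk
      refine Subgroup.mem_inf.2 ⟨hinn k, ?_⟩
      rw [Subgroup.mem_centralizer_iff]
      intro y hy
      rw [Set.mem_singleton_iff] at hy
      rw [hy]
      exact (hcomm k hk).symm
    have hfixα : ∀ k, x k = k → cσ hσ σ (α⁻¹ k) = α⁻¹ k := by
      intro k hk
      have h1 : x (α (α⁻¹ k)) = α (α⁻¹ k) := by
        rw [MulAut.apply_inv_self]
        exact hk
      rw [hxα] at h1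
      exact α.injective h1
    have hLs : IsSimpleGroup ↥(L₀.map α.toMonoidHom) := by
      haveI := hL₀s
      exact (Subgroup.equivMapOfInjective L₀ α.toMonoidHom α.injective).symm.isSimpleGroup
    have hLfix : ∀ k ∈ L₀.map α.toMonoidHom, x k = k := by
      rintro _ ⟨k₀, hk₀, rfl⟩
      show x (α k₀) = α k₀
      rw [hxα, hL₀fix k₀ hk₀]
    have hLsq : ∀ k, x k = k → k * k ∈ L₀.map α.toMonoidHom := by
      intro k hk
      refine ⟨α⁻¹ k * α⁻¹ k, hL₀sq _ (hfixα k hk), ?_⟩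
      show α (α⁻¹ k * α⁻¹ k) = k * k
      rw [map_mul, MulAut.apply_inv_self]
    have hLodd : p ≠ 2 → ∀ k, x k = k → k ∈ L₀.map α.toMonoidHom := by
      intro hp2 k hk
      have hoddσ : Odd (orderOf σ) := by
        rw [hσp]
        exact hp.odd_of_ne_two hp2
      exact ⟨α⁻¹ k, hL₀odd hoddσ _ (hfixα k hk), MulAut.apply_inv_self _ α k⟩
    have hL2 : p = 2 → 2 ∣ Nat.card ↥(L₀.map α.toMonoidHom) := by
      intro _
      rw [Subgroup.card_map_of_injective α.injective]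
      exact hL₀2
    have hNfix := hCORE _ x p hp hinj (A ⊓ Subgroup.centralizer {x}) N (L₀.map α.toMonoidHom)
      hD1 hD2 hND hnorm hcop hLs hLfix hLsq hLodd hL2 hdvd
    rw [eq_bot_iff]
    intro ν hν
    rw [Subgroup.mem_bot]
    obtain ⟨ν', hν'⟩ : ∃ ν' : MulAut (Cfsg.POmega F (⇑(oddQ m F))), ν' = α⁻¹ * ν * α :=
      ⟨_, rfl⟩
    have hν'fix : ∀ c, cσ hσ σ c = c → ν' c = c := by
      intro c hc
      have h1 := hNfix ν hν (α c) (by rw [hxα, hc])
      rw [hν', MulAut.mul_apply, MulAut.mul_apply, h1, MulAut.inv_apply_self]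
    obtain ⟨h, τ, hhτ⟩ := exists_gamma hσ hsup ν'
    rw [hhτ] at hν'fix
    obtain ⟨⟨c, hc⟩, hτfix⟩ := hPW F _ (oddQ m F) hQ hσ hn hZ m hm Sum.inr Sum.inr_injective
      (odd_H1 m) h τ {b | σ b = b} (map_one σ) (by
        intro j k b hb s hs
        apply hν'fix
        have hb' : σ b = b := hb
        refine fix_sg hQ hσ σ _ _ (map_single σ j) ?_ s hs
        funext k'
        have hk' := congrFun (map_single (F := F) σ k) k'
        rw [Pi.smul_apply, smul_eq_mul, map_mul, hb', hk'])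
    have hh1 : Phi (⇑(oddQ m F)) h = 1 := Phi_eq_one_of_scalar _ h c hc
    have hτmem : τ ∈ Subgroup.zpowers σ := mem_zpowers_of_fix r σ τ (fun a ha => hτfix a ha)
    obtain ⟨j, hj⟩ := Subgroup.mem_zpowers_iff.1 hτmem
    have hτp : τ ^ p = 1 := by
      rw [← hj, ← zpow_natCast, ← _root_.zpow_mul, mul_comm, _root_.zpow_mul, zpow_natCast,
        ← hσp, pow_orderOf_eq_one, _root_.one_zpow]
    have hν'p : ν' ^ p = 1 := by
      rw [hhτ, hh1, one_mul, ← cσHom_apply, ← map_pow, hτp, map_one]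
    have hνp : ν ^ p = 1 := by
      have h1 : ν = α * ν' * α⁻¹ := by
        rw [hν']
        group
      rw [h1, conj_pow, hν'p]
      group
    have h1 : orderOf ν ∣ p := orderOf_dvd_of_pow_eq_one hνp
    have h2' : orderOf ν ∣ Nat.card N := by
      have h3 := orderOf_dvd_natCard (⟨ν, hν⟩ : N)
      rwa [← Subgroup.orderOf_coe] at h3
    have h3 : orderOf ν ∣ Nat.gcd (Nat.card N) p := Nat.dvd_gcd h2' h1
    rw [hcop, Nat.dvd_one] at h3
    exact orderOf_eq_one_iff.1 h3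
  · rintro ⟨-, hcop⟩
    refine ⟨(MonoidHom.eqLocus x.toMonoidHom
      (MonoidHom.id (Cfsg.POmega F (⇑(oddQ m F))))).map MulAut.conj, ?_, ?_, ?_, ?_⟩
    · rintro _ ⟨k, hk, rfl⟩
      have hk' : x k = k := hk
      refine Subgroup.mem_inf.2 ⟨hinn k, ?_⟩
      rw [Subgroup.mem_centralizer_iff]
      intro y hy
      rw [Set.mem_singleton_iff] at hy
      rw [hy]
      exact (hcomm k hk').symm
    · rintro d hd _ ⟨k, hk, rfl⟩
      have hk' : x k = k := hk
      refine ⟨d k, ?_, (conj_apply_eq d k).symm⟩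
      show x (d k) = d k
      have h1 := Subgroup.mem_centralizer_iff.1 hd.2 x (Set.mem_singleton _)
      have h2' : (x * d) k = (d * x) k := by rw [h1]
      rw [MulAut.mul_apply, MulAut.mul_apply, hk'] at h2'
      exact h2'
    · rw [Subgroup.card_map_of_injective hinj]
      exact hcop.symm
    · intro h0
      obtain ⟨s, hs⟩ := exists_omega_sg hQ hn u v
      have hk₀ : x (α (QuotientGroup.mk s)) = α (QuotientGroup.mk s) := by
        rw [hxα, fix_sg hQ hσ σ u v (hP.hσu σ) (hP.hσv σ) s hs]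
      have h1 : MulAut.conj (α (QuotientGroup.mk s)) ∈
          (MonoidHom.eqLocus x.toMonoidHom
            (MonoidHom.id (Cfsg.POmega F (⇑(oddQ m F))))).map MulAut.conj :=
        ⟨_, hk₀, rfl⟩
      rw [h0, Subgroup.mem_bot] at h1
      have h2' : α (QuotientGroup.mk s) = 1 := hinj (h1.trans (map_one _).symm)
      have h3 : (QuotientGroup.mk s : Cfsg.POmega F (⇑(oddQ m F))) = QuotientGroup.mk 1 := by
        apply α.injective
        rw [h2', QuotientGroup.mk_one, map_one]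
      have h4 : s = 1 := mk_inj hZ h3
      have h5 : sg hQ u v = 1 := by
        rw [← hs, h4]
        rfl
      have h6 := congrArg (fun M : GL (Unit ⊕ (Fin m ⊕ Fin m)) F =>
        (M : Matrix (Unit ⊕ (Fin m ⊕ Fin m)) (Unit ⊕ (Fin m ⊕ Fin m)) F) *ᵥ u') h5
      simp only [Units.val_one, Matrix.one_mulVec] at h6
      rw [sg_mulVec hQ u v hP.hu hP.huv, hP.huu', hP.hvu', hP.hv] at h6
      apply hP.hv0
      simpa using h6

end Cfsg.Agent.Lib.Helper45.FldBal
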