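import Mathlib
import Cfsg.Agent.Lib.Helper44.GFStmt
import Cfsg.Agent.Lib.Helper44.GFHs
import Cfsg.Agent.Lib.Helper44.NegPairs
import Cfsg.Agent.Lib.Helper44.MCentFin
import Cfsg.Agent.Lib.Helper45.OmegaAutKer

set_option autoImplicit false

/-! S2717, piece [DEL]: the similarity `Hs · Dm(c², s, t) · Hs⁻¹` of the plus form is the diagonal
matrix `c · diag(τ, τ⁻¹)` with `∏ τ = c^(k-1) (s + t ω)`; it induces an inner automorphism of
`PΩ⁺` iff that product is a square (spinor norm of a product of `2(k+1)` reflections). -/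

namespace Cfsg.Agent.Lib.Helper45.GFDEL

open Matrix Module QuadraticMap
open Cfsg.Agent.Lib.Helper45.OmegaAut Cfsg.Agent.Lib.Helper45.MinusInndiag
open Cfsg.Agent.Lib.Helper44.OFld0 Cfsg.Agent.Lib.Helper44.MFld0
  Cfsg.Agent.Lib.Helper44.MFldStmt Cfsg.Agent.Lib.Helper44.GFStmt Cfsg.Agent.Lib.Helper44.GFHs
open Cfsg.Agent.Lib.Helper44.QSpace Cfsg.Agent.Lib.Helper44.OGroup Cfsg.Agent.Lib.Helper44.OMat
  Cfsg.Agent.Lib.Helper44.NegPairs

universe u

variable {F : Type u} [Field F]

/-- the vector `e_i - c f_i` -/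
def vec (n : ℕ) (i : Fin n) (c : F) : Fin n ⊕ Fin n → F :=
  Pi.single (Sum.inl i) 1 - c • Pi.single (Sum.inr i) 1

theorem vec_inl (n : ℕ) (i : Fin n) (c : F) (a : Fin n) :
    vec n i c (Sum.inl a) = if a = i then 1 else 0 := by
  simp [vec, Pi.single_apply]

theorem vec_inr (n : ℕ) (i : Fin n) (c : F) (a : Fin n) :
    vec n i c (Sum.inr a) = if a = i then -c else 0 := by
  by_cases h : a = i <;> simp [vec, Pi.single_apply, h]

theorem Q_vec (n : ℕ) (i : Fin n) (c : F) : plusQ n F (vec n i c) = -c := by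
  show Cfsg.quadFormPlus n F (vec n i c) = -c
  unfold Cfsg.quadFormPlus
  rw [Finset.sum_eq_single i]
  · rw [vec_inl, vec_inr, if_pos rfl, if_pos rfl, one_mul]
  · intro j _ hj
    rw [vec_inl, if_neg hj, zero_mul]
  · intro h
    exact absurd (Finset.mem_univ i) h

theorem polar_vec (n : ℕ) (i : Fin n) (c : F) (x : Fin n ⊕ Fin n → F) :
    polar (plusQ n F) x (vec n i c) = x (Sum.inr i) - c * x (Sum.inl i) := by
  have h1 : polar (plusQ n F) x (Pi.single (Sum.inl i) 1) = x (Sum.inr i) :=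
    polar_single (plusQ n F) id (plus_H1 n) x (Sum.inl i)
  have h2 : polar (plusQ n F) x (Pi.single (Sum.inr i) 1) = x (Sum.inl i) :=
    polar_single (plusQ n F) id (plus_H1 n) x (Sum.inr i)
  unfold vec
  rw [polar_sub_right, polar_smul_right, h1, h2, smul_eq_mul]

/-- the diagonal entries of the hyperbolic rotation in the `i`-th pair -/
def E (n : ℕ) (i : Fin n) (c : F) : Fin n ⊕ Fin n → F :=
  Sum.elim (fun a => if a = i then c else 1) (fun a => if a = i then c⁻¹ else 1)

theorem refl_pair (n : ℕ) (i : Fin n) (c : F) (hc : c ≠ 0) (x : Fin n ⊕ Fin n → F) :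
    reflE (plusQ n F) (vec n i 1) (reflE (plusQ n F) (vec n i c) x) = E n i c * x := by
  funext j
  rw [reflE_apply, polar_vec, Q_vec, reflE_apply, polar_vec, Q_vec]
  rcases j with a | a
  · by_cases h : a = i
    · subst h
      simp only [Pi.sub_apply, Pi.smul_apply, smul_eq_mul, vec_inl, vec_inr, ↓reduceIte,
        Pi.mul_apply, E, Sum.elim_inl]
      field_simp
      ring
    · simp only [Pi.sub_apply, Pi.smul_apply, smul_eq_mul, vec_inl, vec_inr, if_neg h,
        Pi.mul_apply, E, Sum.elim_inl]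
      ring
  · by_cases h : a = i
    · subst h
      simp only [Pi.sub_apply, Pi.smul_apply, smul_eq_mul, vec_inl, vec_inr, ↓reduceIte,
        Pi.mul_apply, E, Sum.elim_inr]
      field_simp
      ring
    · simp only [Pi.sub_apply, Pi.smul_apply, smul_eq_mul, vec_inl, vec_inr, if_neg h,
        Pi.mul_apply, E, Sum.elim_inr]
      ring

/-- the list of reflection vectors -/
def vl (n : ℕ) (τ : Fin n → F) (S : List (Fin n)) : List (Fin n ⊕ Fin n → F) :=
  S.flatMap (fun i => [vec n i 1, vec n i (τ i)])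

theorem vl_nil (n : ℕ) (τ : Fin n → F) : vl n τ [] = [] := rfl

theorem vl_cons (n : ℕ) (τ : Fin n → F) (i : Fin n) (S : List (Fin n)) :
    vl n τ (i :: S) = vec n i 1 :: vec n i (τ i) :: vl n τ S := by
  simp [vl]

theorem vl_ne (n : ℕ) (τ : Fin n → F) (hτ : ∀ i, τ i ≠ 0) (S : List (Fin n)) :
    ∀ v ∈ vl n τ S, plusQ n F v ≠ 0 := by
  induction S with
  | nil =>
    intro v hv
    rw [vl_nil] at hv
    exact absurd hv (List.not_mem_nil)
  | cons i S ih =>
    intro v hv
    rw [vl_cons, List.mem_cons, List.mem_cons] at hv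
    rcases hv with rfl | rfl | hv
    · rw [Q_vec]
      exact neg_ne_zero.mpr one_ne_zero
    · rw [Q_vec]
      exact neg_ne_zero.mpr (hτ i)
    · exact ih v hv

theorem vl_len (n : ℕ) (τ : Fin n → F) (S : List (Fin n)) : Even (vl n τ S).length := by
  induction S with
  | nil => exact ⟨0, rfl⟩
  | cons i S ih =>
    rw [vl_cons, List.length_cons, List.length_cons]
    obtain ⟨r, hr⟩ := ih
    exact ⟨r + 1, by omega⟩

theorem vl_prod (n : ℕ) (τ : Fin n → F) (S : List (Fin n)) :
    ((vl n τ S).map (fun v => plusQ n F v)).prod = (S.map τ).prod := by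
  induction S with
  | nil => rfl
  | cons i S ih =>
    rw [vl_cons, List.map_cons, List.map_cons, List.prod_cons, List.prod_cons, ih, Q_vec, Q_vec,
      List.map_cons, List.prod_cons]
    ring

theorem vl_act (n : ℕ) (τ : Fin n → F) (hτ : ∀ i, τ i ≠ 0) (S : List (Fin n))
    (x : Fin n ⊕ Fin n → F) :
    ((vl n τ S).map (reflE (plusQ n F))).prod x = (S.map (fun i => E n i (τ i))).prod * x := by
  induction S with
  | nil =>
    rw [vl_nil, List.map_nil, List.prod_nil, List.map_nil, List.prod_nil, one_mul]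
    rfl
  | cons i S ih =>
    rw [vl_cons, List.map_cons, List.map_cons, List.prod_cons, List.prod_cons, List.map_cons,
      List.prod_cons]
    show reflE (plusQ n F) (vec n i 1) (reflE (plusQ n F) (vec n i (τ i))
      (((vl n τ S).map (reflE (plusQ n F))).prod x)) = _
    rw [ih, refl_pair n i (τ i) (hτ i), mul_assoc]

theorem E_prod (n : ℕ) (τ : Fin n → F) :
    ((List.finRange n).map (fun i => E n i (τ i))).prod = Sum.elim τ (fun i => (τ i)⁻¹) := by
  funext j
  rw [Pi.list_prod_apply, List.map_map, ← Fin.prod_univ_def]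
  rcases j with a | a
  · simp [E]
  · simp [E]

/-- **Spinor norm of a diagonal isometry of the plus form.** -/
theorem diag_mem_iff [Fintype F] (h2 : (2 : F) ≠ 0) (n : ℕ) (hn : 1 ≤ n) (τ : Fin n → F)
    (hτ : ∀ i, τ i ≠ 0) :
    (∃ g : ↥(Cfsg.isometryGroup F (Cfsg.quadFormPlus n F)),
        g ∈ Cfsg.Omega F (Cfsg.quadFormPlus n F) ∧
        ((g : GL (Fin n ⊕ Fin n) F) : Matrix (Fin n ⊕ Fin n) (Fin n ⊕ Fin n) F) =
          Matrix.diagonal (Sum.elim τ (fun i => (τ i)⁻¹)))
      ↔ IsSquare (∏ i, τ i) := by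
  have hD : ∀ x, Matrix.diagonal (Sum.elim τ (fun i => (τ i)⁻¹)) *ᵥ x =
      ((vl n τ (List.finRange n)).map (reflE (plusQ n F))).prod x := by
    intro x
    rw [vl_act n τ hτ, E_prod]
    funext j
    rw [Matrix.mulVec_diagonal, Pi.mul_apply]
  have hcard : 2 ≤ Fintype.card (Fin n ⊕ Fin n) := by
    rw [Fintype.card_sum, Fintype.card_fin]
    omega
  have h := exists_mem_omega_iff h2 (plusQ n F) (sep_plusQ n) hcard _
    (vl n τ (List.finRange n)) (vl_ne n τ hτ _) hD
  rw [vl_prod, ← Fin.prod_univ_def] at h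
  exact h.trans ⟨fun h => h.2, fun h => ⟨vl_len n τ _, h⟩⟩

/-! ### the matrix of `g` -/

/-- the diagonal of `Hs Dm Hs⁻¹` -/
def dd (k : ℕ) (ω ω' s t μ : F) : PI k → F :=
  Sum.elim (Fin.lastCases (s + t * ω) (fun _ => μ)) (Fin.lastCases (s + t * ω') (fun _ => 1))

theorem diag_Hs (k : ℕ) (ω ω' s t μ : F) (v : MI k → F) :
    Matrix.diagonal (dd k ω ω' s t μ) *ᵥ (Hs k ω ω' *ᵥ v) =
      Hs k ω ω' *ᵥ (Dm k μ s t (ω + ω') (ω * ω') *ᵥ v) := by
  funext j
  rw [Matrix.mulVec_diagonal]
  rcases j with j | j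
  · induction j using Fin.lastCases with
    | last =>
      rw [Hs_inl_last, Hs_inl_last, Dm_mulVec]
      simp only [dd, Sum.elim_inl, Sum.elim_inr, Fin.lastCases_last, Matrix.cons_val_zero,
        Matrix.cons_val_one]
      ring
    | cast i =>
      rw [Hs_inl_cast, Hs_inl_cast, Dm_mulVec]
      simp only [dd, Sum.elim_inl, Fin.lastCases_castSucc]
  · induction j using Fin.lastCases with
    | last =>
      rw [Hs_inr_last, Hs_inr_last, Dm_mulVec]
      simp only [dd, Sum.elim_inl, Sum.elim_inr, Fin.lastCases_last, Matrix.cons_val_zero,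
        Matrix.cons_val_one]
      ring
    | cast i =>
      rw [Hs_inr_cast, Hs_inr_cast, Dm_mulVec]
      simp only [dd, Sum.elim_inl, Sum.elim_inr, Fin.lastCases_castSucc, one_mul]

theorem Hs_surj (k : ℕ) (ω ω' : F) (h : ω ≠ ω') (u : PI k → F) :
    ∃ v : MI k → F, Hs k ω ω' *ᵥ v = u := by
  have hne : ω - ω' ≠ 0 := sub_ne_zero.mpr h
  refine ⟨Sum.elim (Sum.elim (fun i => u (Sum.inl i.castSucc)) (fun i => u (Sum.inr i.castSucc)))
    ![u (Sum.inl (Fin.last k)) -
        ω * ((u (Sum.inl (Fin.last k)) - u (Sum.inr (Fin.last k))) / (ω - ω')),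
      (u (Sum.inl (Fin.last k)) - u (Sum.inr (Fin.last k))) / (ω - ω')], ?_⟩
  funext j
  rcases j with j | j
  · induction j using Fin.lastCases with
    | last =>
      rw [Hs_inl_last]
      simp only [Sum.elim_inr, Matrix.cons_val_zero, Matrix.cons_val_one]
      ring
    | cast i =>
      rw [Hs_inl_cast]
      simp only [Sum.elim_inl]
  · induction j using Fin.lastCases with
    | last =>
      rw [Hs_inr_last]
      simp only [Sum.elim_inr, Matrix.cons_val_zero, Matrix.cons_val_one]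
      field_simp
      ring
    | cast i =>
      rw [Hs_inr_cast]
      simp only [Sum.elim_inl, Sum.elim_inr]

theorem mat_eq (k : ℕ) (ω ω' s t μ : F) (h : ω ≠ ω') (M : Matrix (PI k) (PI k) F)
    (hM : M * Hs k ω ω' = Hs k ω ω' * Dm k μ s t (ω + ω') (ω * ω')) :
    M = Matrix.diagonal (dd k ω ω' s t μ) := by
  apply matrix_ext_mulVec
  intro u
  obtain ⟨v, rfl⟩ := Hs_surj k ω ω' h u
  rw [Matrix.mulVec_mulVec, hM, ← Matrix.mulVec_mulVec, diag_Hs]

/-- the normalised diagonal -/
def tau (k : ℕ) (c κ : F) : Fin (k + 1) → F := Fin.lastCases (κ / c) (fun _ => c)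

theorem tau_ne (k : ℕ) (c κ : F) (hc : c ≠ 0) (hκ : κ ≠ 0) (i : Fin (k + 1)) :
    tau k c κ i ≠ 0 := by
  induction i using Fin.lastCases with
  | last =>
    simp only [tau, Fin.lastCases_last]
    exact div_ne_zero hκ hc
  | cast i =>
    simp only [tau, Fin.lastCases_castSucc]
    exact hc

theorem tau_prod (k : ℕ) (hk : 1 ≤ k) (c κ : F) (hc : c ≠ 0) :
    ∏ i, tau k c κ i = c ^ (k - 1) * κ := by
  obtain ⟨k', rfl⟩ : ∃ k', k = k' + 1 := ⟨k - 1, by omega⟩
  rw [Fin.prod_univ_castSucc]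
  simp only [tau, Fin.lastCases_last, Fin.lastCases_castSucc, Finset.prod_const, Finset.card_univ,
    Fintype.card_fin, Nat.add_sub_cancel]
  rw [pow_succ]
  field_simp

theorem dd_eq (k : ℕ) (ω ω' s t c : F) (hc : c ≠ 0)
    (hcc : c ^ 2 = (s + t * ω) * (s + t * ω')) :
    dd k ω ω' s t (c ^ 2) =
      c • Sum.elim (tau k c (s + t * ω)) (fun i => (tau k c (s + t * ω) i)⁻¹) := by
  have hκ : s + t * ω ≠ 0 := by
    intro h0
    rw [h0, zero_mul] at hcc
    exact hc ((pow_eq_zero_iff two_ne_zero).mp hcc)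
  funext j
  rcases j with j | j
  · induction j using Fin.lastCases with
    | last =>
      simp only [dd, tau, Sum.elim_inl, Fin.lastCases_last, Pi.smul_apply, smul_eq_mul]
      field_simp
    | cast i =>
      simp only [dd, tau, Sum.elim_inl, Fin.lastCases_castSucc, Pi.smul_apply, smul_eq_mul]
      ring
  · induction j using Fin.lastCases with
    | last =>
      simp only [dd, tau, Sum.elim_inr, Fin.lastCases_last, Pi.smul_apply, smul_eq_mul]
      field_simp
      rw [hcc]
      ring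
    | cast i =>
      simp only [dd, tau, Sum.elim_inr, Fin.lastCases_castSucc, Pi.smul_apply, smul_eq_mul]
      field_simp

/-- a diagonal matrix `diag(τ, τ⁻¹)` preserves the plus form -/
theorem Q_diag (n : ℕ) (τ : Fin n → F) (hτ : ∀ i, τ i ≠ 0) (x : Fin n ⊕ Fin n → F) :
    Cfsg.quadFormPlus n F (Matrix.diagonal (Sum.elim τ (fun i => (τ i)⁻¹)) *ᵥ x) =
      Cfsg.quadFormPlus n F x := by
  unfold Cfsg.quadFormPlus
  refine Finset.sum_congr rfl fun i _ => ?_
  rw [Matrix.mulVec_diagonal, Matrix.mulVec_diagonal, Sum.elim_inl, Sum.elim_inr]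
  have := hτ i
  field_simp

theorem Q_one (n : ℕ) (i : Fin n) :
    Cfsg.quadFormPlus n F (Pi.single (Sum.inl i) 1 + Pi.single (Sum.inr i) 1) = 1 := by
  have h := plus_H1 (F := F) n (Pi.single (Sum.inl i) 1) (Sum.inr i)
  have h0 : plusQ n F (Pi.single (Sum.inl i) 1) = 0 :=
    q_single (plusQ n F) id (plus_H1 n) (Sum.inl i)
  rw [h0] at h
  show plusQ n F (Pi.single (Sum.inl i) 1 + Pi.single (Sum.inr i) 1) = 1
  rw [h]
  simp

/-- piece [DEL] -/
theorem main : DeltaInn.{u} := by
  intro F _ _ h2 hm1 k hk ω ω' s t c hω hc hcc g hg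
  have hcc' : c ^ 2 = (s + t * ω) * (s + t * ω') := by rw [hcc]; ring
  have hκ0 : s + t * ω ≠ 0 := by
    intro h0
    rw [h0, zero_mul] at hcc'
    exact hc ((pow_eq_zero_iff two_ne_zero).mp hcc')
  obtain ⟨τ, hτdef⟩ : ∃ τ : Fin (k + 1) → F, τ = tau k c (s + t * ω) := ⟨_, rfl⟩
  have hτ : ∀ i, τ i ≠ 0 := by
    intro i
    rw [hτdef]
    exact tau_ne k c _ hc hκ0 i
  have hprod : ∏ i, τ i = c ^ (k - 1) * (s + t * ω) := by
    rw [hτdef]
    exact tau_prod k (by omega) c _ hc
  have hgM : ((g : GL (PI k) F) : Matrix (PI k) (PI k) F) =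
      c • Matrix.diagonal (Sum.elim τ (fun i => (τ i)⁻¹)) := by
    rw [hτdef, mat_eq k ω ω' s t (c ^ 2) hω _ hg, dd_eq k ω ω' s t c hc hcc',
      Matrix.diagonal_smul]
  have hcard : 5 ≤ Fintype.card (PI k) := by
    rw [Fintype.card_sum, Fintype.card_fin]
    omega
  have hsm : ∀ (a : F) (y : PI k → F), Cfsg.quadFormPlus (k + 1) F (a • y) =
      a ^ 2 * Cfsg.quadFormPlus (k + 1) F y := by
    intro a y
    have h := QuadraticMap.map_smul (plusQ (k + 1) F) a y
    rw [smul_eq_mul] at h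
    rw [pow_two]
    exact h
  rw [← hprod]
  constructor
  · intro hin
    rw [inn_eq] at hin
    obtain ⟨s₀, hs₀⟩ := hin
    have h1 : Phi (Cfsg.quadFormPlus (k + 1) F)
        (g * (inclΩ (Cfsg.quadFormPlus (k + 1) F) s₀)⁻¹) = 1 := by
      rw [map_mul, map_inv, ← hs₀, MonoidHom.comp_apply, mul_inv_cancel]
    obtain ⟨lam, hlam⟩ := Cfsg.Agent.Lib.Helper45.OmegaAutKer.scalar_of_Phi_eq_one h2
      (plusQ (k + 1) F) (sep_plusQ (k + 1)) hcard
      (g * (inclΩ (Cfsg.quadFormPlus (k + 1) F) s₀)⁻¹) h1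
    obtain ⟨S, hS⟩ : ∃ S : Matrix (PI k) (PI k) F,
        S = (((s₀ : ↥(Cfsg.isometryGroup F (Cfsg.quadFormPlus (k + 1) F))) : GL (PI k) F) :
          Matrix (PI k) (PI k) F) := ⟨_, rfl⟩
    have e1 : ∀ x, c • (Matrix.diagonal (Sum.elim τ (fun i => (τ i)⁻¹)) *ᵥ x) =
        lam • (S *ᵥ x) := by
      intro x
      have hgG : ((g : GL (PI k) F) : Matrix (PI k) (PI k) F) =
          (((g * (inclΩ (Cfsg.quadFormPlus (k + 1) F) s₀)⁻¹ : GO (k + 1) F) : GL (PI k) F) :
            Matrix (PI k) (PI k) F) * S := by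
        have h3 : g = (g * (inclΩ (Cfsg.quadFormPlus (k + 1) F) s₀)⁻¹) *
            inclΩ (Cfsg.quadFormPlus (k + 1) F) s₀ := (inv_mul_cancel_right g _).symm
        conv_lhs => rw [h3]
        rw [hS]
        rfl
      rw [← Matrix.smul_mulVec, ← hgM, hgG, ← Matrix.mulVec_mulVec]
      exact hlam _
    have hSiso : ∀ x, Cfsg.quadFormPlus (k + 1) F (S *ᵥ x) = Cfsg.quadFormPlus (k + 1) F x := by
      intro x
      rw [hS]
      exact s₀.1.2 x x
    have e2 : c ^ 2 = lam ^ 2 := by
      have h := congrArg (Cfsg.quadFormPlus (k + 1) F)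
        (e1 (Pi.single (Sum.inl 0) 1 + Pi.single (Sum.inr 0) 1))
      rw [hsm, hsm, Q_diag (k + 1) τ hτ, hSiso, Q_one, mul_one, mul_one] at h
      exact h
    have e3 : lam = c ∨ lam = -c := by
      have h : (lam - c) * (lam + c) = 0 := by
        have : (lam - c) * (lam + c) = lam ^ 2 - c ^ 2 := by ring
        rw [this, e2, sub_self]
      rcases mul_eq_zero.mp h with h | h
      · left
        exact sub_eq_zero.mp h
      · right
        exact eq_neg_of_add_eq_zero_left h
    rcases e3 with h | h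
    · have hSD : S = Matrix.diagonal (Sum.elim τ (fun i => (τ i)⁻¹)) := by
        apply matrix_ext_mulVec
        intro x
        have h3 := e1 x
        rw [h] at h3
        exact (smul_right_injective _ hc h3).symm
      rw [hS] at hSD
      exact (diag_mem_iff h2 (k + 1) (by omega) τ hτ).mp ⟨s₀.1, s₀.2, hSD⟩
    · have hSD : S = Matrix.diagonal (Sum.elim (fun i => -τ i) (fun i => (-τ i)⁻¹)) := by
        apply matrix_ext_mulVec
        intro x
        have h3 := e1 x
        rw [h, neg_smul] at h3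
        have h4 : S *ᵥ x = -(Matrix.diagonal (Sum.elim τ (fun i => (τ i)⁻¹)) *ᵥ x) := by
          have h5 : c • (S *ᵥ x) =
              c • (-(Matrix.diagonal (Sum.elim τ (fun i => (τ i)⁻¹)) *ᵥ x)) := by
            rw [smul_neg, h3, neg_neg]
          exact smul_right_injective _ hc h5
        rw [h4]
        funext j
        rw [Pi.neg_apply, Matrix.mulVec_diagonal, Matrix.mulVec_diagonal]
        rcases j with j | j
        · simp only [Sum.elim_inl]
          ring
        · simp only [Sum.elim_inr, inv_neg]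
          ring
      rw [hS] at hSD
      have h5 := (diag_mem_iff h2 (k + 1) (by omega) (fun i => -τ i)
        (fun i => neg_ne_zero.mpr (hτ i))).mp ⟨s₀.1, s₀.2, hSD⟩
      obtain ⟨r, hr⟩ := hm1
      have hr0 : r ≠ 0 := by
        rintro rfl
        rw [mul_zero] at hr
        exact one_ne_zero (neg_eq_zero.mp hr)
      have h6 : ∏ i, -τ i = (r ^ (k + 1)) ^ 2 * ∏ i, τ i := by
        have h7 : ∀ i, -τ i = (-1) * τ i := fun i => by ring
        rw [Finset.prod_congr rfl (fun i _ => h7 i), Finset.prod_mul_distrib, Finset.prod_const,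
          Finset.card_univ, Fintype.card_fin, hr]
        ring
      rw [h6] at h5
      obtain ⟨q, hq⟩ := h5
      have hrk : r ^ (k + 1) ≠ 0 := pow_ne_zero _ hr0
      refine ⟨q / r ^ (k + 1), ?_⟩
      field_simp
      linear_combination hq
  · intro hsq
    obtain ⟨g', hg'Ω, hg'D⟩ := (diag_mem_iff h2 (k + 1) (by omega) τ hτ).mpr hsq
    obtain ⟨z, hz⟩ : ∃ z : GO (k + 1) F, ((z : GL (PI k) F) : Matrix (PI k) (PI k) F) =
        c • (1 : Matrix (PI k) (PI k) F) :=
      Cfsg.Agent.Lib.Helper44.MCentFin.exists_scalar (plusQ (k + 1) F) c hc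
    have hgz : g = z *
        inclΩ (Cfsg.quadFormPlus (k + 1) F) ⟨g', hg'Ω⟩ := by
      apply Subtype.ext
      apply Units.ext
      show ((g : GL (PI k) F) : Matrix (PI k) (PI k) F) =
        ((z : GL (PI k) F) : Matrix (PI k) (PI k) F) *
          ((g' : GL (PI k) F) : Matrix (PI k) (PI k) F)
      rw [hgM, hz, hg'D, Matrix.smul_mul, Matrix.one_mul]
    rw [inn_eq]
    refine ⟨⟨g', hg'Ω⟩, ?_⟩
    rw [MonoidHom.comp_apply, hgz, map_mul,
      Cfsg.Agent.Lib.Helper45.OmegaAutKer.Phi_eq_one_of_scalar (Cfsg.quadFormPlus (k + 1) F) z c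
        (fun x => by rw [hz, Matrix.smul_mulVec, Matrix.one_mulVec]), one_mul]

end Cfsg.Agent.Lib.Helper45.GFDEL
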