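import Mathlib
import Cfsg.Agent.Lib.Helper44.GFStmt
import Cfsg.Agent.Lib.Helper45.OmegaInndiag
import Cfsg.Agent.Lib.Helper45.MinusInndiag

set_option autoImplicit false

/-! Piece statements for S2719 (involutory graph automorphisms of `PΩ⁻_{2m+2}(q)`, `q` odd: the
`Inndiag`-class is one or two `Inn`-classes, and two unless `m` is even and `q ≡ 1 (mod 4)`), as
`Prop`s. Each piece is proved in its own file as
`theorem main : <hypothesis pieces> → GMStmt.<Name>.{u}`.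

Notation: `MI m = (Fin m ⊕ Fin m) ⊕ Fin 2`, `Qm = Cfsg.quadFormMinus m F a b` (`= ⇑(minusQ m F a b)`
by `rfl`), dimension `2(m+1)`; `R u = Cfsg.reflectionMatrix Q u`; `D0 Q hv₀ k` the image in
`Aut(PΩ(Q))` of the similarities with `det = μ^k` (`Helper45.OmegaInndiag`; it is `Inndiag` for the
minus form with `k = m + 1`: `Helper45.MinusInndiag.inndiag_minus_eq`). -/

namespace Cfsg.Agent.Lib.Helper45.GMStmt

open Matrix Module QuadraticMap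
open Cfsg.Agent.Lib.Helper44.QSpace Cfsg.Agent.Lib.Helper44.NegPairs
open Cfsg.Agent.Lib.Helper45.OmegaAut Cfsg.Agent.Lib.Helper45.OmegaAutPsi
  Cfsg.Agent.Lib.Helper45.OmegaAutMain Cfsg.Agent.Lib.Helper45.OmegaInndiag
open Cfsg.Agent.Lib.Helper44.MFldStmt

universe u

/-! ### leaves: linear algebra -/

/-- [L1] a matrix with `M² = λ`, `λ` a non-square, in dimension `2n` has `det M = (-λ)^n` -/
def DetNonsq : Prop := ∀ (F : Type u) [Field F] (ι : Type) [Fintype ι] [DecidableEq ι]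
  (M : Matrix ι ι F) (lam : F) (n : ℕ), Fintype.card ι = 2 * n → ¬ IsSquare lam →
  M * M = lam • (1 : Matrix ι ι F) → M.det = (-lam) ^ n

/-- [L4] an involution anticommuting with an invertible matrix, in dimension `2n`, has
`det M = (-1)^n` -/
def DetAnti : Prop := ∀ (F : Type u) [Field F] (ι : Type) [Fintype ι] [DecidableEq ι]
  (M N : Matrix ι ι F) (n : ℕ), (2 : F) ≠ 0 → Fintype.card ι = 2 * n → M * M = 1 →
  N.det ≠ 0 → N * M = -(M * N) → M.det = (-1) ^ n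

/-- [L3] a similarity commuting with an isometric involution of determinant `-1` has square
multiplier -/
def CommSq : Prop := ∀ (F : Type u) [Field F] [Fintype F] (ι : Type) [Fintype ι] [DecidableEq ι]
  (Q : QuadraticForm F (ι → F)), (2 : F) ≠ 0 → Sep Q → ∀ (M N : Matrix ι ι F) (μ : F), μ ≠ 0 →
  M * M = 1 → (∀ x, Q (M *ᵥ x) = Q x) → M.det = -1 → (∀ x, Q (N *ᵥ x) = μ * Q x) →
  N * M = M * N → IsSquare μ

/-- [L2] the minus form has no similarity with `M² = ν²` and multiplier `≠ ν²` (its eigenspaces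
would be two complementary totally singular subspaces) -/
def EigTS : Prop := ∀ (F : Type u) [Field F] [Fintype F] (m : ℕ) (a b : F), Aniso a b →
  (2 : F) ≠ 0 → ∀ (M : Matrix (MI m) (MI m) F) (ν μ : F), ν ≠ 0 → μ ≠ ν ^ 2 →
  M * M = (ν ^ 2) • (1 : Matrix (MI m) (MI m) F) →
  (∀ x, Cfsg.quadFormMinus m F a b (M *ᵥ x) = μ * Cfsg.quadFormMinus m F a b x) → False

/-! ### leaves: rotations commuting with a similarity of square scalar (generic form) -/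

/-- [CA] `G² = c²`, multiplier `c²` -/
def CaseSqG : Prop := ∀ (F : Type u) [Field F] [Fintype F] (ι : Type) [Fintype ι] [DecidableEq ι]
  (Q : QuadraticForm F (ι → F)), (2 : F) ≠ 0 → Sep Q → 4 ≤ Fintype.card ι →
  ∀ (G : Matrix ι ι F) (c : F), c ≠ 0 → G * G = (c ^ 2) • (1 : Matrix ι ι F) →
  (∀ x, Q (G *ᵥ x) = c ^ 2 * Q x) →
  ∃ u u' : ι → F, Q u ≠ 0 ∧ Q u' ≠ 0 ∧ ¬ IsSquare (Q u * Q u') ∧
    G * (Cfsg.reflectionMatrix (⇑Q) u * Cfsg.reflectionMatrix (⇑Q) u') =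
      (Cfsg.reflectionMatrix (⇑Q) u * Cfsg.reflectionMatrix (⇑Q) u') * G

/-- [CB] `G² = ν`, multiplier `ν`, `ν` a non-square -/
def CaseNonsqG : Prop := ∀ (F : Type u) [Field F] [Fintype F] (ι : Type) [Fintype ι]
  [DecidableEq ι] (Q : QuadraticForm F (ι → F)), (2 : F) ≠ 0 → Sep Q → 4 ≤ Fintype.card ι →
  ∀ (G : Matrix ι ι F) (ν : F), ¬ IsSquare ν → G * G = ν • (1 : Matrix ι ι F) →
  (∀ x, Q (G *ᵥ x) = ν * Q x) →
  ∃ u u' : ι → F, Q u ≠ 0 ∧ Q u' ≠ 0 ∧ ¬ IsSquare (Q u * Q u') ∧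
    G * (Cfsg.reflectionMatrix (⇑Q) u * Cfsg.reflectionMatrix (⇑Q) u') =
      (Cfsg.reflectionMatrix (⇑Q) u * Cfsg.reflectionMatrix (⇑Q) u') * G

/-! ### leaves: the groups (generic form, dimension `2k`) -/

/-- [LB] if `-1 ∈ Ω` (so `PGO/Inn` is dihedral of order 8): for `g` with `det g ≠ μ^k`,
`Inn · C_{D0}(Phi g)` is not all of `D0` -/
def LowerB : Prop := ∀ (F : Type u) [Field F] [Fintype F] (ι : Type) [Fintype ι] [DecidableEq ι]
  (Q : QuadraticForm F (ι → F)), (2 : F) ≠ 0 → Sep Q → ∀ (v₀ : ι → F) (hv₀ : Q v₀ ≠ 0) (k : ℕ),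
  Fintype.card ι = 2 * k → 5 ≤ Fintype.card ι →
  (∃ δ : ↥(Cfsg.Geo.quadSimilarityGroup (F := F) ⇑Q), ¬ IsSquare (mu Q δ)) →
  (∃ s : ↥(Cfsg.isometryGroup F ⇑Q), s ∈ Cfsg.Omega F ⇑Q ∧
    ((s : GL ι F) : Matrix ι ι F) = -1) →
  ∀ g : ↥(Cfsg.Geo.quadSimilarityGroup (F := F) ⇑Q), dl Q hv₀ k g ≠ 1 →
    ¬ (D0 Q hv₀ k ≤ Cfsg.Inn (Cfsg.POmega F ⇑Q) ⊔
        (D0 Q hv₀ k ⊓ Subgroup.centralizer {Phi (⇑Q) g}))

/-- [DR] if `-1 ∈ Ω`: a product of two reflections whose values have non-square product is a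
similarity with `det = μ^k` inducing a non-inner automorphism -/
def RotNotInnG : Prop := ∀ (F : Type u) [Field F] [Fintype F] (ι : Type) [Fintype ι]
  [DecidableEq ι] (Q : QuadraticForm F (ι → F)), (2 : F) ≠ 0 → Sep Q → 5 ≤ Fintype.card ι →
  (∃ s : ↥(Cfsg.isometryGroup F ⇑Q), s ∈ Cfsg.Omega F ⇑Q ∧
    ((s : GL ι F) : Matrix ι ι F) = -1) →
  ∀ (v₀ : ι → F) (hv₀ : Q v₀ ≠ 0) (k : ℕ), Fintype.card ι = 2 * k → ∀ (u u' : ι → F), Q u ≠ 0 →
  Q u' ≠ 0 → ¬ IsSquare (Q u * Q u') →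
  ∃ d : ↥(Cfsg.Geo.quadSimilarityGroup (F := F) ⇑Q),
    ((d : GL ι F) : Matrix ι ι F) =
      Cfsg.reflectionMatrix (⇑Q) u * Cfsg.reflectionMatrix (⇑Q) u' ∧
    dl Q hv₀ k d = 1 ∧ Phi (⇑Q) d ∉ Cfsg.Inn (Cfsg.POmega F ⇑Q)

/-- [SQ] if `-1 ∉ Ω`: a similarity with square multiplier `c²` and `det = (c²)^k` induces an
inner automorphism -/
def SqInn : Prop := ∀ (F : Type u) [Field F] [Fintype F] (ι : Type) [Fintype ι] [DecidableEq ι]
  (Q : QuadraticForm F (ι → F)), (2 : F) ≠ 0 → Sep Q → ∀ (k : ℕ), Fintype.card ι = 2 * k →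
  5 ≤ Fintype.card ι →
  (¬ ∃ s : ↥(Cfsg.isometryGroup F ⇑Q), s ∈ Cfsg.Omega F ⇑Q ∧
    ((s : GL ι F) : Matrix ι ι F) = -1) →
  ∀ (h : ↥(Cfsg.Geo.quadSimilarityGroup (F := F) ⇑Q)) (c : F), c ≠ 0 →
  (∀ x, Q (((h : GL ι F) : Matrix ι ι F) *ᵥ x) = c ^ 2 * Q x) →
  ((h : GL ι F) : Matrix ι ι F).det = (c ^ 2) ^ k →
    Phi (⇑Q) h ∈ Cfsg.Inn (Cfsg.POmega F ⇑Q)

/-- [PGO] an involution of `PΓO⁻` is induced by a similarity (`Aut/Inndiag` is cyclic, generated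
by the Frobenius-semilinear isometry of `Helper43.M3Out`) -/
def InvolInPGO : Prop := ∀ (F : Type u) [Field F] [Fintype F] (m : ℕ), 3 ≤ m → (2 : F) ≠ 0 →
  ∀ (a b : F), Aniso a b →
  ∀ γ : MulAut (Cfsg.POmega F (Cfsg.quadFormMinus m F a b)),
    γ ∈ Cfsg.gammaPOmega F (Cfsg.quadFormMinus m F a b) → γ * γ = 1 →
    γ ∈ (Phi (Cfsg.quadFormMinus m F a b)).range

/-! ### middle: the minus form -/

/-- [ROT] a similarity `G` of the minus form with `G²` scalar and `det G ≠ μ^(m+1)` commutes with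
a product of two reflections whose values have non-square product -/
def RotExists : Prop := ∀ (F : Type u) [Field F] [Fintype F] (m : ℕ), 1 ≤ m → (2 : F) ≠ 0 →
  ∀ (a b : F), Aniso a b → ∀ (G : Matrix (MI m) (MI m) F) (μ lam : F), μ ≠ 0 →
  (∀ x, Cfsg.quadFormMinus m F a b (G *ᵥ x) = μ * Cfsg.quadFormMinus m F a b x) →
  G * G = lam • (1 : Matrix (MI m) (MI m) F) → G.det ≠ μ ^ (m + 1) →
  ∃ u u' : MI m → F, Cfsg.quadFormMinus m F a b u ≠ 0 ∧ Cfsg.quadFormMinus m F a b u' ≠ 0 ∧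
    ¬ IsSquare (Cfsg.quadFormMinus m F a b u * Cfsg.quadFormMinus m F a b u') ∧
    G * (Cfsg.reflectionMatrix (Cfsg.quadFormMinus m F a b) u *
        Cfsg.reflectionMatrix (Cfsg.quadFormMinus m F a b) u') =
      (Cfsg.reflectionMatrix (Cfsg.quadFormMinus m F a b) u *
        Cfsg.reflectionMatrix (Cfsg.quadFormMinus m F a b) u') * G

/-- [TYPE] `m` odd: a similarity `H` with `det H = ν^(m+1)` commuting or anticommuting with a
similarity `G` with `G²` scalar and `det G ≠ μ^(m+1)` has square multiplier -/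
def TypeOdd : Prop := ∀ (F : Type u) [Field F] [Fintype F] (m : ℕ), Odd m → (2 : F) ≠ 0 →
  ∀ (a b : F), Aniso a b → ∀ (G H : Matrix (MI m) (MI m) F) (μ ν lam : F), μ ≠ 0 → ν ≠ 0 →
  (∀ x, Cfsg.quadFormMinus m F a b (G *ᵥ x) = μ * Cfsg.quadFormMinus m F a b x) →
  (∀ x, Cfsg.quadFormMinus m F a b (H *ᵥ x) = ν * Cfsg.quadFormMinus m F a b x) →
  G * G = lam • (1 : Matrix (MI m) (MI m) F) → G.det ≠ μ ^ (m + 1) → H.det = ν ^ (m + 1) →
  (H * G = G * H ∨ H * G = -(G * H)) → IsSquare ν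

/-- [A] `-1 ∈ Ω`: `Inn · C_Inndiag(γ)` has index two in `Inndiag` -/
def CaseNeg : Prop := ∀ (F : Type u) [Field F] [Fintype F] (m : ℕ), 3 ≤ m → (2 : F) ≠ 0 →
  ∀ (a b : F), Aniso a b →
  (∃ s : ↥(Cfsg.isometryGroup F (Cfsg.quadFormMinus m F a b)),
    s ∈ Cfsg.Omega F (Cfsg.quadFormMinus m F a b) ∧
    ((s : GL (MI m) F) : Matrix (MI m) (MI m) F) = -1) →
  ∀ γ : MulAut (Cfsg.POmega F (Cfsg.quadFormMinus m F a b)),
    γ ∈ Cfsg.gammaPOmega F (Cfsg.quadFormMinus m F a b) →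
    γ ∉ Cfsg.inndiagPOmegaMinus m F a b → γ * γ = 1 →
    (Cfsg.Inn (Cfsg.POmega F (Cfsg.quadFormMinus m F a b)) ⊔
      (Cfsg.inndiagPOmegaMinus m F a b ⊓ Subgroup.centralizer {γ})).relIndex
        (Cfsg.inndiagPOmegaMinus m F a b) = 2

/-- [B] `m` odd (then `-1 ∉ Ω`): `C_Inndiag(γ) ≤ Inn` -/
def CaseOdd : Prop := ∀ (F : Type u) [Field F] [Fintype F] (m : ℕ), 3 ≤ m → Odd m →
  (2 : F) ≠ 0 → ∀ (a b : F), Aniso a b →
  (¬ ∃ s : ↥(Cfsg.isometryGroup F (Cfsg.quadFormMinus m F a b)),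
    s ∈ Cfsg.Omega F (Cfsg.quadFormMinus m F a b) ∧
    ((s : GL (MI m) F) : Matrix (MI m) (MI m) F) = -1) →
  ∀ γ : MulAut (Cfsg.POmega F (Cfsg.quadFormMinus m F a b)),
    γ ∈ Cfsg.gammaPOmega F (Cfsg.quadFormMinus m F a b) →
    γ ∉ Cfsg.inndiagPOmegaMinus m F a b → γ * γ = 1 →
    Cfsg.inndiagPOmegaMinus m F a b ⊓ Subgroup.centralizer {γ} ≤
      Cfsg.Inn (Cfsg.POmega F (Cfsg.quadFormMinus m F a b))

end Cfsg.Agent.Lib.Helper45.GMStmt
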