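import Mathlib
import Cfsg.Agent.Lib.Helper45.GMStmt
import Cfsg.Agent.Lib.Helper44.GAFin
import Cfsg.Agent.Lib.Helper45.OmegaAutSim

set_option autoImplicit false

/-! S2719, assembly [A] (`CaseNeg`): when `-1 ∈ Ω`, `Inn · C_Inndiag(γ)` has index two in
`Inndiag` for an involution `γ` of `PΓO⁻` outside `Inndiag`. -/

namespace Cfsg.Agent.Lib.Helper45.GMA

open Matrix Module QuadraticMap
open Cfsg.Agent.Lib.Helper44.QSpace Cfsg.Agent.Lib.Helper44.NegPairs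
open Cfsg.Agent.Lib.Helper45.OmegaAut Cfsg.Agent.Lib.Helper45.OmegaAutPsi
  Cfsg.Agent.Lib.Helper45.OmegaAutMain Cfsg.Agent.Lib.Helper45.OmegaInndiag
open Cfsg.Agent.Lib.Helper44.MFldStmt Cfsg.Agent.Lib.Helper45.GMStmt
open Cfsg.Agent.Lib.Helper44.OMat Cfsg.Agent.Lib.Helper45.OmegaAutKer
  Cfsg.Agent.Lib.Helper45.MinusInndiag

universe u

set_option maxHeartbeats 1000000 in
theorem main (hPGO : InvolInPGO.{u}) (hLB : LowerB.{u}) (hROT : RotExists.{u})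
    (hDR : RotNotInnG.{u}) : CaseNeg.{u} := by
  intro F _ _ m hm h2 a b hab hneg γ hγΓ hγI hγγ
  have hcardι : Fintype.card (MI m) = 2 * (m + 1) := by
    simp only [Fintype.card_sum, Fintype.card_fin]; omega
  have hn : 5 ≤ Fintype.card (MI m) := by rw [hcardι]; omega
  have hS := sep_minusQ h2 m a b hab
  have : Nontrivial (MI m → F) := by
    have : Nonempty (MI m) := ⟨Sum.inr 0⟩
    infer_instance
  obtain ⟨v₀, hv₀⟩ := exists_ne_zero hS
  have hδ := Cfsg.Agent.Lib.Helper45.OmegaAutSim.minus_sim (F := F) h2 m a b hab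
  have hD0 := inndiag_minus_eq h2 m hab hv₀
  have hmem : γ ∈ (Phi (⇑(minusQ m F a b))).range := hPGO F m hm h2 a b hab γ hγΓ hγγ
  obtain ⟨g, rfl⟩ := hmem
  have hdl : dl (minusQ m F a b) hv₀ (m + 1) g ≠ 1 := by
    intro h
    apply hγI
    rw [hD0]
    exact ⟨g, (mem_G0 (minusQ m F a b) hv₀ (m + 1) g).mpr h, rfl⟩
  have hsq : Phi (⇑(minusQ m F a b)) (g * g) = 1 := by
    rw [map_mul]
    exact hγγ
  obtain ⟨lam, hlam⟩ := scalar_of_Phi_eq_one h2 (minusQ m F a b) hS hn (g * g) hsq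
  have hGG : ((g : GL (MI m) F) : Matrix (MI m) (MI m) F) *
      ((g : GL (MI m) F) : Matrix (MI m) (MI m) F) = lam • (1 : Matrix (MI m) (MI m) F) := by
    apply matrix_ext_mulVec
    intro x
    rw [Matrix.smul_mulVec, Matrix.one_mulVec, ← hlam x]
    rfl
  have hdet : ((g : GL (MI m) F) : Matrix (MI m) (MI m) F).det ≠
      (mu (minusQ m F a b) g : F) ^ (m + 1) :=
    fun h => hdl ((dl_eq_one_iff (minusQ m F a b) hv₀ (m + 1) g).mpr h)
  obtain ⟨u, u', hu, hu', hns, hcomm⟩ := hROT F m (by omega) h2 a b hab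
    ((g : GL (MI m) F) : Matrix (MI m) (MI m) F) (mu (minusQ m F a b) g : F) lam
    (mu (minusQ m F a b) g).ne_zero (mu_spec (minusQ m F a b) g) hGG hdet
  obtain ⟨d, hdM, hdl1, hdInn⟩ := hDR F (MI m) (minusQ m F a b) h2 hS hn hneg v₀ hv₀ (m + 1)
    hcardι u u' hu hu' hns
  have hdg : g * d = d * g := by
    apply Subtype.ext
    apply Units.ext
    show ((g : GL (MI m) F) : Matrix (MI m) (MI m) F) * ((d : GL (MI m) F) : Matrix (MI m) (MI m) F)
      = ((d : GL (MI m) F) : Matrix (MI m) (MI m) F) * ((g : GL (MI m) F) : Matrix (MI m) (MI m) F)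
    rw [hdM]
    exact hcomm
  have hdC : Phi (⇑(minusQ m F a b)) d ∈ D0 (minusQ m F a b) hv₀ (m + 1) ⊓
      Subgroup.centralizer {Phi (⇑(minusQ m F a b)) g} := by
    have hc : Phi (⇑(minusQ m F a b)) d ∈
        Subgroup.centralizer {Phi (⇑(minusQ m F a b)) g} := by
      rw [Subgroup.mem_centralizer_iff]
      intro y hy
      rw [Set.mem_singleton_iff] at hy
      rw [hy, ← map_mul, ← map_mul, hdg]
    exact Subgroup.mem_inf.mpr ⟨⟨d, (mem_G0 (minusQ m F a b) hv₀ (m + 1) d).mpr hdl1, rfl⟩, hc⟩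
  rw [hD0]
  have hKJ : Cfsg.Inn (Cfsg.POmega F ⇑(minusQ m F a b)) ≤
      Cfsg.Inn (Cfsg.POmega F ⇑(minusQ m F a b)) ⊔ (D0 (minusQ m F a b) hv₀ (m + 1) ⊓
        Subgroup.centralizer {Phi (⇑(minusQ m F a b)) g}) := le_sup_left
  have hJD : Cfsg.Inn (Cfsg.POmega F ⇑(minusQ m F a b)) ⊔ (D0 (minusQ m F a b) hv₀ (m + 1) ⊓
        Subgroup.centralizer {Phi (⇑(minusQ m F a b)) g}) ≤ D0 (minusQ m F a b) hv₀ (m + 1) :=
    sup_le (inn_le_D0 (minusQ m F a b) hv₀ (m + 1)) inf_le_left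
  have h4 := (relIndex_inn_D0 (minusQ m F a b) h2 hS hv₀ hcardι hn hδ).1 hneg
  have hmul := Subgroup.relIndex_mul_relIndex _ _ _ hKJ hJD
  rw [h4] at hmul
  have h1 : (Cfsg.Inn (Cfsg.POmega F ⇑(minusQ m F a b)) ⊔ (D0 (minusQ m F a b) hv₀ (m + 1) ⊓
        Subgroup.centralizer {Phi (⇑(minusQ m F a b)) g})).relIndex
          (D0 (minusQ m F a b) hv₀ (m + 1)) ≠ 1 := by
    rw [Ne, Subgroup.relIndex_eq_one]
    exact hLB F (MI m) (minusQ m F a b) h2 hS v₀ hv₀ (m + 1) hcardι hn hδ hneg g hdl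
  have h1' : (Cfsg.Inn (Cfsg.POmega F ⇑(minusQ m F a b))).relIndex
      (Cfsg.Inn (Cfsg.POmega F ⇑(minusQ m F a b)) ⊔ (D0 (minusQ m F a b) hv₀ (m + 1) ⊓
        Subgroup.centralizer {Phi (⇑(minusQ m F a b)) g})) ≠ 1 := by
    rw [Ne, Subgroup.relIndex_eq_one]
    intro hle
    exact hdInn (hle ((le_sup_right : _ ≤ Cfsg.Inn (Cfsg.POmega F ⇑(minusQ m F a b)) ⊔
      (D0 (minusQ m F a b) hv₀ (m + 1) ⊓
        Subgroup.centralizer {Phi (⇑(minusQ m F a b)) g})) hdC))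
  exact Cfsg.Agent.Lib.Helper44.GAFin.four_squeeze hmul h1' h1

end Cfsg.Agent.Lib.Helper45.GMA
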