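import Mathlib
import Cfsg.Agent.Lib.Helper45.GMStmt
import Cfsg.Agent.Lib.Helper45.OmegaAutSim

set_option autoImplicit false

/-! S2719, assembly [B] (`CaseOdd`): for `m` odd, an inner-diagonal automorphism commuting with an
involution `γ` of `PΓO⁻` outside `Inndiag` is inner. -/

namespace Cfsg.Agent.Lib.Helper45.GMB

open Matrix Module QuadraticMap
open Cfsg.Agent.Lib.Helper44.QSpace Cfsg.Agent.Lib.Helper44.NegPairs
open Cfsg.Agent.Lib.Helper45.OmegaAut Cfsg.Agent.Lib.Helper45.OmegaAutPsi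
  Cfsg.Agent.Lib.Helper45.OmegaAutMain Cfsg.Agent.Lib.Helper45.OmegaInndiag
open Cfsg.Agent.Lib.Helper44.MFldStmt Cfsg.Agent.Lib.Helper45.GMStmt
open Cfsg.Agent.Lib.Helper44.OMat Cfsg.Agent.Lib.Helper45.OmegaAutKer
  Cfsg.Agent.Lib.Helper45.MinusInndiag

universe u

set_option maxHeartbeats 1000000 in
theorem main (hPGO : InvolInPGO.{u}) (hTYPE : TypeOdd.{u}) (hSQ : SqInn.{u}) : CaseOdd.{u} := by
  intro F _ _ m hm hoddm h2 a b hab hneg γ hγΓ hγI hγγ
  have hcardι : Fintype.card (MI m) = 2 * (m + 1) := by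
    simp only [Fintype.card_sum, Fintype.card_fin]; omega
  have hn : 5 ≤ Fintype.card (MI m) := by rw [hcardι]; omega
  have hS := sep_minusQ h2 m a b hab
  have : Nontrivial (MI m → F) := by
    have : Nonempty (MI m) := ⟨Sum.inr 0⟩
    infer_instance
  obtain ⟨v₀, hv₀⟩ := exists_ne_zero hS
  have hD0 := inndiag_minus_eq h2 m hab hv₀
  have hmem : γ ∈ (Phi (⇑(minusQ m F a b))).range := hPGO F m hm h2 a b hab γ hγΓ hγγ
  obtain ⟨g, rfl⟩ := hmem
  have hdl : dl (minusQ m F a b) hv₀ (m + 1) g ≠ 1 := by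
    intro h
    apply hγI
    rw [hD0]
    exact ⟨g, (mem_G0 (minusQ m F a b) hv₀ (m + 1) g).mpr h, rfl⟩
  have hsq : Phi (⇑(minusQ m F a b)) (g * g) = 1 := by
    rw [map_mul]
    exact hγγ
  obtain ⟨lam, hlam⟩ := scalar_of_Phi_eq_one h2 (minusQ m F a b) hS hn (g * g) hsq
  have hGG : ((g : GL (MI m) F) : Matrix (MI m) (MI m) F) *
      ((g : GL (MI m) F) : Matrix (MI m) (MI m) F) = lam • (1 : Matrix (MI m) (MI m) F) := by
    apply matrix_ext_mulVec
    intro x
    rw [Matrix.smul_mulVec, Matrix.one_mulVec, ← hlam x]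
    rfl
  have hdet : ((g : GL (MI m) F) : Matrix (MI m) (MI m) F).det ≠
      (mu (minusQ m F a b) g : F) ^ (m + 1) :=
    fun h => hdl ((dl_eq_one_iff (minusQ m F a b) hv₀ (m + 1) g).mpr h)
  intro d hd
  obtain ⟨hdI, hdC⟩ := Subgroup.mem_inf.mp hd
  rw [hD0] at hdI
  obtain ⟨h, hhG0, rfl⟩ := hdI
  have hdlh : dl (minusQ m F a b) hv₀ (m + 1) h = 1 :=
    (mem_G0 (minusQ m F a b) hv₀ (m + 1) h).mp hhG0
  have hdeth : ((h : GL (MI m) F) : Matrix (MI m) (MI m) F).det =
      (mu (minusQ m F a b) h : F) ^ (m + 1) :=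
    (dl_eq_one_iff (minusQ m F a b) hv₀ (m + 1) h).mp hdlh
  have hdC' : Phi (⇑(minusQ m F a b)) h ∈
      Subgroup.centralizer {Phi (⇑(minusQ m F a b)) g} := hdC
  have hc : Phi (⇑(minusQ m F a b)) g * Phi (⇑(minusQ m F a b)) h =
      Phi (⇑(minusQ m F a b)) h * Phi (⇑(minusQ m F a b)) g :=
    Subgroup.mem_centralizer_iff.mp hdC' _ (Set.mem_singleton _)
  have hcomm1 : Phi (⇑(minusQ m F a b)) (h * g * h⁻¹ * g⁻¹) = 1 := by
    rw [map_mul, map_mul, map_mul, map_inv, map_inv, ← hc]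
    group
  obtain ⟨κ, hκ⟩ := scalar_of_Phi_eq_one h2 (minusQ m F a b) hS hn (h * g * h⁻¹ * g⁻¹) hcomm1
  have hHG : ((h : GL (MI m) F) : Matrix (MI m) (MI m) F) *
      ((g : GL (MI m) F) : Matrix (MI m) (MI m) F) =
      κ • (((g : GL (MI m) F) : Matrix (MI m) (MI m) F) *
        ((h : GL (MI m) F) : Matrix (MI m) (MI m) F)) := by
    have e : (h * g * h⁻¹ * g⁻¹) * (g * h) = h * g := by group
    have e' : (((h * g * h⁻¹ * g⁻¹ : ↥(Cfsg.Geo.quadSimilarityGroup (F := F)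
          ⇑(minusQ m F a b))) : GL (MI m) F) : Matrix (MI m) (MI m) F) *
        (((g : GL (MI m) F) : Matrix (MI m) (MI m) F) *
          ((h : GL (MI m) F) : Matrix (MI m) (MI m) F)) =
        ((h : GL (MI m) F) : Matrix (MI m) (MI m) F) *
          ((g : GL (MI m) F) : Matrix (MI m) (MI m) F) :=
      congrArg (fun z : ↥(Cfsg.Geo.quadSimilarityGroup (F := F) ⇑(minusQ m F a b)) =>
        ((z : GL (MI m) F) : Matrix (MI m) (MI m) F)) e
    apply matrix_ext_mulVec
    intro x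
    rw [← e', ← Matrix.mulVec_mulVec, hκ, Matrix.smul_mulVec]
  have hμg := mu_spec (minusQ m F a b) g
  have hμh := mu_spec (minusQ m F a b) h
  have hκ2 : κ * κ = 1 := by
    have h1 : minusQ m F a b ((((h : GL (MI m) F) : Matrix (MI m) (MI m) F) *
        ((g : GL (MI m) F) : Matrix (MI m) (MI m) F)) *ᵥ v₀) =
        minusQ m F a b ((κ • (((g : GL (MI m) F) : Matrix (MI m) (MI m) F) *
          ((h : GL (MI m) F) : Matrix (MI m) (MI m) F))) *ᵥ v₀) := by rw [← hHG]
    rw [← Matrix.mulVec_mulVec, hμh, hμg, Matrix.smul_mulVec, QuadraticMap.map_smul,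
      ← Matrix.mulVec_mulVec, hμg, hμh, smul_eq_mul] at h1
    have hne : (mu (minusQ m F a b) g : F) * ((mu (minusQ m F a b) h : F) *
        minusQ m F a b v₀) ≠ 0 :=
      mul_ne_zero (mu (minusQ m F a b) g).ne_zero
        (mul_ne_zero (mu (minusQ m F a b) h).ne_zero hv₀)
    have h3 : (κ * κ - 1) * ((mu (minusQ m F a b) g : F) * ((mu (minusQ m F a b) h : F) *
        minusQ m F a b v₀)) = 0 := by
      linear_combination -h1
    rcases mul_eq_zero.mp h3 with h4 | h4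
    · exact sub_eq_zero.mp h4
    · exact absurd h4 hne
  have hκpm : κ = 1 ∨ κ = -1 := by
    have h3 : (κ - 1) * (κ + 1) = 0 := by linear_combination hκ2
    rcases mul_eq_zero.mp h3 with h4 | h4
    · left
      exact sub_eq_zero.mp h4
    · right
      exact eq_neg_of_add_eq_zero_left h4
  have hcomm : ((h : GL (MI m) F) : Matrix (MI m) (MI m) F) *
        ((g : GL (MI m) F) : Matrix (MI m) (MI m) F) =
        ((g : GL (MI m) F) : Matrix (MI m) (MI m) F) *
          ((h : GL (MI m) F) : Matrix (MI m) (MI m) F) ∨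
      ((h : GL (MI m) F) : Matrix (MI m) (MI m) F) *
        ((g : GL (MI m) F) : Matrix (MI m) (MI m) F) =
        -(((g : GL (MI m) F) : Matrix (MI m) (MI m) F) *
          ((h : GL (MI m) F) : Matrix (MI m) (MI m) F)) := by
    rcases hκpm with h4 | h4
    · left
      rw [hHG, h4, one_smul]
    · right
      rw [hHG, h4, neg_smul, one_smul]
  have hν := hTYPE F m hoddm h2 a b hab ((g : GL (MI m) F) : Matrix (MI m) (MI m) F)
    ((h : GL (MI m) F) : Matrix (MI m) (MI m) F) (mu (minusQ m F a b) g : F)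
    (mu (minusQ m F a b) h : F) lam (mu (minusQ m F a b) g).ne_zero
    (mu (minusQ m F a b) h).ne_zero hμg hμh hGG hdet hdeth hcomm
  obtain ⟨c, hc⟩ := hν
  have hc0 : c ≠ 0 := by
    rintro rfl
    rw [mul_zero] at hc
    exact (mu (minusQ m F a b) h).ne_zero hc
  exact hSQ F (MI m) (minusQ m F a b) h2 hS (m + 1) hcardι hn hneg h c hc0
    (fun x => by rw [hμh, hc, pow_two]) (by rw [hdeth, hc, pow_two])

end Cfsg.Agent.Lib.Helper45.GMB
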