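import Mathlib
import Cfsg.Agent.Lib.Helper45.GMStmt
import Cfsg.Agent.Lib.Helper43.M3Out
import Cfsg.Agent.Lib.Helper44.GFFin
import Cfsg.Agent.S0791
import Cfsg.Agent.S2727

set_option autoImplicit false

/-! S2719: the final assembly from the pieces [A] (`CaseNeg`) and [B] (`CaseOdd`). -/

namespace Cfsg.Agent.Lib.Helper45.GMFin

open Matrix Module QuadraticMap
open Cfsg.Agent.Lib.Helper44.QSpace Cfsg.Agent.Lib.Helper44.NegPairs
open Cfsg.Agent.Lib.Helper45.OmegaAut Cfsg.Agent.Lib.Helper45.OmegaAutPsi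
  Cfsg.Agent.Lib.Helper45.OmegaAutMain Cfsg.Agent.Lib.Helper45.OmegaInndiag
open Cfsg.Agent.Lib.Helper44.MFldStmt Cfsg.Agent.Lib.Helper44.GFStmt
  Cfsg.Agent.Lib.Helper45.GMStmt

universe u

/-- **S2719** from the pieces -/
theorem final_of (hSPL : SplitIndex.{u}) (hA : CaseNeg.{u}) (hB : CaseOdd.{u})
    {F : Type u} [Field F] [Fintype F] (hodd : Odd (Fintype.card F)) {m : ℕ} (hm : 3 ≤ m)
    (a b : F) (hab : ∀ z₁ z₂ : F, z₁ ^ 2 + a * z₁ * z₂ + b * z₂ ^ 2 = 0 → z₁ = 0 ∧ z₂ = 0)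
    (γ : MulAut (Cfsg.POmega F (Cfsg.quadFormMinus m F a b)))
    (hγ : Cfsg.IsGraphAutClassPOmegaMinus m a b γ) (hγ2 : orderOf γ = 2) :
    (Cfsg.splitClassCount (Cfsg.inndiagPOmegaMinus m F a b)
        (Cfsg.Inn (Cfsg.POmega F (Cfsg.quadFormMinus m F a b))) γ = 1 ∨
      Cfsg.splitClassCount (Cfsg.inndiagPOmegaMinus m F a b)
        (Cfsg.Inn (Cfsg.POmega F (Cfsg.quadFormMinus m F a b))) γ = 2) ∧
    (¬ (Even m ∧ Fintype.card F % 4 = 1) →
      Cfsg.splitClassCount (Cfsg.inndiagPOmegaMinus m F a b)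
        (Cfsg.Inn (Cfsg.POmega F (Cfsg.quadFormMinus m F a b))) γ = 2) := by
  have h2 : (2 : F) ≠ 0 := Cfsg.Agent.Lib.Helper44.FinSq.two_ne_zero_of_odd_card hodd
  have hcardι : Fintype.card ((Fin m ⊕ Fin m) ⊕ Fin 2) = 2 * (m + 1) := by
    simp only [Fintype.card_sum, Fintype.card_fin]; omega
  have hn : 5 ≤ Fintype.card ((Fin m ⊕ Fin m) ⊕ Fin 2) := by rw [hcardι]; omega
  have hS := sep_minusQ h2 m a b hab
  have : Nontrivial ((Fin m ⊕ Fin m) ⊕ Fin 2 → F) := by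
    have : Nonempty ((Fin m ⊕ Fin m) ⊕ Fin 2) := ⟨Sum.inr 0⟩
    infer_instance
  obtain ⟨v₀, hv₀⟩ := exists_ne_zero hS
  have hδ := Cfsg.Agent.Lib.Helper45.OmegaAutSim.minus_sim (F := F) h2 m a b hab
  have hiff := Cfsg.Agent.S0791.result (F := F) rfl hodd (m + 1) (by omega) a b hab
  have hnum := Cfsg.Agent.S2727.minus_cond hodd (q := Fintype.card F) m
  have hKG : Cfsg.Inn (Cfsg.POmega F (Cfsg.quadFormMinus m F a b)) ≤
      Cfsg.inndiagPOmegaMinus m F a b :=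
    Cfsg.Agent.Lib.Helper43.M3Out.inn_le_inndiag h2 a b hab
  have hKn : (Cfsg.Inn (Cfsg.POmega F (Cfsg.quadFormMinus m F a b))).Normal :=
    ⟨fun d hd c => (Cfsg.Agent.Lib.Helper44.GFFin.inn_conj_iff c d).1 hd⟩
  have hsplit := hSPL _ (Cfsg.inndiagPOmegaMinus m F a b)
    (Cfsg.Inn (Cfsg.POmega F (Cfsg.quadFormMinus m F a b))) hKG hKn γ
  obtain ⟨hγΓ, hγI, -⟩ := hγ
  have hγγ : γ * γ = 1 := by
    have h := pow_orderOf_eq_one γ
    rw [hγ2, pow_two] at h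
    exact h
  rw [hsplit]
  by_cases hcond : Even m ∧ Fintype.card F % 4 = 3
  · have hneg := hiff.mpr (hnum.mpr hcond)
    have key := hA F m hm h2 a b hab hneg γ hγΓ hγI hγγ
    exact ⟨Or.inr key, fun _ => key⟩
  · have hneg : ¬ ∃ s : ↥(Cfsg.isometryGroup F (Cfsg.quadFormMinus m F a b)),
        s ∈ Cfsg.Omega F (Cfsg.quadFormMinus m F a b) ∧
        ((s : GL (MI m) F) : Matrix (MI m) (MI m) F) = -1 :=
      fun h => hcond (hnum.mp (hiff.mp h))
    have hidx : (Cfsg.Inn (Cfsg.POmega F (Cfsg.quadFormMinus m F a b))).relIndex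
        (Cfsg.inndiagPOmegaMinus m F a b) = 2 := by
      rw [Cfsg.Agent.Lib.Helper45.MinusInndiag.inndiag_minus_eq h2 m hab hv₀]
      exact (relIndex_inn_D0 _ h2 hS hv₀ hcardι hn hδ).2 hneg
    have hdvd : (Cfsg.Inn (Cfsg.POmega F (Cfsg.quadFormMinus m F a b)) ⊔
        (Cfsg.inndiagPOmegaMinus m F a b ⊓ Subgroup.centralizer {γ})).relIndex
          (Cfsg.inndiagPOmegaMinus m F a b) ∣ 2 := by
      have h := Subgroup.relIndex_dvd_of_le_left (Cfsg.inndiagPOmegaMinus m F a b)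
        (le_sup_left : Cfsg.Inn (Cfsg.POmega F (Cfsg.quadFormMinus m F a b)) ≤
          Cfsg.Inn (Cfsg.POmega F (Cfsg.quadFormMinus m F a b)) ⊔
            (Cfsg.inndiagPOmegaMinus m F a b ⊓ Subgroup.centralizer {γ}))
      rw [hidx] at h
      exact h
    refine ⟨?_, ?_⟩
    · rcases (Nat.dvd_prime Nat.prime_two).1 hdvd with h | h
      · exact Or.inl h
      · exact Or.inr h
    · intro hne
      have hoddm : Odd m := by
        rw [← Nat.not_even_iff_odd]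
        intro he
        have h13 : Fintype.card F % 4 = 1 ∨ Fintype.card F % 4 = 3 := by
          obtain ⟨r, hr⟩ := hodd
          omega
        rcases h13 with h | h
        · exact hne ⟨he, h⟩
        · exact hcond ⟨he, h⟩
      have hle := hB F m hm hoddm h2 a b hab hneg γ hγΓ hγI hγγ
      rw [sup_eq_left.mpr hle, hidx]

end Cfsg.Agent.Lib.Helper45.GMFin
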