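import Mathlib
import Cfsg.Agent.Lib.Helper45.GMStmt
import Cfsg.Agent.Lib.Helper43.M3Out

set_option autoImplicit false

/-! S2719, piece [PGO] (`InvolInPGO`): an involution of `PΓO⁻` is induced by a similarity.
`PΓO⁻ = PGO⁻ · ⟨β⟩` with `β` the Frobenius-semilinear isometry, `β^f` the conjugation (in `PGO⁻`,
not in `Inndiag`), `β^(2f) = 1`; `Inndiag` has index two in `PGO⁻` and is normalised by `β`. -/

namespace Cfsg.Agent.Lib.Helper45.GMPGO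

open Matrix
open Cfsg.Agent.Lib.Helper94.Basic
  Cfsg.Agent.Lib.Helper45.OmegaAut Cfsg.Agent.Lib.Helper43.SemiSim
  Cfsg.Agent.Lib.Helper43.M2Semi Cfsg.Agent.Lib.Helper43.MiBase
  Cfsg.Agent.Lib.Helper43.M2Frob Cfsg.Agent.Lib.Helper43.M3Frob
  Cfsg.Agent.Lib.Helper43.MAutGS Cfsg.Agent.Lib.Helper43.M3Grp
  Cfsg.Agent.Lib.Helper43.M3Out
  Cfsg.Agent.Lib.Helper44.MFld0 Cfsg.Agent.Lib.Helper44.MFldStmt
  Cfsg.Agent.Lib.Helper44.QSpace Cfsg.Agent.Lib.Helper44.NegPairs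
  Cfsg.Agent.Lib.Helper45.OmegaAutPsi Cfsg.Agent.Lib.Helper45.OmegaAutMain
  Cfsg.Agent.Lib.Helper45.OmegaInndiag Cfsg.Agent.Lib.Helper45.MinusInndiag
  Cfsg.Agent.Lib.Helper45.GMStmt

universe u

/-- the abstract argument -/
theorem abstract_step {A : Type*} [Group A] (I P : Subgroup A) (β γ : A) (f : ℕ)
    (hIP : I ≤ P)
    (hN : ∀ (k : ℕ) (δ : A), δ ∈ I → β ^ k * δ * (β ^ k)⁻¹ ∈ I)
    (hdv : ∀ k : ℕ, β ^ k ∈ P → f ∣ k)
    (hβ2 : β ^ (2 * f) = 1) (hC : β ^ f ∉ I) (hCP : β ^ f ∈ P)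
    (hdec : ∃ δ ∈ I, ∃ k : ℕ, γ = δ * β ^ k) (hγγ : γ * γ = 1) : γ ∈ P := by
  obtain ⟨δ, hδ, k, rfl⟩ := hdec
  have h2k : β ^ (2 * k) ∈ I := by
    have e : β ^ (2 * k) = (β ^ k * δ⁻¹ * (β ^ k)⁻¹) * δ⁻¹ := by
      have e1 : β ^ (2 * k) = β ^ k * δ⁻¹ * (β ^ k)⁻¹ * δ⁻¹ * (δ * β ^ k * (δ * β ^ k)) := by
        rw [two_mul, pow_add]
        group
      rw [e1, hγγ, mul_one]
    rw [e]
    exact I.mul_mem (hN k _ (I.inv_mem hδ)) (I.inv_mem hδ)
  obtain ⟨j, hj⟩ := hdv (2 * k) (hIP h2k)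
  rcases Nat.even_or_odd j with hje | hjo
  · obtain ⟨i, rfl⟩ := hje
    have hk' : k = f * i := by
      have h3 : 2 * k = 2 * (f * i) := by rw [hj]; ring
      omega
    rw [hk', pow_mul]
    exact P.mul_mem (hIP hδ) (P.pow_mem hCP i)
  · exfalso
    obtain ⟨i, rfl⟩ := hjo
    apply hC
    have e : β ^ (2 * k) = β ^ f := by
      rw [hj, (by ring : f * (2 * i + 1) = (2 * f) * i + f), pow_add, pow_mul, hβ2, one_pow,
        one_mul]
    rw [← e]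
    exact h2k

set_option maxHeartbeats 1000000 in
theorem main : InvolInPGO.{u} := by
  intro F _ _ m hm h2 a b hab γ hγΓ hγγ
  obtain ⟨p, hp⟩ := CharP.exists F
  have : CharP F p := hp
  have : Fact p.Prime := ⟨CharP.char_is_prime F p⟩
  obtain ⟨f, -, hF⟩ := FiniteField.card F p
  have hv₀ := hv0 (n := m) a b
  have hS := sep_minusQ h2 m a b hab
  have hcard : Fintype.card ((Fin m ⊕ Fin m) ⊕ Fin 2) = 2 * (m + 1) := by
    simp only [Fintype.card_sum, Fintype.card_fin]; omega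
  have hD0 := inndiag_minus_eq h2 m hab hv₀
  obtain ⟨hr, er⟩ := conj_pair (n := m) p a b hab f hF
  have hβ2 := beta_pow_two (n := m) p a b hab f hF
  have hCnot := conj_not_inndiag h2 hm a b hab hr
  rw [← er] at hCnot
  have hrGO : gU m (-1) a (neg_ne_zero.2 one_ne_zero) ∈
      Cfsg.Geo.quadSimilarityGroup (F := F) ⇑(minusQ m F a b) := pair_mem_GO hr
  have hCPhi : semiAut (pairP (m := m) p a b hab) ^ (f : ℕ) =
      Phi ⇑(minusQ m F a b) ⟨_, hrGO⟩ := by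
    rw [er]
    exact semiAut_eq_Phi hr hrGO
  have hiso : gU m (-1) a (neg_ne_zero.2 one_ne_zero) ∈
      Cfsg.isometryGroup F ⇑(minusQ m F a b) := by
    rw [mem_isometryGroup_iff]
    intro v
    have h := hr.2 v
    rw [one_mul] at h
    exact h
  have hmu : mu (minusQ m F a b) (⟨_, hrGO⟩ : ↥(Cfsg.Geo.quadSimilarityGroup (F := F)
      ⇑(minusQ m F a b))) = 1 := mu_iso (minusQ m F a b) hv₀ _ hiso
  have hc0 : dl (minusQ m F a b) hv₀ (m + 1) (⟨_, hrGO⟩ : ↥(Cfsg.Geo.quadSimilarityGroup (F := F)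
      ⇑(minusQ m F a b))) = -1 := by
    rw [dl_apply, hmu, inv_one, one_pow, mul_one]
    apply Units.ext
    rw [Matrix.GeneralLinearGroup.val_det_apply, Units.val_neg, Units.val_one]
    exact conj_det (m := m) a
  have hIP : Cfsg.inndiagPOmegaMinus m F a b ≤ (Phi (Cfsg.quadFormMinus m F a b)).range := by
    have h := inndiag_le_pgo (n := m) (F := F) a b
    rw [pgo_eq] at h
    exact h
  have hN : ∀ (k : ℕ) (δ : MulAut (Cfsg.POmega F (Cfsg.quadFormMinus m F a b))),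
      δ ∈ Cfsg.inndiagPOmegaMinus m F a b →
      semiAut (pairP (m := m) p a b hab) ^ k * δ * (semiAut (pairP (m := m) p a b hab) ^ k)⁻¹ ∈
        Cfsg.inndiagPOmegaMinus m F a b := by
    intro k δ hδ
    obtain ⟨hk, ek⟩ := pow_pair (pairP (m := m) p a b hab) k
    have hNO := Cfsg.Agent.Lib.Helper69.MFldNO.main Cfsg.Agent.Lib.Helper65.MFldGA.semiConj F m
      a b hab h2 _ _ (isPair hk) δ hδ
    rw [semiP_eq (isPair hk) hk, ← ek] at hNO
    exact hNO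
  have hdv : ∀ k : ℕ, semiAut (pairP (m := m) p a b hab) ^ k ∈
      (Phi (Cfsg.quadFormMinus m F a b)).range → (f : ℕ) ∣ k :=
    fun k hk => beta_pow_mem p hm a b hab f hF k hk
  have hdec := decomp (exists_frobP_pow p) (pairP (m := m) p a b hab) γ hγΓ
  generalize (⟨_, hrGO⟩ : ↥(Cfsg.Geo.quadSimilarityGroup (F := F) ⇑(minusQ m F a b))) = c₀
    at hCPhi hc0
  generalize semiAut (pairP (m := m) p a b hab) = β at hN hdv hβ2 hCnot hCPhi hdec
  refine abstract_step (Cfsg.inndiagPOmegaMinus m F a b) (Phi (Cfsg.quadFormMinus m F a b)).range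
    β γ (f : ℕ) hIP hN hdv hβ2 hCnot ?_ ?_ hγγ
  · rw [hCPhi]
    exact ⟨c₀, rfl⟩
  · obtain ⟨ρ, hρ, k, hγeq⟩ := hdec
    obtain ⟨g, hg⟩ : ∃ g : ↥(Cfsg.Geo.quadSimilarityGroup (F := F) ⇑(minusQ m F a b)),
      Phi ⇑(minusQ m F a b) g = ρ := hρ
    rcases dl_pm (minusQ m F a b) hv₀ hS hcard g with h | h
    · have hmem : Phi ⇑(minusQ m F a b) g ∈ D0 (minusQ m F a b) hv₀ (m + 1) :=
        ⟨g, (mem_G0 _ hv₀ _ g).mpr h, rfl⟩
      rw [← hD0, hg] at hmem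
      exact ⟨ρ, hmem, k, hγeq⟩
    · have hmem : Phi ⇑(minusQ m F a b) (g * c₀) ∈ D0 (minusQ m F a b) hv₀ (m + 1) := by
        refine ⟨g * c₀, (mem_G0 _ hv₀ _ _).mpr ?_, rfl⟩
        rw [map_mul, h, hc0, neg_mul_neg, one_mul]
      rw [← hD0, map_mul, hg, ← hCPhi] at hmem
      refine ⟨ρ * β ^ (f : ℕ), hmem, f + k, ?_⟩
      rw [hγeq, pow_add, mul_assoc, ← mul_assoc (β ^ (f : ℕ)), ← pow_add, ← two_mul, hβ2,
        one_mul]

end Cfsg.Agent.Lib.Helper45.GMPGO
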