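import Mathlib
import Cfsg.Prelude.Def_Classical
import Cfsg.Agent.Lib.Helper45.OrthStep
import Cfsg.Agent.Lib.Helper45.OrthCard
import Cfsg.Agent.Lib.Helper45.GUOrth
import Cfsg.Agent.S2641
import Cfsg.Agent.S2679
import Cfsg.Agent.S3224

/-!
The two-dimensional orthogonal groups over a finite field are dihedral:
`O⁺_2(q) ≅ D_{q-1}` and `O⁻_2(q) ≅ D_{q+1}`.
-/

set_option autoImplicit false

namespace Cfsg.Agent.Lib.Helper45.OrthDih

open Matrix Cfsg.Agent.Lib.Helper45.OrthStep Cfsg.Agent.Lib.Helper45.OrthCard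

section Criterion

variable {F : Type*} [Field F] {J : Type} [Fintype J] [DecidableEq J]
  (Q : QuadraticForm F (J → F))

theorem ext_act (g g' : ↥(Cfsg.isometryGroup F (⇑Q)))
    (h : ∀ v, ((g : GL J F) : Matrix J J F) *ᵥ v = ((g' : GL J F) : Matrix J J F) *ᵥ v) :
    g = g' := by
  apply Subtype.ext
  apply Units.ext
  ext i j
  classical
  have := congrFun (h (Pi.single j 1)) i
  simpa using this

theorem act_mul (g g' : ↥(Cfsg.isometryGroup F (⇑Q))) (v : J → F) :
    (((g * g' : ↥(Cfsg.isometryGroup F (⇑Q))) : GL J F) : Matrix J J F) *ᵥ v =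
      ((g : GL J F) : Matrix J J F) *ᵥ (((g' : GL J F) : Matrix J J F) *ᵥ v) := by
  rw [Subgroup.coe_mul, Units.val_mul, Matrix.mulVec_mulVec]

theorem act_one (v : J → F) :
    (((1 : ↥(Cfsg.isometryGroup F (⇑Q))) : GL J F) : Matrix J J F) *ᵥ v = v := by
  simp

/-- recognition of a dihedral isometry group from a "rotation" `A` and a "reflection" `S` -/
theorem dihedral_of_maps [Fintype F] (hND : ND Q) (M : ℕ) (hM0 : M ≠ 0)
    (hcard : Nat.card ↥(Cfsg.isometryGroup F (⇑Q)) = 2 * M)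
    (A S : (J → F) →ₗ[F] (J → F)) (hA : IsIso Q A) (hS : IsIso Q S)
    (Ak : ℕ → (J → F) → (J → F)) (hA0 : ∀ v, Ak 0 v = v)
    (hAsucc : ∀ k v, Ak (k + 1) v = Ak k (A v))
    (hord : ∀ k, (∀ v, Ak k v = v) ↔ M ∣ k)
    (hSS : ∀ v, S (S v) = v) (hSA : ∀ v, S (A (S (A v))) = v)
    (hSne : ∀ k, ¬ ∀ v, S v = Ak k v) :
    Nonempty (↥(Cfsg.isometryGroup F (⇑Q)) ≃* DihedralGroup M) := by
  obtain ⟨a, ha⟩ := exists_of_linear Q hND A hA
  obtain ⟨x, hx⟩ := exists_of_linear Q hND S hS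
  have hpow : ∀ k v, (((a ^ k : ↥(Cfsg.isometryGroup F (⇑Q))) : GL J F) : Matrix J J F) *ᵥ v =
      Ak k v := by
    intro k
    induction k with
    | zero =>
      intro v
      rw [pow_zero, act_one, hA0]
    | succ k ih =>
      intro v
      rw [pow_succ, act_mul, ha, ih, hAsucc]
  have hpow1 : ∀ k, a ^ k = 1 ↔ M ∣ k := by
    intro k
    rw [← hord]
    constructor
    · intro h v
      rw [← hpow, h, act_one]
    · intro h
      apply ext_act
      intro v
      rw [hpow, h, act_one]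
  have hordA : orderOf a = M := by
    apply Nat.dvd_antisymm
    · exact orderOf_dvd_of_pow_eq_one ((hpow1 M).2 dvd_rfl)
    · exact (hpow1 _).1 (pow_orderOf_eq_one a)
  have hxx : x * x = 1 := by
    apply ext_act
    intro v
    rw [act_mul, hx, hx, hSS, act_one]
  have hxa : x ∉ Subgroup.zpowers a := by
    intro hmem
    rw [← mem_powers_iff_mem_zpowers] at hmem
    obtain ⟨k, hk⟩ := hmem
    apply hSne k
    intro v
    rw [← hx, ← hpow]
    have hk' : a ^ k = x := hk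
    rw [hk']
  have hconj : x * a * x⁻¹ = a⁻¹ := by
    have hxinv : x⁻¹ = x := inv_eq_of_mul_eq_one_left hxx
    rw [hxinv]
    apply eq_inv_of_mul_eq_one_left
    apply ext_act
    intro v
    rw [act_mul, act_mul, act_mul, hx, ha, hx, ha, hSA, act_one]
  exact Cfsg.Agent.S3224.dihedral_iso a x M hordA hM0 hcard hxx hxa hconj

end Criterion

section Plus

variable {F : Type*} [Field F] [Fintype F]

/-- `O⁺_2(q)` is dihedral of order `2(q-1)` -/
theorem plus_dihedral {q : ℕ} (hF : Fintype.card F = q) :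
    Nonempty (↥(Cfsg.isometryGroup F (Cfsg.quadFormPlus 1 F)) ≃* DihedralGroup (q - 1)) := by
  classical
  have hq : 2 ≤ q := by
    rw [← hF]
    exact Fintype.one_lt_card
  rw [← QP_coe]
  obtain ⟨ζ, hζ⟩ := IsCyclic.exists_generator (α := Fˣ)
  have hordζ : orderOf ζ = q - 1 := by
    rw [orderOf_eq_card_of_forall_mem_zpowers hζ, Nat.card_eq_fintype_card, Fintype.card_units, hF]
  have hcard : Nat.card ↥(Cfsg.isometryGroup F (⇑(QP (F := F) 1))) = 2 * (q - 1) := by
    rw [QP_coe]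
    have := card_plus hF 0
    simpa using this
  obtain ⟨z, hz⟩ : ∃ z : F, z = (ζ : F) := ⟨_, rfl⟩
  obtain ⟨zi, hzi⟩ : ∃ zi : F, zi = ((ζ⁻¹ : Fˣ) : F) := ⟨_, rfl⟩
  have hzz : z * zi = 1 := by
    rw [hz, hzi, ← Units.val_mul, mul_inv_cancel, Units.val_one]
  have hz0 : z ≠ 0 := by
    rw [hz]
    exact ζ.ne_zero
  have hzk : ∀ k : ℕ, z ^ k = 1 ↔ (q - 1) ∣ k := by
    intro k
    rw [← hordζ, orderOf_dvd_iff_pow_eq_one, hz, ← Units.val_pow_eq_pow_val]
    constructor
    · intro h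
      exact Units.ext h
    · intro h
      rw [h, Units.val_one]
  have hzik : ∀ k : ℕ, z ^ k = 1 → zi ^ k = 1 := by
    intro k h
    have : (z * zi) ^ k = 1 := by rw [hzz, one_pow]
    rw [mul_pow, h, one_mul] at this
    exact this
  let d : ℕ → Fin 1 ⊕ Fin 1 → F := fun k => Sum.elim (fun _ => z ^ k) (fun _ => zi ^ k)
  have hdl : ∀ k j, d k (Sum.inl j) = z ^ k := fun k j => rfl
  have hdr : ∀ k j, d k (Sum.inr j) = zi ^ k := fun k j => rfl
  let A : (Fin 1 ⊕ Fin 1 → F) →ₗ[F] (Fin 1 ⊕ Fin 1 → F) := Matrix.mulVecLin (Matrix.diagonal (d 1))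
  have hAv : ∀ v j, A v j = d 1 j * v j := by
    intro v j
    show (Matrix.diagonal (d 1) *ᵥ v) j = _
    rw [Matrix.mulVec_diagonal]
  let S : (Fin 1 ⊕ Fin 1 → F) →ₗ[F] (Fin 1 ⊕ Fin 1 → F) := LinearMap.funLeft F F Sum.swap
  have hSv : ∀ v j, S v j = v j.swap := fun v j => rfl
  refine dihedral_of_maps (QP 1) (nd_QP 1) (q - 1) (by omega) hcard A S ?_ ?_
    (fun k v j => d k j * v j) ?_ ?_ ?_ ?_ ?_ ?_
  · intro v
    rw [QP_apply, QP_apply]
    simp only [Cfsg.quadFormPlus, Finset.univ_unique, Finset.sum_singleton, hAv, hdl, hdr, pow_one]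
    linear_combination (v (Sum.inl default) * v (Sum.inr default)) * hzz
  · intro v
    rw [QP_apply, QP_apply]
    simp only [Cfsg.quadFormPlus, Finset.univ_unique, Finset.sum_singleton, hSv, Sum.swap_inl,
      Sum.swap_inr]
    ring
  · intro v
    funext j
    rcases j with j | j
    · simp only [hdl, pow_zero, one_mul]
    · simp only [hdr, pow_zero, one_mul]
  · intro k v
    funext j
    rw [hAv]
    rcases j with j | j
    · simp only [hdl]
      ring
    · simp only [hdr]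
      ring
  · intro k
    rw [← hzk]
    constructor
    · intro h
      have h1 := congrFun (h (fun _ => 1)) (Sum.inl 0)
      simpa only [hdl, mul_one] using h1
    · intro h v
      funext j
      rcases j with j | j
      · simp only [hdl, h, one_mul]
      · simp only [hdr, hzik k h, one_mul]
  · intro v
    funext j
    rw [hSv, hSv, Sum.swap_swap]
  · intro v
    funext j
    rw [hSv, hAv, hSv, hAv]
    rcases j with j | j
    · simp only [hdl, hdr, Sum.swap_inl, Sum.swap_inr, pow_one]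
      linear_combination (v (Sum.inl j)) * hzz
    · simp only [hdl, hdr, Sum.swap_inl, Sum.swap_inr, pow_one]
      linear_combination (v (Sum.inr j)) * hzz
  · intro k h
    have h1 := congrFun (h (Pi.single (Sum.inl 0) 1)) (Sum.inl 0)
    rw [hSv] at h1
    simp only [hdl, Sum.swap_inl, Pi.single_eq_same, mul_one] at h1
    rw [Pi.single_eq_of_ne (by simp)] at h1
    exact pow_ne_zero k hz0 h1.symm

end Plus

section Minus

variable {F : Type*} [Field F] [Fintype F]

open Cfsg.Agent.Lib.Helper45.GUOrth in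
theorem minus_dihedral_aux {K : Type*} [Field K] [Fintype K]
    (hKF : Fintype.card K = Fintype.card F ^ 2) (a b : F)
    (hab : ∀ z₁ z₂ : F, z₁ ^ 2 + a * z₁ * z₂ + b * z₂ ^ 2 = 0 → z₁ = 0 ∧ z₂ = 0) :
    Nonempty (↥(Cfsg.isometryGroup F (Cfsg.quadFormMinus 0 F a b)) ≃*
      DihedralGroup (Fintype.card F + 1)) := by
  classical
  obtain ⟨ι, θ, hθ⟩ := Cfsg.Agent.S2679.exists_root hKF a b hab
  let _ : Algebra F K := ι.toAlgebra
  have h2 : Module.finrank F K = 2 := finrank_eq_two hKF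
  obtain ⟨L, hL⟩ := Cfsg.Agent.S2641.exists_L h2 a b hab θ hθ
  rw [← QM_coe]
  have hcard : Nat.card ↥(Cfsg.isometryGroup F (⇑(QM 0 a b))) = 2 * (Fintype.card F + 1) := by
    rw [QM_coe]
    exact minus_zero a b hab
  let e : Fin 2 ≃ (Fin 0 ⊕ Fin 0) ⊕ Fin 2 := (Equiv.emptySum (Fin 0 ⊕ Fin 0) (Fin 2)).symm
  let Λ : ((Fin 0 ⊕ Fin 0) ⊕ Fin 2 → F) ≃ₗ[F] K := (LinearEquiv.funCongrLeft F F e).trans L
  have hΛ : ∀ v, Algebra.norm F (Λ v) = QM 0 a b v := by
    intro v
    have h1 : Λ v = L (v ∘ e) := rfl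
    rw [h1, hL, QM_apply]
    simp [Cfsg.quadFormMinus, e]
  obtain ⟨q, hq⟩ : ∃ q : ℕ, q = Fintype.card F := ⟨_, rfl⟩
  rw [← hq] at hKF hcard ⊢
  have hq2 : 2 ≤ q := by
    rw [hq]
    exact Fintype.one_lt_card
  obtain ⟨ζ, hζ⟩ := IsCyclic.exists_generator (α := Kˣ)
  have hordζ : orderOf ζ = q ^ 2 - 1 := by
    rw [orderOf_eq_card_of_forall_mem_zpowers hζ, Nat.card_eq_fintype_card, Fintype.card_units, hKF]
  obtain ⟨y, hy⟩ : ∃ y : K, y = ((ζ ^ (q - 1) : Kˣ) : K) := ⟨_, rfl⟩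
  have hyk : ∀ k : ℕ, y ^ k = 1 ↔ (q + 1) ∣ k := by
    intro k
    rw [hy, ← Units.val_pow_eq_pow_val, ← pow_mul]
    have h1 : ((ζ ^ ((q - 1) * k) : Kˣ) : K) = 1 ↔ ζ ^ ((q - 1) * k) = 1 := by
      constructor
      · intro h
        exact Units.ext h
      · intro h
        rw [h, Units.val_one]
    rw [h1, ← orderOf_dvd_iff_pow_eq_one, hordζ]
    have hfac : q ^ 2 - 1 = (q - 1) * (q + 1) := by
      obtain ⟨r, rfl⟩ : ∃ r, q = r + 1 := ⟨q - 1, by omega⟩
      rw [Nat.add_sub_cancel]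
      apply Nat.sub_eq_of_eq_add
      ring
    rw [hfac]
    exact Nat.mul_dvd_mul_iff_left (by omega)
  have hynorm : y * fr F K y = 1 := by
    rw [fr_apply, ← hq, ← pow_succ']
    exact (hyk (q + 1)).2 dvd_rfl
  have hnormy : Algebra.norm F y = 1 := by
    apply (algebraMap F K).injective
    rw [algebraMap_norm h2, hynorm, map_one]
  have hnormfr : ∀ x : K, Algebra.norm F (fr F K x) = Algebra.norm F x := by
    intro x
    apply (algebraMap F K).injective
    rw [algebraMap_norm h2, algebraMap_norm h2, fr_fr h2, mul_comm]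
  let A : ((Fin 0 ⊕ Fin 0) ⊕ Fin 2 → F) →ₗ[F] ((Fin 0 ⊕ Fin 0) ⊕ Fin 2 → F) :=
    Λ.symm.toLinearMap ∘ₗ LinearMap.mulLeft F y ∘ₗ Λ.toLinearMap
  have hAv : ∀ v, A v = Λ.symm (y * Λ v) := fun v => rfl
  let S : ((Fin 0 ⊕ Fin 0) ⊕ Fin 2 → F) →ₗ[F] ((Fin 0 ⊕ Fin 0) ⊕ Fin 2 → F) :=
    Λ.symm.toLinearMap ∘ₗ (fr F K).toLinearMap ∘ₗ Λ.toLinearMap
  have hSv : ∀ v, S v = Λ.symm (fr F K (Λ v)) := fun v => rfl
  refine dihedral_of_maps (QM 0 a b) (nd_QM 0 a b hab) (q + 1) (by omega) hcard A S ?_ ?_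
    (fun k v => Λ.symm (y ^ k * Λ v)) ?_ ?_ ?_ ?_ ?_ ?_
  · intro v
    rw [← hΛ, ← hΛ, hAv, LinearEquiv.apply_symm_apply, map_mul, hnormy, one_mul]
  · intro v
    rw [← hΛ, ← hΛ, hSv, LinearEquiv.apply_symm_apply, hnormfr]
  · intro v
    simp
  · intro k v
    simp only [hAv, LinearEquiv.apply_symm_apply]
    rw [pow_succ, mul_assoc]
  · intro k
    rw [← hyk]
    constructor
    · intro h
      have h1 := h (Λ.symm 1)
      simp only [LinearEquiv.apply_symm_apply, mul_one] at h1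
      exact Λ.symm.injective h1
    · intro h v
      simp only [h, one_mul, LinearEquiv.symm_apply_apply]
  · intro v
    simp only [hSv, LinearEquiv.apply_symm_apply, fr_fr h2, LinearEquiv.symm_apply_apply]
  · intro v
    simp only [hSv, hAv, LinearEquiv.apply_symm_apply, map_mul, fr_fr h2]
    rw [← mul_assoc, mul_comm (fr F K y) y, hynorm, one_mul, LinearEquiv.symm_apply_apply]
  · intro k h
    have h1 := h (Λ.symm 1)
    simp only [hSv, LinearEquiv.apply_symm_apply, map_one, mul_one] at h1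
    have h2' : y ^ k = 1 := (Λ.symm.injective h1).symm
    have hall : ∀ x : K, fr F K x = x := by
      intro x
      have h3 := h (Λ.symm x)
      simp only [hSv, LinearEquiv.apply_symm_apply, h2', one_mul] at h3
      exact Λ.symm.injective h3
    have h1' : fr F K = 1 := AlgEquiv.ext hall
    have ho := FiniteField.orderOf_frobeniusAlgEquivOfAlgebraic F K
    rw [h2] at ho
    have ho' : orderOf (fr F K) = 1 := by rw [h1', orderOf_one]
    have ho2 : orderOf (fr F K) = 2 := ho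
    omega

/-- `O⁻_2(q)` is dihedral of order `2(q+1)` -/
theorem minus_dihedral {q : ℕ} (hF : Fintype.card F = q) (a b : F)
    (hab : ∀ z₁ z₂ : F, z₁ ^ 2 + a * z₁ * z₂ + b * z₂ ^ 2 = 0 → z₁ = 0 ∧ z₂ = 0) :
    Nonempty (↥(Cfsg.isometryGroup F (Cfsg.quadFormMinus 0 F a b)) ≃* DihedralGroup (q + 1)) := by
  classical
  obtain ⟨p, hp⟩ := CharP.exists F
  have : Fact p.Prime := ⟨CharP.char_is_prime F p⟩
  have : Fintype (FiniteField.Extension F p 2) := Fintype.ofFinite _
  have hcardL : Fintype.card (FiniteField.Extension F p 2) = Fintype.card F ^ 2 := by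
    rw [Fintype.card_eq_nat_card, FiniteField.natCard_extension, Nat.card_eq_fintype_card]
  rw [← hF]
  exact minus_dihedral_aux hcardL a b hab

end Minus

end Cfsg.Agent.Lib.Helper45.OrthDih
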