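import Mathlib
import Cfsg.Agent.Lib.Helper45.S9Stmt
import Cfsg.Agent.Lib.Helper45.S8Asm
import Cfsg.Agent.Lib.Helper45.S8Dvd
import Cfsg.Agent.Lib.Helper45.OmegaRank
import Cfsg.Agent.Lib.Helper45.OmegaCenter
import Cfsg.Agent.Lib.Helper44.Inv8
import Cfsg.Agent.Lib.Helper28.S8ARITH
import Cfsg.Agent.Lib.Helper38.S8EMBED
import Cfsg.Agent.Lib.Helper38.S8SINGER
import Cfsg.Agent.Lib.Helper57.S8R1
import Cfsg.Agent.Lib.Helper60.S8GLEMB
import Cfsg.Agent.Lib.Helper60.S8PSPORD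
import Cfsg.Agent.Lib.Helper76.S8BLOCKPP
import Cfsg.Agent.Lib.Helper76.S8BLOCKMM
import Cfsg.Agent.Lib.Helper76.S8BLOCKPM
import Cfsg.Agent.Lib.Helper95.S8BLOCKPM
import Cfsg.Agent.Lib.Helper91.S8LINORD
import Cfsg.Agent.Lib.Helper91.S8P2
import Cfsg.Agent.Lib.Helper91.S8P4
import Cfsg.Agent.Lib.Helper43.S8MBL
import Cfsg.Agent.Lib.Helper98.S8U3P
import Cfsg.Agent.Lib.Helper98.S8U3M

set_option autoImplicit false

/-! S3590: unconditional facts from the landed S3589 pieces and the `Ω`-theory in characteristic 2. -/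

namespace Cfsg.Agent.Lib.Helper45.S9Base

open Module QuadraticMap Matrix
open Cfsg.Agent.Lib.Helper44.QSpace Cfsg.Agent.Lib.Helper44.OGroup
open Cfsg.Agent.Lib.Helper44.OMat Cfsg.Agent.Lib.Helper44.OMat2 Cfsg.Agent.Lib.Helper44.Omega2
open Cfsg.Agent.Lib.Helper44.CD2a Cfsg.Agent.Lib.Helper44.Parity
open Cfsg.Agent.Lib.Helper44.NegPairs
open Cfsg.Agent.Lib.Helper45.EOStmt Cfsg.Agent.Lib.Helper45.S8Stmt

universe u

section Omega

variable {F : Type u} [Field F] {ι : Type} [Fintype ι] [DecidableEq ι]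

/-- an isometry of odd order lies in `Ω` (characteristic 2) -/
theorem mem_omega_of_odd [Fintype F] [CharP F 2] (Q : QuadraticForm F (ι → F))
    (hS : Sep Q) (hG : Good Q) (g : ↥(Cfsg.isometryGroup F ⇑Q)) (hodd : Odd (orderOf g)) :
    g ∈ Cfsg.Omega F ⇑Q := by
  rw [mem_omega_iff, commutator_eq_ker_two hS hG, MonoidHom.mem_ker]
  have h1 : orderOf (parHom hS (cdp_two hS hG) (isoEquiv Q g)) ∣ orderOf g := by
    have := orderOf_map_dvd ((parHom hS (cdp_two hS hG)).comp (isoEquiv Q).toMonoidHom) g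
    simpa using this
  have h2 : orderOf (parHom hS (cdp_two hS hG) (isoEquiv Q g)) ∣ 2 := by
    have := orderOf_dvd_card (x := parHom hS (cdp_two hS hG) (isoEquiv Q g))
    simpa using this
  have h3 : orderOf (parHom hS (cdp_two hS hG) (isoEquiv Q g)) ∣ 1 := by
    have hc : Nat.Coprime (orderOf g) 2 := Nat.Coprime.symm (Nat.coprime_two_left.mpr hodd)
    have := Nat.dvd_gcd h1 h2
    rwa [hc] at this
  exact orderOf_eq_one_iff.mp (Nat.dvd_one.mp h3)

/-- an isometry of odd order has `rank (g - 1)` even (characteristic 2) -/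
theorem even_rank_of_odd [Fintype F] [CharP F 2] (Q : QuadraticForm F (ι → F))
    (hS : Sep Q) (hG : Good Q) (g : ↥(Cfsg.isometryGroup F ⇑Q)) (hodd : Odd (orderOf g)) :
    Even (((g : GL ι F) : Matrix ι ι F) - 1).rank :=
  (Cfsg.Agent.Lib.Helper45.OmegaRank.mem_omega_iff_even_rank Q hS hG g).1
    (mem_omega_of_odd Q hS hG g hodd)

end Omega

section Minus

variable {F : Type u} [Field F] [Fintype F] [CharP F 2]

/-- minus type: odd order gives even rank -/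
theorem minus_even_rank_of_odd (n : ℕ) (a b : F) (hab : Aniso a b)
    (g : ↥(Cfsg.isometryGroup F (Cfsg.quadFormMinus n F a b))) (hodd : Odd (orderOf g)) :
    Even (((g : GL ((Fin n ⊕ Fin n) ⊕ Fin 2) F) :
        Matrix ((Fin n ⊕ Fin n) ⊕ Fin 2) ((Fin n ⊕ Fin n) ⊕ Fin 2) F) - 1).rank := by
  have hS : Sep (minusQ n F a b) := Cfsg.Agent.Lib.Helper45.OmegaCenter.sep_minusQ' n a b hab
  have hG : Good (minusQ n F a b) := Cfsg.Agent.Lib.Helper44.Inv8.good_minusQ hS hab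
  exact even_rank_of_odd (minusQ n F a b) hS hG g hodd

/-- minus type: `g ∈ Ω` iff `rank (g - 1)` is even -/
theorem minus_mem_omega_iff (n : ℕ) (a b : F) (hab : Aniso a b)
    (g : ↥(Cfsg.isometryGroup F (Cfsg.quadFormMinus n F a b))) :
    g ∈ Cfsg.Omega F (Cfsg.quadFormMinus n F a b) ↔
      Even (((g : GL ((Fin n ⊕ Fin n) ⊕ Fin 2) F) :
        Matrix ((Fin n ⊕ Fin n) ⊕ Fin 2) ((Fin n ⊕ Fin n) ⊕ Fin 2) F) - 1).rank := by
  have hS : Sep (minusQ n F a b) := Cfsg.Agent.Lib.Helper45.OmegaCenter.sep_minusQ' n a b hab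
  have hG : Good (minusQ n F a b) := Cfsg.Agent.Lib.Helper44.Inv8.good_minusQ hS hab
  exact Cfsg.Agent.Lib.Helper45.OmegaRank.mem_omega_iff_even_rank (minusQ n F a b) hS hG g

/-- minus type: odd order gives membership in `Ω` -/
theorem minus_mem_omega_of_odd (n : ℕ) (a b : F) (hab : Aniso a b)
    (g : ↥(Cfsg.isometryGroup F (Cfsg.quadFormMinus n F a b))) (hodd : Odd (orderOf g)) :
    g ∈ Cfsg.Omega F (Cfsg.quadFormMinus n F a b) :=
  (minus_mem_omega_iff n a b hab g).2 (minus_even_rank_of_odd n a b hab g hodd)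

/-- the 12 numbers are element orders of `GO⁻_8(q)` (S3589) -/
theorem hasOrd_LL (a b : F) (hab : Aniso a b) :
    ∀ N ∈ LL (Fintype.card F), HasOrd (Cfsg.quadFormMinus 3 F a b) N :=
  Cfsg.Agent.Lib.Helper45.S8Asm.list_of
    Cfsg.Agent.Lib.Helper91.S8LINORD.main
    Cfsg.Agent.Lib.Helper95.S8BLOCKPM.main
    Cfsg.Agent.Lib.Helper76.S8BLOCKPP.main
    Cfsg.Agent.Lib.Helper76.S8BLOCKMM.main
    Cfsg.Agent.Lib.Helper60.S8GLEMB.main
    Cfsg.Agent.Lib.Helper38.S8SINGER.main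
    Cfsg.Agent.Lib.Helper91.S8P2.main
    Cfsg.Agent.Lib.Helper91.S8P4.main
    Cfsg.Agent.Lib.Helper98.S8U3P.main
    Cfsg.Agent.Lib.Helper98.S8U3M.main
    Cfsg.Agent.Lib.Helper57.S8R1.main
    Cfsg.Agent.Lib.Helper43.S8MBL.main
    a b hab

/-- every element order of `PSp_8(q)` divides one of the 12 numbers -/
theorem psp_dvd_LL (x : Cfsg.PSp 4 F) : ∃ N ∈ LL (Fintype.card F), orderOf x ∣ N := by
  obtain ⟨f, -, hq⟩ := FiniteField.card F 2
  obtain ⟨A, rfl⟩ := QuotientGroup.mk_surjective x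
  rw [Cfsg.Agent.Lib.Helper60.S8PSPORD.main F A]
  obtain ⟨DA, DB, c, hDA, hDB, hsum, hc, hdvd⟩ := Cfsg.Agent.Lib.Helper45.S8Dvd.upper F A
  obtain ⟨N, hN, hKN⟩ :=
    Cfsg.Agent.Lib.Helper28.S8ARITH.main (Fintype.card F) f f.pos hq DA DB c hDA hDB hsum hc
  exact ⟨N, hN, dvd_trans hdvd hKN⟩

/-- element orders of `GO⁻_8(q)` are element orders of `PSp_8(q)` -/
theorem iso_mem_psp (a b : F) (hab : Aniso a b)
    (g : ↥(Cfsg.isometryGroup F (Cfsg.quadFormMinus 3 F a b))) :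
    orderOf g ∈ Set.range (orderOf : Cfsg.PSp 4 F → ℕ) := by
  have ha := Cfsg.Agent.Lib.Helper45.S8Asm.a_ne_zero hab
  obtain ⟨φ, hφ⟩ := Cfsg.Agent.Lib.Helper38.S8EMBED.main F a b ha
  refine ⟨QuotientGroup.mk (φ g), ?_⟩
  rw [Cfsg.Agent.Lib.Helper60.S8PSPORD.main F (φ g), orderOf_injective φ hφ g]

end Minus

/-- divisors of element orders are element orders -/
theorem dvd_mem_range {G : Type*} [Group G] (x : G) (hx : 0 < orderOf x) (d : ℕ)
    (hd : d ∣ orderOf x) : d ∈ Set.range (orderOf : G → ℕ) := by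
  have hdpos : 0 < d := Nat.pos_of_dvd_of_pos hd hx
  refine ⟨x ^ (orderOf x / d), ?_⟩
  have hne : orderOf x / d ≠ 0 := by
    have := Nat.div_pos (Nat.le_of_dvd hx hd) hdpos
    omega
  rw [orderOf_pow_of_dvd hne (Nat.div_dvd_of_dvd hd)]
  exact Nat.div_div_self hd hx.ne'

end Cfsg.Agent.Lib.Helper45.S9Base
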