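import Mathlib
import Cfsg.Agent.Lib.Helper45.S9Base

set_option autoImplicit false

/-! S3590: assembly from the piece statements of `S9Stmt`. -/

namespace Cfsg.Agent.Lib.Helper45.S9Asm

open Cfsg.Agent.Lib.Helper45.EOStmt Cfsg.Agent.Lib.Helper45.S8Stmt
open Cfsg.Agent.Lib.Helper45.S9Stmt Cfsg.Agent.Lib.Helper45.S9Base

universe u

/-- the index type of the 8-dimensional minus form -/
abbrev I8 : Type := (Fin 3 ⊕ Fin 3) ⊕ Fin 2

theorem hasAff_cast {F : Type u} [Field F] {ι : Type} [Fintype ι] [DecidableEq ι]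
    {Q : (ι → F) → F} {N N' : ℕ} {ε ε' : ZMod 2} (h : HasAff Q N ε) (hN : N = N')
    (hε : ε = ε') : HasAff Q N' ε' := by
  subst hN
  subst hε
  exact h

theorem affD_zero {F : Type u} [Field F] {ι : Type} (X : (ι → F) ≃ₗ[F] (ι → F)) :
    AffD X 0 (orderOf X) := by
  intro j
  rw [orderOf_dvd_iff_pow_eq_one]
  constructor
  · exact fun h => h.1
  · intro h
    exact ⟨h, by simp⟩

/-! ### block sums -/

theorem affPP (hGlue : AFFGLUE.{u}) {F : Type u} [Field F] (k₁ k₂ : ℕ) {N₁ N₂ : ℕ}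
    {ε₁ ε₂ : ZMod 2} (h₁ : HasAff (Cfsg.quadFormPlus k₁ F) N₁ ε₁)
    (h₂ : HasAff (Cfsg.quadFormPlus k₂ F) N₂ ε₂) :
    HasAff (Cfsg.quadFormPlus (k₁ + k₂) F) (Nat.lcm N₁ N₂) (ε₁ + ε₂) := by
  refine hGlue F _ _ _ _ _ _ (Cfsg.Agent.Lib.Helper76.S8BLOCKPP.T F k₁ k₂) ?_ N₁ N₂ ε₁ ε₂ h₁ h₂
  intro u w
  unfold Cfsg.quadFormPlus
  rw [Fin.sum_univ_add]
  simp [Cfsg.Agent.Lib.Helper76.S8BLOCKPP.T]

theorem affPM (hGlue : AFFGLUE.{u}) {F : Type u} [Field F] (k m : ℕ) (a b : F) {N₁ N₂ : ℕ}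
    {ε₁ ε₂ : ZMod 2} (h₁ : HasAff (Cfsg.quadFormPlus k F) N₁ ε₁)
    (h₂ : HasAff (Cfsg.quadFormMinus m F a b) N₂ ε₂) :
    HasAff (Cfsg.quadFormMinus (k + m) F a b) (Nat.lcm N₁ N₂) (ε₁ + ε₂) := by
  refine hGlue F _ _ _ _ _ _ (Cfsg.Agent.Lib.Helper76.S8BLOCKPM.T F k m) ?_ N₁ N₂ ε₁ ε₂ h₁ h₂
  intro u w
  unfold Cfsg.quadFormPlus Cfsg.quadFormMinus
  rw [Fin.sum_univ_add]
  simp [Cfsg.Agent.Lib.Helper76.S8BLOCKPM.T, add_assoc]

theorem affMM (hGlue : AFFGLUE.{u}) {F : Type u} [Field F] [CharP F 2] (a b : F) (ha : a ≠ 0)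
    {N₁ N₂ : ℕ} {ε₁ ε₂ : ZMod 2} (h₁ : HasAff (Cfsg.quadFormMinus 0 F a b) N₁ ε₁)
    (h₂ : HasAff (Cfsg.quadFormMinus 0 F a b) N₂ ε₂) :
    HasAff (Cfsg.quadFormPlus 2 F) (Nat.lcm N₁ N₂) (ε₁ + ε₂) := by
  refine hGlue F _ _ _ _ _ _ (Cfsg.Agent.Lib.Helper76.S8BLOCKMM.T F a b ha) ?_ N₁ N₂ ε₁ ε₂ h₁ h₂
  intro u w
  have h2 : (2 : F) = 0 := CharP.cast_eq_zero F 2
  unfold Cfsg.quadFormPlus Cfsg.quadFormMinus
  simp only [Cfsg.Agent.Lib.Helper76.S8BLOCKMM.T, LinearEquiv.coe_mk, LinearMap.coe_mk,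
    AddHom.coe_mk, Fin.sum_univ_two,
    Finset.univ_eq_empty, Finset.sum_empty, Sum.elim_inl, Sum.elim_inr, Matrix.cons_val_zero,
    Matrix.cons_val_one, zero_add]
  linear_combination (u (Sum.inr 0) * w (Sum.inr 0) + a * w (Sum.inr 0) * u (Sum.inr 1) +
    b * u (Sum.inr 1) * w (Sum.inr 1)) * h2

/-! ### coercions -/

theorem pow_eq_one_iff_mat {F : Type u} [Field F] {ι : Type} [Fintype ι] [DecidableEq ι]
    {Q : (ι → F) → F} (g : ↥(Cfsg.isometryGroup F Q)) (j : ℕ) :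
    g ^ j = 1 ↔ ((g : GL ι F) : Matrix ι ι F) ^ j = 1 := by
  constructor
  · intro h
    have := congrArg (fun x : ↥(Cfsg.isometryGroup F Q) => ((x : GL ι F) : Matrix ι ι F)) h
    simpa using this
  · intro h
    apply Subtype.ext
    apply Units.ext
    simpa using h

/-! ### arithmetic -/

theorem even_card {F : Type u} [Field F] [Fintype F] [CharP F 2] : Even (Fintype.card F) := by
  obtain ⟨f, -, hq⟩ := FiniteField.card F 2
  rw [hq]
  exact (Nat.even_pow.mpr ⟨even_two, f.pos.ne'⟩)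

theorem odd_lcm {x y : ℕ} (hx : Odd x) (hy : Odd y) : Odd (Nat.lcm x y) :=
  Odd.of_dvd_nat (hx.mul hy) (Nat.lcm_dvd_mul x y)

theorem odd_pow_add_one {q : ℕ} (hq : Even q) (k : ℕ) (hk : 1 ≤ k) : Odd (q ^ k + 1) :=
  Even.add_one (Nat.even_pow.mpr ⟨hq, by omega⟩)

theorem odd_pow_sub_one {q : ℕ} (hq : Even q) (hq2 : 2 ≤ q) (k : ℕ) (hk : 1 ≤ k) :
    Odd (q ^ k - 1) := by
  have h1 : 1 ≤ q ^ k := Nat.one_le_pow _ _ (by omega)
  exact Nat.Even.sub_odd h1 (Nat.even_pow.mpr ⟨hq, by omega⟩) odd_one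

/-! ### the affine list -/

theorem aff_singer (hGl : AGL.{u}) {F : Type u} [Field F] [Fintype F] (k : ℕ) (hk : 1 ≤ k) :
    HasAff (Cfsg.quadFormPlus k F) (Fintype.card F ^ k - 1) 0 := by
  obtain ⟨A, hA⟩ := Cfsg.Agent.Lib.Helper38.S8SINGER.main F k hk
  rw [← hA]
  exact hGl F k A

theorem aff_mbl (hConv : CONV.{u}) {F : Type u} [Field F] [Fintype F] [CharP F 2] (a b : F)
    (hab : Aniso a b) (n : ℕ) :
    HasAff (Cfsg.quadFormMinus n F a b) (Fintype.card F ^ (n + 1) + 1) 0 := by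
  obtain ⟨X, hX, hord⟩ := Cfsg.Agent.Lib.Helper43.S8MBL.main F a b hab n
  obtain ⟨ε, hε⟩ : ∃ ε : ZMod 2,
      ((Module.finrank F (LinearMap.range (X.toLinearMap - LinearMap.id)) : ℕ) : ZMod 2) = ε :=
    ⟨_, rfl⟩
  have hA : HasAff (Cfsg.quadFormMinus n F a b) (Fintype.card F ^ (n + 1) + 1) ε :=
    ⟨X, 0, hX, hord ▸ affD_zero X, hε⟩
  obtain ⟨g, w, hD, hr⟩ := hConv F _ _ _ _ hA
  have hgN : orderOf g ∣ Fintype.card F ^ (n + 1) + 1 :=
    orderOf_dvd_of_pow_eq_one ((pow_eq_one_iff_mat g _).2 ((hD _).2 dvd_rfl).1)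
  have hodd : Odd (orderOf g) :=
    Odd.of_dvd_nat (odd_pow_add_one even_card (n + 1) (by omega)) hgN
  have hev := minus_even_rank_of_odd n a b hab g hodd
  have h0 : ε = 0 := by
    rw [← hr]
    exact ZMod.natCast_eq_zero_iff_even.mpr hev
  subst h0
  exact hA

theorem aff_list (hGlue : AFFGLUE.{u}) (hP2 : AP2.{u}) (hP4 : AP4.{u}) (hR1 : AR1.{u})
    (hId : AID.{u}) (hGl : AGL.{u}) (hConv : CONV.{u})
    {F : Type u} [Field F] [Fintype F] [CharP F 2] (a b : F) (hab : Aniso a b) :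
    ∀ N ∈ LL (Fintype.card F), Odd N ∨ HasAff (Cfsg.quadFormMinus 3 F a b) N 0 := by
  have ha : a ≠ 0 := Cfsg.Agent.Lib.Helper45.S8Asm.a_ne_zero hab
  have hqe : Even (Fintype.card F) := even_card
  have hq2 : 2 ≤ Fintype.card F := Fintype.one_lt_card
  obtain ⟨q, hq⟩ : ∃ q, q = Fintype.card F := ⟨_, rfl⟩
  rw [← hq] at hqe hq2 ⊢
  have PA : ∀ k, 1 ≤ k → HasAff (Cfsg.quadFormPlus k F) (q ^ k - 1) 0 := by
    intro k hk
    rw [hq]
    exact aff_singer hGl k hk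
  have MBn : ∀ n, HasAff (Cfsg.quadFormMinus n F a b) (q ^ (n + 1) + 1) 0 := by
    intro n
    rw [hq]
    exact aff_mbl hConv a b hab n
  have PA1 : HasAff (Cfsg.quadFormPlus 1 F) (q - 1) 0 := by
    have := PA 1 le_rfl
    rwa [pow_one] at this
  have MB0 : HasAff (Cfsg.quadFormMinus 0 F a b) (q + 1) 0 := by
    have := MBn 0
    rwa [zero_add, pow_one] at this
  have IDp : HasAff (Cfsg.quadFormPlus 1 F) 2 0 := hId F _ _
  have IDm : HasAff (Cfsg.quadFormMinus 0 F a b) 2 0 := hId F _ _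
  have P2a : HasAff (Cfsg.quadFormPlus 1 F) 4 1 := (hP2 F).1
  have P2b : HasAff (Cfsg.quadFormPlus 1 F) 2 1 := (hP2 F).2
  have P4' : HasAff (Cfsg.quadFormPlus 2 F) 8 1 := hP4 F
  have R1' : HasAff (Cfsg.quadFormMinus 0 F a b) 2 1 := hR1 F a b ha
  have U4 : HasAff (Cfsg.quadFormPlus 2 F) 4 0 :=
    hasAff_cast (affPP hGlue 1 1 P2a P2b) (by decide) (by decide)
  have U8M : HasAff (Cfsg.quadFormMinus 2 F a b) 8 0 :=
    hasAff_cast (affPM hGlue 2 0 a b P4' R1') (by decide) (by decide)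
  have U8P : HasAff (Cfsg.quadFormPlus 3 F) 8 0 :=
    hasAff_cast (affPP hGlue 2 1 P4' P2b) (by decide) (by decide)
  intro N hN
  simp only [LL, List.mem_cons, List.not_mem_nil, or_false] at hN
  rcases hN with rfl | rfl | rfl | rfl | rfl | rfl | rfl | rfl | rfl | rfl | rfl | rfl
  · exact Or.inl (odd_pow_add_one hqe 4 (by norm_num))
  · exact Or.inl (odd_lcm (odd_pow_sub_one hqe hq2 2 (by norm_num))
      (odd_pow_add_one hqe 2 (by norm_num)))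
  · exact Or.inl (odd_lcm (odd_pow_sub_one hqe hq2 3 (by norm_num))
      (by simpa using odd_pow_add_one hqe 1 le_rfl))
  · exact Or.inl (odd_lcm (by simpa using odd_pow_sub_one hqe hq2 1 le_rfl)
      (odd_pow_add_one hqe 3 (by norm_num)))
  · exact Or.inr (hasAff_cast (affPM hGlue 3 0 a b (PA 3 (by norm_num)) IDm) rfl (by decide))
  · exact Or.inr (hasAff_cast (affPM hGlue 1 2 a b IDp (MBn 2)) rfl (by decide))
  · exact Or.inr (hasAff_cast (affPM hGlue 2 1 a b (affPP hGlue 1 1 PA1 IDp) (MBn 1)) rfl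
      (by decide))
  · exact Or.inr (hasAff_cast (affPM hGlue 2 1 a b (affMM hGlue a b ha MB0 IDm) (MBn 1)) rfl
      (by decide))
  · exact Or.inr (hasAff_cast (affPM hGlue 3 0 a b (affPP hGlue 1 2 PA1 U4) MB0) rfl
      (by decide))
  · exact Or.inr (hasAff_cast (affPM hGlue 2 1 a b U4 (MBn 1)) rfl (by decide))
  · exact Or.inr (hasAff_cast (affPM hGlue 1 2 a b PA1 U8M) rfl (by decide))
  · exact Or.inr (hasAff_cast (affPM hGlue 3 0 a b U8P MB0) rfl (by decide))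

/-- each of the 12 numbers is the order of an affine map `(w, g)`, `g ∈ Ω` -/
theorem c_main (hGlue : AFFGLUE.{u}) (hP2 : AP2.{u}) (hP4 : AP4.{u}) (hR1 : AR1.{u})
    (hId : AID.{u}) (hGl : AGL.{u}) (hConv : CONV.{u})
    {F : Type u} [Field F] [Fintype F] [CharP F 2] (a b : F) (hab : Aniso a b) :
    ∀ N ∈ LL (Fintype.card F),
      ∃ g : ↥(Cfsg.isometryGroup F (Cfsg.quadFormMinus 3 F a b)),
        g ∈ Cfsg.Omega F (Cfsg.quadFormMinus 3 F a b) ∧ ∃ w : I8 → F, ∀ j : ℕ,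
          (((g : GL I8 F) : Matrix I8 I8 F) ^ j = 1 ∧
            (∑ i ∈ Finset.range j, ((g : GL I8 F) : Matrix I8 I8 F) ^ i).mulVec w = 0) ↔ N ∣ j := by
  intro N hN
  rcases aff_list hGlue hP2 hP4 hR1 hId hGl hConv a b hab N hN with hodd | hA
  · obtain ⟨g, hg⟩ := hasOrd_LL a b hab N hN
    refine ⟨g, minus_mem_omega_of_odd 3 a b hab g (hg ▸ hodd), 0, ?_⟩
    intro j
    rw [Matrix.mulVec_zero, ← hg, orderOf_dvd_iff_pow_eq_one, pow_eq_one_iff_mat]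
    simp
  · obtain ⟨g, w, hD, hr⟩ := hConv F _ _ _ _ hA
    exact ⟨g, (minus_mem_omega_iff 3 a b hab g).2 (ZMod.natCast_eq_zero_iff_even.mp hr), w, hD⟩

/-! ### the upper bound -/

theorem b_main (hNorm : NORM.{u}) (hChain : CHAIN.{u}) (hAlg : ALG.{u}) (hOdd : ODDPART.{u})
    (hGram : GRAM.{u})
    {F : Type u} [Field F] [Fintype F] [CharP F 2] (a b : F) (hab : Aniso a b)
    (g : ↥(Cfsg.isometryGroup F (Cfsg.quadFormMinus 3 F a b)))
    (hev : Even (((g : GL I8 F) : Matrix I8 I8 F) - 1).rank) (w : I8 → F)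
    (hw : (∑ j ∈ Finset.range (orderOf g), ((g : GL I8 F) : Matrix I8 I8 F) ^ j).mulVec w ≠ 0) :
    ∃ N ∈ LL (Fintype.card F), 2 * orderOf g ∣ N := by
  have ha := Cfsg.Agent.Lib.Helper45.S8Asm.a_ne_zero hab
  obtain ⟨f, -, hq⟩ := FiniteField.card F 2
  obtain ⟨M, hM⟩ : ∃ M : Matrix I8 I8 F, M = ((g : GL I8 F) : Matrix I8 I8 F) := ⟨_, rfl⟩
  rw [← hM] at hev hw
  have hMpow : ∀ j : ℕ, g ^ j = 1 ↔ M ^ j = 1 := by
    intro j
    rw [hM]
    exact pow_eq_one_iff_mat g j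
  have hn0 : orderOf g ≠ 0 := (orderOf_pos g).ne'
  obtain ⟨t, n', hn'odd, hn⟩ := Nat.exists_eq_two_pow_mul_odd hn0
  have hMn : M ^ (2 ^ t * n') = 1 := by
    rw [← hn]
    exact (hMpow _).1 (pow_orderOf_eq_one g)
  rw [hn] at hw
  obtain ⟨v, hv0, hv1⟩ := hNorm F _ M t n' w hMn hw
  obtain ⟨hc1, hc2⟩ := hChain F _ (M - 1) (2 ^ t) v Nat.one_le_two_pow hv0 hv1
  have halg := hAlg F _ M (2 ^ t)
  obtain ⟨J, hJ, hJg⟩ := hGram F a b ha
  obtain ⟨DA, DB, c₀, hDA, hDB, hbud, hpow⟩ := hOdd F _ J M hJ (hM ▸ hJg g)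
  have hcard : Fintype.card I8 = 8 := by simp [I8]
  rw [hcard] at hc2 halg hbud
  obtain ⟨r, hr⟩ := hev
  obtain ⟨m, hm⟩ : ∃ m, m = 2 ^ t := ⟨_, rfl⟩
  rw [← hm] at hc1 halg
  have hSig : 2 * (DA.sum id + DB.sum id) + m + 1 ≤ 8 := by omega
  have ht : t ≤ 2 := by
    by_contra hcon
    have h8 : 2 ^ 3 ≤ 2 ^ t := Nat.pow_le_pow_right (by norm_num) (by omega)
    omega
  have hsum : DA.sum id + DB.sum id + (t + 1) ≤ 4 := by
    rcases (by omega : t = 0 ∨ t = 1 ∨ t = 2) with rfl | rfl | rfl <;> norm_num at hm <;> omega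
  obtain ⟨N, hN, hKN⟩ := Cfsg.Agent.Lib.Helper28.S8ARITH.main (Fintype.card F) f f.pos hq DA DB
    (t + 1) hDA hDB hsum (by omega)
  refine ⟨N, hN, dvd_trans ?_ hKN⟩
  have hdvd : orderOf g ∣
      Nat.lcm (SA (Fintype.card F) DA) (SB (Fintype.card F) DB) * 2 ^ c₀ :=
    orderOf_dvd_of_pow_eq_one ((hMpow _).2 hpow)
  have hn'dvd : n' ∣ Nat.lcm (SA (Fintype.card F) DA) (SB (Fintype.card F) DB) := by
    have h1 : n' ∣ Nat.lcm (SA (Fintype.card F) DA) (SB (Fintype.card F) DB) * 2 ^ c₀ :=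
      dvd_trans (Dvd.intro_left _ hn.symm) hdvd
    have hcop : Nat.Coprime n' (2 ^ c₀) :=
      Nat.Coprime.pow_right _ (Nat.coprime_two_right.mpr hn'odd)
    exact hcop.dvd_of_dvd_mul_right h1
  rw [hn]
  obtain ⟨e, he⟩ := hn'dvd
  rw [he]
  exact ⟨e, by ring⟩

/-! ### the final statement -/

theorem final_of (hSemi : SEMI.{u}) (hTrans : TRANS.{u}) (hAn : ANISO.{u})
    (hNorm : NORM.{u}) (hChain : CHAIN.{u}) (hAlg : ALG.{u}) (hOdd : ODDPART.{u})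
    (hGram : GRAM.{u}) (hGlue : AFFGLUE.{u}) (hP2 : AP2.{u}) (hP4 : AP4.{u}) (hR1 : AR1.{u})
    (hId : AID.{u}) (hGl : AGL.{u}) (hConv : CONV.{u})
    {F : Type u} [Field F] [Fintype F] [CharP F 2] (M : ℕ) :
    ∃ (H : Type) (_ : Group H) (_ : Fintype H), M < Fintype.card H ∧
      Set.range (orderOf : H → ℕ) = Set.range (orderOf : Cfsg.PSp 4 F → ℕ) := by
  obtain ⟨a, b, hab⟩ := hAn F
  obtain ⟨H₀, iG₀, iF₀, hcard, hspec⟩ := hSemi F I8
    ((Cfsg.Omega F (Cfsg.quadFormMinus 3 F a b)).map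
      (Cfsg.isometryGroup F (Cfsg.quadFormMinus 3 F a b)).subtype) (M + 1)
  obtain ⟨H, iG, iF, hcardH, hrange⟩ := hTrans H₀
  refine ⟨H, iG, iF, ?_, ?_⟩
  · rw [hcardH, hcard]
    have hq2 : 2 ≤ Fintype.card F := Fintype.one_lt_card
    have hG : 0 < Nat.card ↥((Cfsg.Omega F (Cfsg.quadFormMinus 3 F a b)).map
      (Cfsg.isometryGroup F (Cfsg.quadFormMinus 3 F a b)).subtype) := Nat.card_pos
    have hcardI : Fintype.card I8 = 8 := by simp [I8]
    rw [hcardI]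
    calc M < 2 ^ M := Nat.lt_two_pow_self
      _ ≤ 2 ^ (8 * (M + 1)) := Nat.pow_le_pow_right (by norm_num) (by omega)
      _ ≤ Fintype.card F ^ (8 * (M + 1)) := Nat.pow_le_pow_left hq2 _
      _ ≤ _ := Nat.le_mul_of_pos_right _ hG
  · rw [hrange]
    ext n
    constructor
    · intro hn
      obtain ⟨g, hgG, w, hD⟩ := (hspec n).1 hn
      obtain ⟨h, hhΩ, rfl⟩ := hgG
      have hD' : ∀ j : ℕ, (((h : GL I8 F) : Matrix I8 I8 F) ^ j = 1 ∧
          ∀ l, (∑ i ∈ Finset.range j, ((h : GL I8 F) : Matrix I8 I8 F) ^ i).mulVec (w l) = 0) ↔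
            n ∣ j := fun j => hD j
      have hh1 : ((h : GL I8 F) : Matrix I8 I8 F) ^ orderOf h = 1 :=
        (pow_eq_one_iff_mat h _).1 (pow_orderOf_eq_one h)
      have h2 : orderOf h ∣ n :=
        orderOf_dvd_of_pow_eq_one ((pow_eq_one_iff_mat h n).2 ((hD' n).2 dvd_rfl).1)
      by_cases hall : ∀ l, (∑ i ∈ Finset.range (orderOf h),
          ((h : GL I8 F) : Matrix I8 I8 F) ^ i).mulVec (w l) = 0
      · have h1 : n ∣ orderOf h := (hD' _).1 ⟨hh1, hall⟩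
        rw [Nat.dvd_antisymm h1 h2]
        exact iso_mem_psp a b hab h
      · obtain ⟨l, hl⟩ := not_forall.mp hall
        obtain ⟨N, hN, h2N⟩ := b_main hNorm hChain hAlg hOdd hGram a b hab h
          ((minus_mem_omega_iff 3 a b hab h).1 hhΩ) (w l) hl
        have h1 : n ∣ 2 * orderOf h := by
          refine (hD' _).1 ⟨?_, fun l' => ?_⟩
          · rw [pow_mul']
            rw [hh1, one_pow]
          · have hs : ∑ i ∈ Finset.range (2 * orderOf h), ((h : GL I8 F) : Matrix I8 I8 F) ^ i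
                = ∑ i ∈ Finset.range (orderOf h), ((h : GL I8 F) : Matrix I8 I8 F) ^ i
                  + ∑ i ∈ Finset.range (orderOf h), ((h : GL I8 F) : Matrix I8 I8 F) ^ i := by
              rw [two_mul, Finset.sum_range_add]
              congr 1
              apply Finset.sum_congr rfl
              intro i _
              rw [pow_add, hh1, one_mul]
            rw [hs, Matrix.add_mulVec]
            funext i
            exact CharTwo.add_self_eq_zero _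
        obtain ⟨g', hg'⟩ := hasOrd_LL a b hab N hN
        obtain ⟨g'', hg''⟩ := dvd_mem_range g' (orderOf_pos g') n
          (by rw [hg']; exact dvd_trans h1 h2N)
        rw [← hg'']
        exact iso_mem_psp a b hab g''
    · intro hn
      obtain ⟨x, rfl⟩ := hn
      obtain ⟨N, hN, hxN⟩ := psp_dvd_LL x
      obtain ⟨g, hgΩ, w, hD⟩ := c_main hGlue hP2 hP4 hR1 hId hGl hConv a b hab N hN
      have hNmem : N ∈ Set.range (orderOf : H₀ → ℕ) := by
        refine (hspec N).2 ⟨(g : GL I8 F), ⟨g, hgΩ, rfl⟩, fun _ => w, fun j => ?_⟩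
        rw [← hD j]
        constructor
        · exact fun h => ⟨h.1, h.2 0⟩
        · exact fun h => ⟨h.1, fun _ => h.2⟩
      obtain ⟨y, hy⟩ := hNmem
      exact dvd_mem_range y (orderOf_pos y) _ (by rw [hy]; exact hxN)

end Cfsg.Agent.Lib.Helper45.S9Asm
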