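import Mathlib
import Cfsg.Prelude.Def_LieTypeDatum
import Cfsg.Agent.Lib.Helper44.MaxTS3
import Cfsg.Agent.Lib.Helper44.TSTrans

set_option autoImplicit false

/-! Maximal totally singular subspaces of a hyperbolic space: the two parity classes and the
similarities preserving them. -/

namespace Cfsg.Agent.Lib.Helper45.SingClass

open Module QuadraticMap
open Cfsg.Agent.Lib.Helper44.QSpace Cfsg.Agent.Lib.Helper44.OGroup
open Cfsg.Agent.Lib.Helper44.MaxTS Cfsg.Agent.Lib.Helper44.MaxTS2 Cfsg.Agent.Lib.Helper44.TSTrans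
open Cfsg.Agent.Lib.Helper44.CartanD

universe u

section Abstract

variable {F : Type*} [Field F] {V : Type u} [AddCommGroup V] [Module F V] [FiniteDimensional F V]
variable {Q : QuadraticForm F V} {k : ℕ}

/-- A totally singular subspace has at most half the dimension. -/
theorem ts_finrank_le (hS : Sep Q) (hV : finrank F V = 2 * k) {W : Submodule F V}
    (hW : ∀ w ∈ W, Q w = 0) : finrank F W ≤ k := by
  have h1 : W ≤ LinearMap.BilinForm.orthogonal (polarBilin Q) W := by
    intro x hx y hy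
    exact polar_of_sing hW hy hx
  have h3 := Submodule.finrank_mono h1
  rw [LinearMap.BilinForm.finrank_orthogonal (nondegenerate_of_sep hS), hV] at h3
  have h4 : finrank F W ≤ finrank F V := Submodule.finrank_le W
  omega

/-- A totally singular subspace of half the dimension is maximal. -/
theorem max_of_ts (hS : Sep Q) (hV : finrank F V = 2 * k) {U : Submodule F V} (hU : TS Q k U)
    (W : Submodule F V) (hW : ∀ w ∈ W, Q w = 0) (hUW : U ≤ W) : W = U := by
  symm
  apply Submodule.eq_of_le_of_finrank_le hUW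
  rw [hU.1]
  exact ts_finrank_le hS hV hW

/-- A maximal totally singular subspace has half the dimension, if some totally singular subspace
has. -/
theorem ts_of_max (hS : Sep Q) (hV : finrank F V = 2 * k) {U₀ : Submodule F V}
    (hU₀ : TS Q k U₀) {U : Submodule F V} (hU : ∀ u ∈ U, Q u = 0)
    (hmax : ∀ W : Submodule F V, (∀ w ∈ W, Q w = 0) → U ≤ W → W = U) : TS Q k U := by
  have hd : finrank F U ≤ finrank F U₀ := by
    rw [hU₀.1]; exact ts_finrank_le hS hV hU
  obtain ⟨f, hf⟩ := exists_linearIndependent_of_le_finrank hd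
  have hf' : LinearIndependent F (fun i => (f i : V)) :=
    hf.map' U₀.subtype (Submodule.ker_subtype _)
  set U₁ : Submodule F V := Submodule.span F (Set.range (fun i => (f i : V))) with hU₁
  have hU₁d : finrank F U₁ = finrank F U := by
    rw [hU₁, finrank_span_eq_card hf', Fintype.card_fin]
  have hU₁le : U₁ ≤ U₀ := by
    rw [hU₁, Submodule.span_le]
    rintro _ ⟨i, rfl⟩
    exact (f i).2
  have hU₁s : ∀ u ∈ U₁, Q u = 0 := fun u hu => hU₀.2 u (hU₁le hu)
  obtain ⟨vs, -, hmap⟩ := exists_prod_map hS _ U₁ U hU₁s hU hU₁d rfl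
  have hgO : (vs.map (reflE Q)).prod ∈ O Q := prod_reflE_mem Q vs
  have hTS := ts_map hgO hU₀
  have hle : U ≤ U₀.map (((vs.map (reflE Q)).prod : V ≃ₗ[F] V) : V →ₗ[F] V) := by
    rw [← hmap]
    exact Submodule.map_mono hU₁le
  have := hmax _ hTS.2 hle
  rw [← this]
  exact hTS

/-- The image of a totally singular subspace under a similarity. -/
theorem ts_map_sim {g : V ≃ₗ[F] V} {c : F} (hg : ∀ v, Q (g v) = c * Q v) {U : Submodule F V}
    (hU : TS Q k U) : TS Q k (U.map (g : V →ₗ[F] V)) := by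
  refine ⟨?_, ?_⟩
  · rw [LinearEquiv.finrank_map_eq, hU.1]
  · rintro _ ⟨u, hu, rfl⟩
    show Q (g u) = 0
    rw [hg u, hU.2 u hu, mul_zero]

theorem finrank_map_inf (g : V ≃ₗ[F] V) (A B : Submodule F V) :
    finrank F ↥(A.map (g : V →ₗ[F] V) ⊓ B.map (g : V →ₗ[F] V)) = finrank F ↥(A ⊓ B) := by
  rw [← Submodule.map_inf _ g.injective, LinearEquiv.finrank_map_eq]

/-- The parity of `U` against `gU` does not depend on `U`, for a similarity `g`. -/
theorem parity_const (hS : Sep Q) (hV : finrank F V = 2 * k) {g : V ≃ₗ[F] V} {c : F}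
    (hg : ∀ v, Q (g v) = c * Q v) {U₀ U : Submodule F V} (hU₀ : TS Q k U₀) (hU : TS Q k U) :
    (k - finrank F ↥(U ⊓ U.map (g : V →ₗ[F] V))) % 2
      = (k - finrank F ↥(U₀ ⊓ U₀.map (g : V →ₗ[F] V))) % 2 := by
  have hgU₀ := ts_map_sim hg hU₀
  have hgU := ts_map_sim hg hU
  have h1 := ts_parity hS hV _ hU₀ hgU₀ hU rfl
  have h2 := ts_parity hS hV _ hgU₀ hgU hU rfl
  rw [finrank_map_inf g U₀ U, inf_comm U₀ U] at h2
  omega

end Abstract

section Concrete

variable {F : Type*} [Field F] {ι : Type} [Fintype ι] [DecidableEq ι]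
variable {Q : QuadraticForm F (ι → F)} {k : ℕ}

open Cfsg.Agent.Lib.Helper44.OMat

theorem toLin'_eq (g : GL ι F) :
    Matrix.toLin' (g : Matrix ι ι F) = ((glEquiv g : (ι → F) ≃ₗ[F] (ι → F)) : (ι → F) →ₗ[F] (ι → F)) := by
  apply LinearMap.ext
  intro x
  rw [Matrix.toLin'_apply]
  rfl

theorem isMax_of_ts (hS : Sep Q) (hV : Fintype.card ι = 2 * k) {U : Submodule F (ι → F)}
    (hU : TS Q k U) : Cfsg.IsMaxTotallySingular (⇑Q) U :=
  ⟨hU.2, fun W hW hUW =>
    max_of_ts hS (by rw [Module.finrank_fintype_fun_eq_card]; exact hV) hU W hW hUW⟩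

theorem ts_of_isMax (hS : Sep Q) (hV : Fintype.card ι = 2 * k) {U₀ : Submodule F (ι → F)}
    (hU₀ : TS Q k U₀) {U : Submodule F (ι → F)} (hU : Cfsg.IsMaxTotallySingular (⇑Q) U) :
    TS Q k U :=
  ts_of_max hS (by rw [Module.finrank_fintype_fun_eq_card]; exact hV) hU₀ hU.1 hU.2

/-- **Class-preserving similarities**: a similarity preserves the two classes of maximal totally
singular subspaces iff it maps one fixed such subspace into its own class. -/
theorem preserves_iff (hS : Sep Q) (hV : Fintype.card ι = 2 * k) {U₀ : Submodule F (ι → F)}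
    (hU₀ : TS Q k U₀) (g : GL ι F) {c : F}
    (hg : ∀ v, Q ((g : Matrix ι ι F).mulVec v) = c * Q v) :
    Cfsg.PreservesSingularClasses (⇑Q) (g : Matrix ι ι F) ↔
      Even (k - finrank F ↥(U₀ ⊓ U₀.map (Matrix.toLin' (g : Matrix ι ι F)))) := by
  have hV' : finrank F (ι → F) = 2 * k := by rw [Module.finrank_fintype_fun_eq_card]; exact hV
  have hg' : ∀ v, Q (glEquiv g v) = c * Q v := hg
  constructor
  · intro h
    have h1 := h U₀ (isMax_of_ts hS hV hU₀)
    unfold Cfsg.SameParityClass Cfsg.imageSubmodule at h1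
    rw [hU₀.1] at h1
    exact h1
  · intro h U hU
    have hTS := ts_of_isMax hS hV hU₀ hU
    unfold Cfsg.SameParityClass Cfsg.imageSubmodule
    rw [hTS.1, toLin'_eq, Nat.even_iff, parity_const hS hV' hg' hU₀ hTS, ← toLin'_eq,
      ← Nat.even_iff]
    exact h

end Concrete

end Cfsg.Agent.Lib.Helper45.SingClass
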